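import Mathlib
import Cfsg.Agent.Lib.Helper52.SpStmt
import Cfsg.Agent.H85.PSL2Inv

/-!
# S5320 (the 2-fusion system of `PSp₄(q)`, `q` odd, is simple): piece statements

Every piece is a `Prop` here; it is proved in its own file as
`theorem main : Cfsg.Agent.Lib.Helper38.Sp4Stmt.<Name>` (see the board call).

Setting.  `L = SL₂(F)`, `G = PSp₄(F)`, `ψ : L × L →* G` the block embedding modulo `±1`,
`τ` the image of the swap, `ε = -1`, `z = ψ (ε, 1)`.  `C_G(z) = ψ(L × L)⟨τ⟩` and `τ ~ z`.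
`Q` is the explicit Sylow `2`-subgroup `Qst = Cst ∪ Cst·yy` of `L` (`Cst` = the `2`-elements
commuting with `w0 = [[0,-1],[1,0]]`, `yy = [[x,y],[y,-x]]` with `x² + y² = -1`), and
`S0 = ψ(Q × Q)⟨τ⟩`.  No cardinality is used anywhere.
-/

set_option autoImplicit false

namespace Cfsg.Agent.Lib.Helper38.Sp4Stmt

open Matrix

universe u v

/-! ## abstract part: definitions -/

/-- The abstract setting: `ε` is the unique involution of `L` (and central), `ψ : L × L →* G` has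
kernel `{1, (ε, ε)}`, `τ` is an involution swapping the two factors, not in the image of `ψ`, the
centralizer of `z = ψ (ε, 1)` is `ψ(L × L) ∪ ψ(L × L) τ`, and `τ` is conjugate to `z`. -/
structure Data {G : Type u} {L : Type v} [Group G] [Group L] (ψ : L × L →* G) (τ : G) (ε : L) :
    Prop where
  eps_sq : ε * ε = 1
  eps_ne : ε ≠ 1
  eps_comm : ∀ x : L, ε * x = x * ε
  eps_unique : ∀ x : L, x * x = 1 → x = 1 ∨ x = ε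
  ker : ∀ a b : L, ψ (a, b) = 1 → (a = 1 ∧ b = 1) ∨ (a = ε ∧ b = ε)
  ker_eps : ψ (ε, ε) = 1
  tau_sq : τ * τ = 1
  tau_conj : ∀ a b : L, τ * ψ (a, b) * τ⁻¹ = ψ (b, a)
  tau_not : ∀ a b : L, τ ≠ ψ (a, b)
  cent : ∀ g : G, g * ψ (ε, 1) = ψ (ε, 1) * g → ∃ a b : L, g = ψ (a, b) ∨ g = ψ (a, b) * τ
  fus : ∃ g : G, τ = g * ψ (ε, 1) * g⁻¹

/-- `S0 = ψ(Q × Q)⟨τ⟩` -/
def S0 {G : Type u} {L : Type v} [Group G] [Group L] (ψ : L × L →* G) (τ : G) (Q : Subgroup L) :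
    Subgroup G :=
  Subgroup.closure {x : G | x = τ ∨ ∃ a ∈ Q, ∃ b ∈ Q, x = ψ (a, b)}

/-- The hypotheses on the `2`-subgroup `Q` of `L`. -/
structure QData {L : Type v} [Group L] (ε : L) (Q : Subgroup L) : Prop where
  eps_mem : ε ∈ Q
  two : ∀ a ∈ Q, ∃ k : ℕ, a ^ (2 ^ k) = 1
  cen : ∀ a ∈ Q, (∀ c ∈ Q, a * c = c * a) → a = 1 ∨ a = ε
  big : ∃ c ∈ Q, c ≠ 1 ∧ c ≠ ε
  foc : ∀ c ∈ Q, c ∈ Subgroup.closure
    {y : L | ∃ a ∈ Q, ∃ g : L, g * a * g⁻¹ ∈ Q ∧ y = a⁻¹ * (g * a * g⁻¹)}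

/-- The quaternion case: `Q` behaves like `Q₈` and `N_L(Q) = Q⟨w⟩`, `w³ = 1`. -/
structure Q8Data {L : Type v} [Group L] (ε : L) (Q : Subgroup L) (w : L) : Prop where
  conj : ∀ a ∈ Q, ∀ c ∈ Q, c * a * c⁻¹ = a ∨ c * a * c⁻¹ = ε * a
  sq : ∀ c ∈ Q, c * c = 1 ∨ c * c = ε
  w_norm : ∀ c ∈ Q, w * c * w⁻¹ ∈ Q
  w_cube : w * w * w = 1
  w_ne : w ≠ 1
  norm : ∀ a : L, (∀ c ∈ Q, a * c * a⁻¹ ∈ Q) → ∃ c ∈ Q, a = c ∨ a = c * w ∨ a = c * (w * w)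
  triv : ∀ a : L, (∀ c ∈ Q, a * c * a⁻¹ = c ∨ a * c * a⁻¹ = ε * c) → a ∈ Q

/-- `A = ψ(δ Q)⟨z, τ⟩` (elementary abelian of order 16 in the quaternion case) -/
def AA {G : Type u} {L : Type v} [Group G] [Group L] (ψ : L × L →* G) (τ : G) (ε : L)
    (Q : Subgroup L) : Subgroup G :=
  Subgroup.closure {x : G | x = τ ∨ x = ψ (ε, 1) ∨ ∃ a ∈ Q, x = ψ (a, a)}

/-- The extra `2`-element `x0` normalizing `A`: it swaps `z` and `τ`, normalizes `ψ(δ Q)` and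
inverts `d = ψ (w, w)` modulo `ψ(δ Q)`. -/
structure X0Data {G : Type u} {L : Type v} [Group G] [Group L] (ψ : L × L →* G) (τ : G) (ε : L)
    (Q : Subgroup L) (w : L) (x0 : G) : Prop where
  pow : ∃ k : ℕ, x0 ^ (2 ^ k) = 1
  z_tau : x0 * ψ (ε, 1) * x0⁻¹ = τ
  tau_z : x0 * τ * x0⁻¹ = ψ (ε, 1)
  delta : ∀ c ∈ Q, ∃ c' ∈ Q, x0 * ψ (c, c) * x0⁻¹ = ψ (c', c')
  inv : ∃ c ∈ Q, x0 * ψ (w, w) * x0⁻¹ * ψ (w, w) = ψ (c, c)

/-! ## abstract part: pieces -/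

/-- [SNF] normal form of the elements of `S0` -/
def SNF : Prop := ∀ (G : Type u) (L : Type v) [Group G] [Group L] (ψ : L × L →* G) (τ : G)
  (ε : L) (Q : Subgroup L), Data ψ τ ε →
    ∀ x : G, x ∈ S0 ψ τ Q ↔ ∃ a ∈ Q, ∃ b ∈ Q, x = ψ (a, b) ∨ x = ψ (a, b) * τ

/-- [S2G] `S0` consists of `2`-elements -/
def S2G : Prop := ∀ (G : Type u) (L : Type v) [Group G] [Group L] (ψ : L × L →* G) (τ : G)
  (ε : L) (Q : Subgroup L), Data ψ τ ε → QData ε Q →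
    ∀ x ∈ S0 ψ τ Q, ∃ k : ℕ, x ^ (2 ^ k) = 1

/-- [CINV] the centre of `S0` is `{1, z}` -/
def CINV : Prop := ∀ (G : Type u) (L : Type v) [Group G] [Group L] (ψ : L × L →* G) (τ : G)
  (ε : L) (Q : Subgroup L), Data ψ τ ε → QData ε Q →
    ∀ u ∈ S0 ψ τ Q, (∀ x ∈ S0 ψ τ Q, u * x = x * u) → u = 1 ∨ u = ψ (ε, 1)

/-- [NORM] `N_G(S0) ⊆ S0 · ψ(δ N_L(Q))` -/
def NORM : Prop := ∀ (G : Type u) (L : Type v) [Group G] [Group L] (ψ : L × L →* G) (τ : G)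
  (ε : L) (Q : Subgroup L), Data ψ τ ε → QData ε Q →
    ∀ n : G, n ∈ Subgroup.normalizer ((S0 ψ τ Q : Subgroup G) : Set G) →
      ∃ s ∈ S0 ψ τ Q, ∃ a : L, (∀ c ∈ Q, a * c * a⁻¹ ∈ Q) ∧ n = s * ψ (a, a)

/-- [SCL1] a nontrivial normal subgroup of `S0` contains `z` -/
def SCL1 : Prop := ∀ (G : Type u) (L : Type v) [Group G] [Finite G] [Group L] (ψ : L × L →* G)
  (τ : G) (ε : L) (Q : Subgroup L), Data ψ τ ε → QData ε Q →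
    ∀ T : Subgroup G, T ≤ S0 ψ τ Q → T ≠ ⊥ →
      (∀ x ∈ T, ∀ s ∈ S0 ψ τ Q, s * x * s⁻¹ ∈ T) → ψ (ε, 1) ∈ T

/-- [SCL2] a subgroup of `S0` containing `z` and closed under `G`-fusion in `S0` is `S0` -/
def SCL2 : Prop := ∀ (G : Type u) (L : Type v) [Group G] [Group L] (ψ : L × L →* G)
  (τ : G) (ε : L) (Q : Subgroup L), Data ψ τ ε → QData ε Q →
    ∀ T : Subgroup G, T ≤ S0 ψ τ Q → ψ (ε, 1) ∈ T →
      (∀ x ∈ T, ∀ g : G, g * x * g⁻¹ ∈ S0 ψ τ Q → g * x * g⁻¹ ∈ T) → S0 ψ τ Q ≤ T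

/-- [SYLN] a `p`-subgroup containing all `p`-elements of its normalizer is a Sylow subgroup -/
def SYLN : Prop := ∀ (G : Type u) [Group G] [Finite G] (p : ℕ) [Fact p.Prime] (P : Subgroup G),
  (∀ x ∈ P, ∃ k : ℕ, x ^ (p ^ k) = 1) →
  (∀ n ∈ Subgroup.normalizer (P : Set G), (∃ k : ℕ, n ^ (p ^ k) = 1) → n ∈ P) →
    ∃ S : Sylow p G, (S : Subgroup G) = P

/-- statement of [SYL1] -/
def SYL1Core : Prop :=
  ∀ (G : Type u) (L : Type v) [Group G] [Finite G] [Group L] (ψ : L × L →* G)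
  (τ : G) (ε : L) (Q : Subgroup L), Data ψ τ ε → QData ε Q →
    (∀ a : L, (∀ c ∈ Q, a * c * a⁻¹ ∈ Q) → a ∈ Q) →
      ∃ S : Sylow 2 G, (S : Subgroup G) = S0 ψ τ Q

/-- [SYL1] self-normalizing case: `S0` is a Sylow `2`-subgroup -/
def SYL1 : Prop := SYLN.{u} → S2G.{u, v} → NORM.{u, v} → SYL1Core.{u, v}

/-- statement of [CD1] -/
def CD1Core : Prop :=
  ∀ (G : Type u) (L : Type v) [Group G] [Finite G] [Group L] (ψ : L × L →* G)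
  (τ : G) (ε : L) (Q : Subgroup L), Data ψ τ ε → QData ε Q →
    (∀ a : L, (∀ c ∈ Q, a * c * a⁻¹ ∈ Q) → a ∈ Q) →
      Cfsg.Agent.Lib.Helper52.SpStmt.CritData 2 (S0 ψ τ Q) {S0 ψ τ Q}

/-- [CD1] self-normalizing case: the criterion data with `ℛ = {S0}` -/
def CD1 : Prop := SNF.{u, v} → S2G.{u, v} → NORM.{u, v} → SCL1.{u, v} → SCL2.{u, v} →
  CD1Core.{u, v}

/-- [ANF] normal form of the elements of `A` -/
def ANF : Prop := ∀ (G : Type u) (L : Type v) [Group G] [Group L] (ψ : L × L →* G) (τ : G)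
  (ε : L) (Q : Subgroup L), Data ψ τ ε → QData ε Q →
    ∀ x : G, x ∈ AA ψ τ ε Q ↔ ∃ a ∈ Q, x = ψ (a, a) ∨ x = ψ (a, ε * a) ∨ x = ψ (a, a) * τ ∨
      x = ψ (a, ε * a) * τ

/-- [ANS] `A ≤ S0` and `A` is normal in `S0` -/
def ANS : Prop := ∀ (G : Type u) (L : Type v) [Group G] [Group L] (ψ : L × L →* G) (τ : G)
  (ε : L) (Q : Subgroup L) (w : L), Data ψ τ ε → QData ε Q → Q8Data ε Q w →
    AA ψ τ ε Q ≤ S0 ψ τ Q ∧ ∀ s ∈ S0 ψ τ Q, ∀ x ∈ AA ψ τ ε Q, s * x * s⁻¹ ∈ AA ψ τ ε Q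

/-- [ACEN] `C_G(A) ≤ A` -/
def ACEN : Prop := ∀ (G : Type u) (L : Type v) [Group G] [Group L] (ψ : L × L →* G) (τ : G)
  (ε : L) (Q : Subgroup L) (w : L), Data ψ τ ε → QData ε Q → Q8Data ε Q w →
    ∀ g : G, (∀ x ∈ AA ψ τ ε Q, g * x = x * g) → g ∈ AA ψ τ ε Q

/-- [ACT] `C_{S0}(τ) ≤ A` -/
def ACT : Prop := ∀ (G : Type u) (L : Type v) [Group G] [Group L] (ψ : L × L →* G) (τ : G)
  (ε : L) (Q : Subgroup L), Data ψ τ ε → QData ε Q →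
    ∀ x ∈ S0 ψ τ Q, x * τ = τ * x → x ∈ AA ψ τ ε Q

/-- statement of [N2] -/
def N2Core : Prop :=
  ∀ (G : Type u) (L : Type v) [Group G] [Group L] (ψ : L × L →* G) (τ : G)
  (ε : L) (Q : Subgroup L) (w : L), Data ψ τ ε → QData ε Q → Q8Data ε Q w →
    ψ (w, w) ∈ Subgroup.normalizer ((S0 ψ τ Q : Subgroup G) : Set G) ∧
    (∀ n ∈ Subgroup.normalizer ((S0 ψ τ Q : Subgroup G) : Set G),
      ∃ s ∈ S0 ψ τ Q, n = s ∨ n = s * ψ (w, w) ∨ n = s * (ψ (w, w) * ψ (w, w))) ∧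
    (∀ n ∈ Subgroup.normalizer ((S0 ψ τ Q : Subgroup G) : Set G),
      (∃ k : ℕ, n ^ (2 ^ k) = 1) → n ∈ S0 ψ τ Q)

/-- [N2] quaternion case: the `2`-elements of `N_G(S0)` lie in `S0`, and
`N_G(S0) ⊆ S0 ∪ S0 d ∪ S0 d²`, `d = ψ (w, w) ∈ N_G(S0)` -/
def N2 : Prop := SNF.{u, v} → S2G.{u, v} → NORM.{u, v} → N2Core.{u, v}

/-- statement of [NA] -/
def NACore : Prop :=
  ∀ (G : Type u) (L : Type v) [Group G] [Group L] (ψ : L × L →* G) (τ : G)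
  (ε : L) (Q : Subgroup L) (w : L) (x0 : G), Data ψ τ ε → QData ε Q → Q8Data ε Q w →
    X0Data ψ τ ε Q w x0 →
    ψ (w, w) ∈ Subgroup.normalizer ((AA ψ τ ε Q : Subgroup G) : Set G) ∧
    x0 ∈ Subgroup.normalizer ((AA ψ τ ε Q : Subgroup G) : Set G)

/-- [NA] `d = ψ (w, w)` and `x0` normalize `A` -/
def NA : Prop := ANF.{u, v} → NACore.{u, v}

/-- statement of [DGEN] -/
def DGENCore : Prop :=
  ∀ (G : Type u) (L : Type v) [Group G] [Group L] (ψ : L × L →* G) (τ : G)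
  (ε : L) (Q : Subgroup L) (w : L) (x0 : G), Data ψ τ ε → QData ε Q → Q8Data ε Q w →
    X0Data ψ τ ε Q w x0 →
    ψ (w, w) ∈ Subgroup.closure {k : G | k ∈ Subgroup.normalizer ((AA ψ τ ε Q : Subgroup G) : Set G) ∧
      ∃ e : ℕ, orderOf k = 2 ^ e}

/-- [DGEN] `d = ψ (w, w)` is a product of `2`-elements of `N_G(A)`:
`d = a0⁻¹ · x0 · (d x0⁻¹ d⁻¹)` with `a0 = x0 d x0⁻¹ d ∈ A` -/
def DGEN : Prop := ANF.{u, v} → S2G.{u, v} → ANS.{u, v} → NACore.{u, v} → DGENCore.{u, v}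

/-- statement of [CD2] -/
def CD2Core : Prop :=
  ∀ (G : Type u) (L : Type v) [Group G] [Finite G] [Group L] (ψ : L × L →* G)
  (τ : G) (ε : L) (Q : Subgroup L) (w : L) (x0 : G), Data ψ τ ε → QData ε Q → Q8Data ε Q w →
    X0Data ψ τ ε Q w x0 →
      Cfsg.Agent.Lib.Helper52.SpStmt.CritData 2 (S0 ψ τ Q) {S0 ψ τ Q, AA ψ τ ε Q}

/-- [CD2] quaternion case: the criterion data with `ℛ = {S0, A}` -/
def CD2 : Prop := SNF.{u, v} → S2G.{u, v} → SCL1.{u, v} → SCL2.{u, v} → ANS.{u, v} →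
  ACEN.{u, v} → ACT.{u, v} → N2Core.{u, v} → NACore.{u, v} → DGENCore.{u, v} → CD2Core.{u, v}

/-- statement of [SYL2] -/
def SYL2Core : Prop :=
  ∀ (G : Type u) (L : Type v) [Group G] [Finite G] [Group L] (ψ : L × L →* G)
  (τ : G) (ε : L) (Q : Subgroup L) (w : L), Data ψ τ ε → QData ε Q → Q8Data ε Q w →
      ∃ S : Sylow 2 G, (S : Subgroup G) = S0 ψ τ Q

/-- [SYL2] quaternion case: `S0` is a Sylow `2`-subgroup -/
def SYL2 : Prop := SYLN.{u} → S2G.{u, v} → N2Core.{u, v} → SYL2Core.{u, v}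

/-! ## matrix part: definitions -/

section Mat

variable {F : Type u} [Field F]

/-- `w0 = [[0,-1],[1,0]]` (from `Cfsg.Agent.H85.PSL2Inv`) -/
abbrev w0 : Matrix.SpecialLinearGroup (Fin 2) F := Cfsg.Agent.H85.PSL2Inv.w0

/-- `yy = [[x, y], [y, -x]]`, `x² + y² = -1`: anticommutes with `w0`, square `-1` -/
def yy (x y : F) (h : x ^ 2 + y ^ 2 = -1) : Matrix.SpecialLinearGroup (Fin 2) F :=
  ⟨!![x, y; y, -x], by rw [Matrix.det_fin_two_of]; linear_combination (-1 : F) * h⟩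

/-- `ww = (-1 + w0 + yy + w0 * yy) / 2`, of order `3`, normalizing `{±1, ±w0, ±yy, ±w0 yy}` -/
def ww (x y : F) (h : x ^ 2 + y ^ 2 = -1) (h2 : (2 : F) ≠ 0) :
    Matrix.SpecialLinearGroup (Fin 2) F :=
  ⟨!![(-1 + x - y) / 2, (-1 + y + x) / 2; (1 + y + x) / 2, (-1 - x + y) / 2], by
    rw [Matrix.det_fin_two_of]; field_simp; linear_combination (-2 : F) * h⟩

/-- `Cst`: the `2`-elements of `C_L(w0)` (these form a subgroup: `C_L(w0)` is abelian) -/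
def Cst (F : Type u) [Field F] : Subgroup (Matrix.SpecialLinearGroup (Fin 2) F) :=
  Subgroup.closure {g | g * w0 = w0 * g ∧ ∃ k : ℕ, g ^ (2 ^ k) = 1}

/-- `Qst = Cst ∪ Cst · yy` -/
def Qst (x y : F) (h : x ^ 2 + y ^ 2 = -1) : Subgroup (Matrix.SpecialLinearGroup (Fin 2) F) :=
  Subgroup.closure {g | g ∈ Cst F ∨ g = yy x y h}

/-- the matrix of `Ψ (a, b)`: `a` acts on the coordinates `inl 0, inr 0`, `b` on `inl 1, inr 1` -/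
def PsiMat (a b : Matrix (Fin 2) (Fin 2) F) : Matrix (Fin 2 ⊕ Fin 2) (Fin 2 ⊕ Fin 2) F :=
  Matrix.fromBlocks (Matrix.diagonal ![a 0 0, b 0 0]) (Matrix.diagonal ![a 0 1, b 0 1])
    (Matrix.diagonal ![a 1 0, b 1 0]) (Matrix.diagonal ![a 1 1, b 1 1])

/-- `Ψ` is the block embedding `SL₂ × SL₂ → Sp₄` -/
def IsPsi (Ψ : Matrix.SpecialLinearGroup (Fin 2) F × Matrix.SpecialLinearGroup (Fin 2) F →*
    Matrix.symplecticGroup (Fin 2) F) : Prop :=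
  ∀ a b : Matrix.SpecialLinearGroup (Fin 2) F,
    ((Ψ (a, b) : Matrix.symplecticGroup (Fin 2) F) : Matrix (Fin 2 ⊕ Fin 2) (Fin 2 ⊕ Fin 2) F) =
      PsiMat (a : Matrix (Fin 2) (Fin 2) F) (b : Matrix (Fin 2) (Fin 2) F)

/-- the swap of the two hyperbolic planes -/
def T0Mat (F : Type u) [Field F] : Matrix (Fin 2 ⊕ Fin 2) (Fin 2 ⊕ Fin 2) F :=
  Matrix.fromBlocks !![0, 1; 1, 0] 0 0 !![0, 1; 1, 0]

/-- `t` is the swap -/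
def IsT0 (t : Matrix.symplecticGroup (Fin 2) F) : Prop :=
  (t : Matrix (Fin 2 ⊕ Fin 2) (Fin 2 ⊕ Fin 2) F) = T0Mat F

/-- the projection `Sp₄ → PSp₄` -/
abbrev pr : Matrix.symplecticGroup (Fin 2) F →* Cfsg.PSp 2 F :=
  Cfsg.Agent.Lib.Helper43.SpBasic.pr

end Mat

/-! ## matrix part: pieces on `Sp₄` -/

/-- [PSI] the block embedding and the swap exist -/
def PSI : Prop := ∀ (F : Type u) [Field F],
  (∃ Ψ : Matrix.SpecialLinearGroup (Fin 2) F × Matrix.SpecialLinearGroup (Fin 2) F →*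
    Matrix.symplecticGroup (Fin 2) F, IsPsi Ψ) ∧ ∃ t : Matrix.symplecticGroup (Fin 2) F, IsT0 t

/-- [GKER] the kernel of `pr ∘ Ψ` is `{(1,1), (-1,-1)}` -/
def GKER : Prop := ∀ (F : Type u) [Field F] (Ψ : Matrix.SpecialLinearGroup (Fin 2) F ×
  Matrix.SpecialLinearGroup (Fin 2) F →* Matrix.symplecticGroup (Fin 2) F), IsPsi Ψ → (2 : F) ≠ 0 →
    (∀ a b : Matrix.SpecialLinearGroup (Fin 2) F, pr (Ψ (a, b)) = 1 →
      (a = 1 ∧ b = 1) ∨ (a = -1 ∧ b = -1)) ∧ pr (Ψ (-1, -1)) = 1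

/-- [GTAU] the swap: involution, swaps the factors, not in the image of `Ψ` -/
def GTAU : Prop := ∀ (F : Type u) [Field F] (Ψ : Matrix.SpecialLinearGroup (Fin 2) F ×
  Matrix.SpecialLinearGroup (Fin 2) F →* Matrix.symplecticGroup (Fin 2) F)
  (t : Matrix.symplecticGroup (Fin 2) F), IsPsi Ψ → IsT0 t → (2 : F) ≠ 0 →
    pr t * pr t = 1 ∧
    (∀ a b : Matrix.SpecialLinearGroup (Fin 2) F,
      pr t * pr (Ψ (a, b)) * (pr t)⁻¹ = pr (Ψ (b, a))) ∧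
    ∀ a b : Matrix.SpecialLinearGroup (Fin 2) F, pr t ≠ pr (Ψ (a, b))

/-- [GCENT] the centralizer in `PSp₄` of the image of `diag(-1, 1, -1, 1)` -/
def GCENT : Prop := ∀ (F : Type u) [Field F] (Ψ : Matrix.SpecialLinearGroup (Fin 2) F ×
  Matrix.SpecialLinearGroup (Fin 2) F →* Matrix.symplecticGroup (Fin 2) F)
  (t : Matrix.symplecticGroup (Fin 2) F), IsPsi Ψ → IsT0 t → (2 : F) ≠ 0 →
    ∀ g : Cfsg.PSp 2 F, g * pr (Ψ (-1, 1)) = pr (Ψ (-1, 1)) * g →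
      ∃ a b : Matrix.SpecialLinearGroup (Fin 2) F,
        g = pr (Ψ (a, b)) ∨ g = pr (Ψ (a, b)) * pr t

/-- [GFUS] the swap is conjugate to the image of `diag(-1, 1, -1, 1)`
(by the image of `fromBlocks (h/2) 0 0 h`, `h = [[1,1],[1,-1]]`) -/
def GFUS : Prop := ∀ (F : Type u) [Field F] (Ψ : Matrix.SpecialLinearGroup (Fin 2) F ×
  Matrix.SpecialLinearGroup (Fin 2) F →* Matrix.symplecticGroup (Fin 2) F)
  (t : Matrix.symplecticGroup (Fin 2) F), IsPsi Ψ → IsT0 t → (2 : F) ≠ 0 →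
    ∃ g : Cfsg.PSp 2 F, pr t = g * pr (Ψ (-1, 1)) * g⁻¹

/-- [GX0] the element `X = (1/2) fromBlocks h (-h) h h`, `h = [[1,1],[1,-1]]`, of `Sp₄`:
`X² = Ψ (w0, w0)`, it swaps `z` and the swap modulo sign, fixes `Ψ (w0, w0)`, maps
`Ψ (yy, yy)` to `Ψ (w0 yy, w0 yy)` and `X Ψ(ww, ww) X⁻¹ Ψ(ww, ww) = Ψ (-w0, -w0)`. -/
def GX0 : Prop := ∀ (F : Type u) [Field F] (Ψ : Matrix.SpecialLinearGroup (Fin 2) F ×
  Matrix.SpecialLinearGroup (Fin 2) F →* Matrix.symplecticGroup (Fin 2) F)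
  (t : Matrix.symplecticGroup (Fin 2) F), IsPsi Ψ → IsT0 t → ∀ (h2 : (2 : F) ≠ 0)
  (x y : F) (h : x ^ 2 + y ^ 2 = -1),
    ∃ X : Matrix.symplecticGroup (Fin 2) F, X ^ 8 = 1 ∧
      pr X * pr (Ψ (-1, 1)) * (pr X)⁻¹ = pr t ∧
      pr X * pr t * (pr X)⁻¹ = pr (Ψ (-1, 1)) ∧
      pr X * pr (Ψ (w0, w0)) * (pr X)⁻¹ = pr (Ψ (w0, w0)) ∧
      pr X * pr (Ψ (yy x y h, yy x y h)) * (pr X)⁻¹ = pr (Ψ (w0 * yy x y h, w0 * yy x y h)) ∧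
      pr X * pr (Ψ (ww x y h h2, ww x y h h2)) * (pr X)⁻¹ * pr (Ψ (ww x y h h2, ww x y h h2)) =
        pr (Ψ (w0, w0))

/-! ## matrix part: pieces on `SL₂` -/

/-- [LEPS] `-1` is the unique involution of `SL₂(F)`, central -/
def LEPS : Prop := ∀ (F : Type u) [Field F], (2 : F) ≠ 0 →
  ((-1 : Matrix.SpecialLinearGroup (Fin 2) F) * (-1) = 1 ∧
   (-1 : Matrix.SpecialLinearGroup (Fin 2) F) ≠ 1 ∧
   (∀ x : Matrix.SpecialLinearGroup (Fin 2) F, (-1) * x = x * (-1)) ∧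
   ∀ x : Matrix.SpecialLinearGroup (Fin 2) F, x * x = 1 → x = 1 ∨ x = -1)

/-- [CNF] membership in `Cst` -/
def CNF : Prop := ∀ (F : Type u) [Field F] (g : Matrix.SpecialLinearGroup (Fin 2) F),
  g ∈ Cst F ↔ (g * w0 = w0 * g ∧ ∃ k : ℕ, g ^ (2 ^ k) = 1)

/-- [QNF] membership in `Qst` -/
def QNF : Prop := ∀ (F : Type u) [Field F] (x y : F) (h : x ^ 2 + y ^ 2 = -1)
  (g : Matrix.SpecialLinearGroup (Fin 2) F),
  g ∈ Qst x y h ↔ (g ∈ Cst F ∨ g * (yy x y h)⁻¹ ∈ Cst F)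

/-- [QTWO] `Qst` consists of `2`-elements -/
def QTWO : Prop := ∀ (F : Type u) [Field F] (x y : F) (h : x ^ 2 + y ^ 2 = -1),
  ∀ a ∈ Qst x y h, ∃ k : ℕ, a ^ (2 ^ k) = 1

/-- [QCEN] the centre of `Qst` is `{±1}` -/
def QCEN : Prop := ∀ (F : Type u) [Field F] (x y : F) (h : x ^ 2 + y ^ 2 = -1), (2 : F) ≠ 0 →
  ∀ a ∈ Qst x y h, (∀ c ∈ Qst x y h, a * c = c * a) → a = 1 ∨ a = -1

/-- [QBIG] `-1 ∈ Qst` and `Qst ≠ {±1}` -/
def QBIG : Prop := ∀ (F : Type u) [Field F] (x y : F) (h : x ^ 2 + y ^ 2 = -1), (2 : F) ≠ 0 →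
  (-1 : Matrix.SpecialLinearGroup (Fin 2) F) ∈ Qst x y h ∧
    ∃ c ∈ Qst x y h, c ≠ 1 ∧ c ≠ -1

/-- [QFOC] `Qst` is generated by the `a⁻¹ · g a g⁻¹` (`a, g a g⁻¹ ∈ Qst`): all elements of
trace `0` of `SL₂(F)` are conjugate (`Cfsg.Agent.H85.PSL2Inv.isConj_w0`) -/
def QFOC : Prop := ∀ (F : Type u) [Field F] [Fintype F] (x y : F) (h : x ^ 2 + y ^ 2 = -1),
  Fintype.card F % 2 = 1 → ∀ c ∈ Qst x y h, c ∈ Subgroup.closure
    {z : Matrix.SpecialLinearGroup (Fin 2) F | ∃ a ∈ Qst x y h,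
      ∃ g : Matrix.SpecialLinearGroup (Fin 2) F, g * a * g⁻¹ ∈ Qst x y h ∧ z = a⁻¹ * (g * a * g⁻¹)}

/-- [NQ1] if `2` is a square, `Qst` is self-normalizing in `SL₂(F)` -/
def NQ1 : Prop := ∀ (F : Type u) [Field F] (x y : F) (h : x ^ 2 + y ^ 2 = -1), (2 : F) ≠ 0 →
  IsSquare (2 : F) → ∀ a : Matrix.SpecialLinearGroup (Fin 2) F,
    (∀ c ∈ Qst x y h, a * c * a⁻¹ ∈ Qst x y h) → a ∈ Qst x y h

/-- [C4] if `2` is not a square, `Cst = {±1, ±w0}` -/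
def C4 : Prop := ∀ (F : Type u) [Field F], (2 : F) ≠ 0 → ¬ IsSquare (2 : F) →
  ∀ g ∈ Cst F, g = 1 ∨ g = -1 ∨ g = w0 ∨ g = -w0

/-- [Q8A] in the quaternion case conjugation in `Qst` is multiplication by `±1` and squares
are `±1` -/
def Q8A : Prop := ∀ (F : Type u) [Field F] (x y : F) (h : x ^ 2 + y ^ 2 = -1), (2 : F) ≠ 0 →
  (∀ g ∈ Cst F, g = 1 ∨ g = -1 ∨ g = w0 ∨ g = -w0) →
  (∀ a ∈ Qst x y h, ∀ c ∈ Qst x y h, c * a * c⁻¹ = a ∨ c * a * c⁻¹ = -1 * a) ∧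
    ∀ c ∈ Qst x y h, c * c = 1 ∨ c * c = -1

/-- [Q8W] `ww` normalizes `Qst` in the quaternion case, `ww³ = 1`, `ww ≠ 1` -/
def Q8W : Prop := ∀ (F : Type u) [Field F] (x y : F) (h : x ^ 2 + y ^ 2 = -1) (h2 : (2 : F) ≠ 0),
  (∀ g ∈ Cst F, g = 1 ∨ g = -1 ∨ g = w0 ∨ g = -w0) →
  (∀ c ∈ Qst x y h, ww x y h h2 * c * (ww x y h h2)⁻¹ ∈ Qst x y h) ∧
    ww x y h h2 * ww x y h h2 * ww x y h h2 = 1 ∧ ww x y h h2 ≠ 1

/-- [Q8N] the normalizer of `Qst` in the quaternion case is `Qst ⟨ww⟩` -/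
def Q8N : Prop := ∀ (F : Type u) [Field F] (x y : F) (h : x ^ 2 + y ^ 2 = -1) (h2 : (2 : F) ≠ 0),
  (∀ g ∈ Cst F, g = 1 ∨ g = -1 ∨ g = w0 ∨ g = -w0) →
  ∀ a : Matrix.SpecialLinearGroup (Fin 2) F, (∀ c ∈ Qst x y h, a * c * a⁻¹ ∈ Qst x y h) →
    ∃ c ∈ Qst x y h, a = c ∨ a = c * ww x y h h2 ∨ a = c * (ww x y h h2 * ww x y h h2)

/-- [Q8T] an element acting on `Qst` by signs lies in `Qst` -/
def Q8T : Prop := ∀ (F : Type u) [Field F] (x y : F) (h : x ^ 2 + y ^ 2 = -1), (2 : F) ≠ 0 →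
  (∀ g ∈ Cst F, g = 1 ∨ g = -1 ∨ g = w0 ∨ g = -w0) →
  ∀ a : Matrix.SpecialLinearGroup (Fin 2) F,
    (∀ c ∈ Qst x y h, a * c * a⁻¹ = c ∨ a * c * a⁻¹ = -1 * c) → a ∈ Qst x y h

/-- statement of [X0D] -/
def X0DCore : Prop :=
  ∀ (F : Type u) [Field F] (Ψ : Matrix.SpecialLinearGroup (Fin 2) F ×
  Matrix.SpecialLinearGroup (Fin 2) F →* Matrix.symplecticGroup (Fin 2) F)
  (t : Matrix.symplecticGroup (Fin 2) F), IsPsi Ψ → IsT0 t → ∀ (h2 : (2 : F) ≠ 0)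
  (x y : F) (h : x ^ 2 + y ^ 2 = -1),
  (∀ g ∈ Cst F, g = 1 ∨ g = -1 ∨ g = w0 ∨ g = -w0) →
    ∃ x0 : Cfsg.PSp 2 F, X0Data (pr.comp Ψ) (pr t) (-1) (Qst x y h) (ww x y h h2) x0

/-- [X0D] the data `X0Data` from `GX0` in the quaternion case -/
def X0D : Prop := GX0.{u} → GKER.{u} → QNF.{u} → X0DCore.{u}

end Cfsg.Agent.Lib.Helper38.Sp4Stmt
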