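import Mathlib
import Cfsg.Agent.Lib.Helper38.Sp4Stmt

/-!
# S5320, piece CNF: membership in `Cst`; plus basic facts on `w0`, `yy` used by other pieces
-/

set_option autoImplicit false
set_option linter.unusedSimpArgs false

namespace Cfsg.Agent.Lib.Helper38.Sp4CNF

open Cfsg.Agent.Lib.Helper38.Sp4Stmt Cfsg.Agent.Lib.Helper42.SL2Odd
open Cfsg.Agent.H85.PSL2Inv hiding w0

universe u

variable {F : Type u} [Field F]

local notation "SL2F" => Matrix.SpecialLinearGroup (Fin 2) F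

theorem pow_two_pow_mul {M : Type*} [CommMonoid M] (x y : M) {k l : ℕ} (hx : x ^ (2 ^ k) = 1)
    (hy : y ^ (2 ^ l) = 1) : (x * y) ^ (2 ^ (k + l)) = 1 := by
  rw [mul_pow, pow_add, pow_mul, hx, one_pow, mul_comm (2 ^ k) (2 ^ l), pow_mul, hy, one_pow,
    one_mul]

/-- **[CNF]** membership in `Cst` -/
theorem main : CNF.{u} := by
  intro F _ g
  constructor
  · intro hg
    unfold Cst at hg
    induction hg using Subgroup.closure_induction with
    | mem x hx => exact hx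
    | one => exact ⟨by rw [one_mul, mul_one], 0, by simp⟩
    | mul x y _ _ hx hy =>
      obtain ⟨hx1, kx, hx2⟩ := hx
      obtain ⟨hy1, ky, hy2⟩ := hy
      refine ⟨?_, kx + ky, ?_⟩
      · rw [mul_assoc, hy1, ← mul_assoc, hx1, mul_assoc]
      · have hc : Commute x y := comm_of_comm_w0 hx1 hy1
        rw [hc.mul_pow, pow_add, pow_mul, hx2, one_pow, mul_comm (2 ^ kx) (2 ^ ky), pow_mul, hy2,
          one_pow, one_mul]
    | inv x _ hx =>
      obtain ⟨hx1, kx, hx2⟩ := hx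
      refine ⟨?_, kx, ?_⟩
      · have : x⁻¹ * (x * w0) * x⁻¹ = x⁻¹ * (w0 * x) * x⁻¹ := by rw [hx1]
        simpa [mul_assoc] using this.symm
      · rw [inv_pow, hx2, inv_one]
  · intro hg
    exact Subgroup.subset_closure hg

/-! ### basic facts on `w0`, `yy` (reusable) -/

theorem yy_00 (x y : F) (h : x ^ 2 + y ^ 2 = -1) : (yy x y h : SL2F) 0 0 = x := rfl
theorem yy_01 (x y : F) (h : x ^ 2 + y ^ 2 = -1) : (yy x y h : SL2F) 0 1 = y := rfl
theorem yy_10 (x y : F) (h : x ^ 2 + y ^ 2 = -1) : (yy x y h : SL2F) 1 0 = y := rfl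
theorem yy_11 (x y : F) (h : x ^ 2 + y ^ 2 = -1) : (yy x y h : SL2F) 1 1 = -x := rfl

/-- `yy² = -1` -/
theorem yy_mul_yy (x y : F) (h : x ^ 2 + y ^ 2 = -1) : yy x y h * yy x y h = -1 :=
  sq_of_trace_zero (by rw [yy_00, yy_11]; ring)

/-- `yy⁻¹ = -yy` -/
theorem yy_inv (x y : F) (h : x ^ 2 + y ^ 2 = -1) : (yy x y h)⁻¹ = -yy x y h := by
  apply inv_eq_of_mul_eq_one_right
  rw [mul_neg, yy_mul_yy, neg_neg]

/-- `yy` anticommutes with `w0` -/
theorem yy_anti (x y : F) (h : x ^ 2 + y ^ 2 = -1) :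
    yy x y h * w0 = -(w0 * yy x y h) :=
  (anti_w0_iff _).mpr ⟨by rw [yy_00, yy_11, neg_neg], by rw [yy_01, yy_10]⟩

/-- `w0² = -1` -/
theorem w0_mul_w0 : (w0 : SL2F) * w0 = -1 :=
  sq_of_trace_zero (by rw [w0_00, w0_11]; ring)

/-- `yy c yy c = -1` for `c` commuting with `w0` -/
theorem yy_mul_mul_mul (x y : F) (h : x ^ 2 + y ^ 2 = -1) {c : SL2F} (hc : c * w0 = w0 * c) :
    yy x y h * c * yy x y h * c = -1 := by
  obtain ⟨c1, c2⟩ := (comm_w0_iff c).mp hc
  have hd := det_eq c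
  obtain ⟨a00, a01, a10, a11⟩ := mul_entries (yy x y h) c
  obtain ⟨b00, b01, b10, b11⟩ := mul_entries (yy x y h * c) (yy x y h)
  obtain ⟨d00, d01, d10, d11⟩ := mul_entries (yy x y h * c * yy x y h) c
  obtain ⟨o00, o01, o10, o11⟩ := one_entries (F := F)
  rw [c1, c2] at hd
  apply ext_entries
  · simp only [d00, b00, b01, a00, a01, a10, a11, neg_entries, o00, yy_00, yy_01, yy_10, yy_11,
      c1, c2]
    linear_combination (c 1 1 ^ 2 + c 1 0 ^ 2) * h - hd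
  · simp only [d01, b00, b01, a00, a01, a10, a11, neg_entries, o01, yy_00, yy_01, yy_10, yy_11,
      c1, c2]
    ring
  · simp only [d10, b10, b11, a00, a01, a10, a11, neg_entries, o10, yy_00, yy_01, yy_10, yy_11,
      c1, c2]
    ring
  · simp only [d11, b10, b11, a00, a01, a10, a11, neg_entries, o11, yy_00, yy_01, yy_10, yy_11,
      c1, c2]
    linear_combination (c 1 1 ^ 2 + c 1 0 ^ 2) * h - hd

/-- `yy` inverts every element commuting with `w0` -/
theorem yy_conj (x y : F) (h : x ^ 2 + y ^ 2 = -1) {c : SL2F} (hc : c * w0 = w0 * c) :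
    yy x y h * c * (yy x y h)⁻¹ = c⁻¹ := by
  apply eq_inv_of_mul_eq_one_left
  rw [yy_inv, mul_neg, neg_mul, yy_mul_mul_mul x y h hc, neg_neg]

/-- `yy⁻¹` inverts every element commuting with `w0` -/
theorem yy_conj' (x y : F) (h : x ^ 2 + y ^ 2 = -1) {c : SL2F} (hc : c * w0 = w0 * c) :
    (yy x y h)⁻¹ * c * yy x y h = c⁻¹ := by
  apply eq_inv_of_mul_eq_one_left
  rw [yy_inv, neg_mul, neg_mul, neg_mul, yy_mul_mul_mul x y h hc, neg_neg]

/-- `-1 ∈ Cst` -/
theorem neg_one_mem_Cst : (-1 : SL2F) ∈ Cst F :=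
  (main F (-1)).mpr ⟨by rw [neg_mul, mul_neg, one_mul, mul_one], 1, by
    rw [pow_one, sq, neg_mul, mul_neg, one_mul, neg_neg]⟩

/-- `w0 ∈ Cst` -/
theorem w0_mem_Cst : (w0 : SL2F) ∈ Cst F :=
  (main F w0).mpr ⟨rfl, 2, by
    show (w0 : SL2F) ^ 4 = 1
    have e : (w0 : SL2F) ^ 4 = (w0 * w0) * (w0 * w0) := by
      rw [show (4 : ℕ) = 2 + 2 from rfl, pow_add, sq]
    rw [e, w0_mul_w0, neg_mul, mul_neg, one_mul, neg_neg]⟩

end Cfsg.Agent.Lib.Helper38.Sp4CNF
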