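import Mathlib
import Cfsg.Agent.Lib.Helper38.Sp4CNF

/-!
# S5320, piece QNF: membership in `Qst`
-/

set_option autoImplicit false

namespace Cfsg.Agent.Lib.Helper38.Sp4QNF

open Cfsg.Agent.Lib.Helper38.Sp4Stmt Cfsg.Agent.Lib.Helper42.SL2Odd
open Cfsg.Agent.H85.PSL2Inv hiding w0
open Cfsg.Agent.Lib.Helper38.Sp4CNF

universe u

variable {F : Type u} [Field F]

local notation "SL2F" => Matrix.SpecialLinearGroup (Fin 2) F

/-- elements of `Cst` commute with `w0` -/
theorem comm_of_mem_Cst {c : SL2F} (hc : c ∈ Cst F) : c * w0 = w0 * c :=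
  ((Cfsg.Agent.Lib.Helper38.Sp4CNF.main F c).mp hc).1

/-- **[QNF]** membership in `Qst` -/
theorem main : QNF.{u} := by
  intro F _ x y h g
  have hneg : (-1 : Matrix.SpecialLinearGroup (Fin 2) F) ∈ Cst F := neg_one_mem_Cst
  constructor
  · intro hg
    unfold Qst at hg
    induction hg using Subgroup.closure_induction with
    | mem g hg =>
      rcases hg with hg | rfl
      · exact Or.inl hg
      · right
        rw [mul_inv_cancel]
        exact one_mem _
    | one => exact Or.inl (one_mem _)
    | mul a b _ _ ha hb =>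
      rcases ha with ha | ha <;> rcases hb with hb | hb
      · exact Or.inl (mul_mem ha hb)
      · right
        rw [mul_assoc]
        exact mul_mem ha hb
      · right
        have e : a * b * (yy x y h)⁻¹ = (a * (yy x y h)⁻¹) * (yy x y h * b * (yy x y h)⁻¹) := by
          group
        rw [e, yy_conj x y h (comm_of_mem_Cst hb)]
        exact mul_mem ha (inv_mem hb)
      · left
        have e : a * b = (a * (yy x y h)⁻¹) * (yy x y h * (b * (yy x y h)⁻¹) * (yy x y h)⁻¹) *
            (yy x y h * yy x y h) := by group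
        rw [e, yy_conj x y h (comm_of_mem_Cst hb), yy_mul_yy]
        exact mul_mem (mul_mem ha (inv_mem hb)) hneg
    | inv a _ ha =>
      rcases ha with ha | ha
      · exact Or.inl (inv_mem ha)
      · right
        have e : a⁻¹ * (yy x y h)⁻¹ =
            ((yy x y h)⁻¹ * (a * (yy x y h)⁻¹)⁻¹ * yy x y h) * (yy x y h * yy x y h)⁻¹ := by group
        rw [e, yy_conj' x y h (comm_of_mem_Cst (inv_mem ha)), inv_inv, yy_mul_yy]
        refine mul_mem ha (inv_mem hneg)
  · rintro (hg | hg)
    · exact Subgroup.subset_closure (Or.inl hg)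
    · have e : g = (g * (yy x y h)⁻¹) * yy x y h := by group
      rw [e]
      exact mul_mem (Subgroup.subset_closure (Or.inl hg)) (Subgroup.subset_closure (Or.inr rfl))

end Cfsg.Agent.Lib.Helper38.Sp4QNF
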