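import Mathlib
import Cfsg.Agent.Lib.Helper37.HypStmt2
import Cfsg.Agent.Lib.Helper37.HypCyc
import Cfsg.Agent.Lib.Helper82.HypINVDIM
import Cfsg.Agent.Lib.Helper5.SPSELFREC
import Cfsg.Agent.Lib.Helper44.OTyp2
import Cfsg.Agent.Lib.Helper44.NegPairs
import Cfsg.Agent.S2568

set_option autoImplicit false

namespace Cfsg.Agent.Lib.Helper38.HypBFE

open Module QuadraticMap Polynomial UniqueFactorizationMonoid
open Cfsg.Agent.Lib.Helper44.QSpace Cfsg.Agent.Lib.Helper44.OTyp2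
open Cfsg.Agent.Lib.Helper44.NegPairs
open Cfsg.Agent.Lib.Helper37.HypStmt Cfsg.Agent.Lib.Helper37.HypStmt2
open Cfsg.Agent.Lib.Helper37.HypCyc
open Cfsg.Agent.Lib.Helper40.RecipPoly
open scoped Matrix

universe u

section abstract

variable {F : Type*} [Field F] {V : Type u} [AddCommGroup V] [Module F V]

/-- `ker c(φ) ⊥ ker c'(φ)` for `c` self-reciprocal and coprime to `c'` -/
theorem orth (Q : QuadraticForm F V) (φ φ' : Module.End F V) (h1 : φ * φ' = 1)
    (h2 : φ' * φ = 1) (hφ : ∀ v, Q (φ v) = Q v) (c c' : F[X]) (a₀ : F) (ha₀ : a₀ ≠ 0)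
    (hrev : c.reverse = C a₀ * c) (hcop : IsCoprime c c') (x y : V) (hx : aeval φ c x = 0)
    (hy : aeval φ c' y = 0) : polar Q x y = 0 := by
  obtain ⟨a, b, hab⟩ := hcop
  obtain ⟨z, hz⟩ : ∃ z, z = aeval φ a y := ⟨_, rfl⟩
  have hy' : y = aeval φ c z := by
    have h3 : aeval φ (a * c + b * c') y = y := by rw [hab, map_one, Module.End.one_apply]
    have e1 : aeval φ (b * c') y = 0 := by rw [map_mul, Module.End.mul_apply, hy, map_zero]
    have e2 : aeval φ (a * c) y = aeval φ c (aeval φ a y) := by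
      rw [mul_comm a c, map_mul, Module.End.mul_apply]
    rw [map_add, LinearMap.add_apply, e1, e2, add_zero] at h3
    rw [hz]
    exact h3.symm
  have h4 : a₀ • y = aeval φ' c ((φ ^ c.natDegree) z) := by
    rw [← Module.End.mul_apply, rev_id c φ φ' h2, hrev, map_mul, aeval_C, Module.End.mul_apply,
      Module.algebraMap_end_apply, ← hy']
  have h5 : polar Q x (a₀ • y) = 0 := by
    rw [h4, ← adj_aeval Q φ φ' h1 hφ, hx]
    simp
  rw [polar_smul_r] at h5
  exact (mul_eq_zero.mp h5).resolve_left ha₀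

/-- a non-singular vector killed by a product of distinct self-reciprocal irreducibles has a
non-singular component in one primary part -/
theorem split (Q : QuadraticForm F V) (φ φ' : Module.End F V) (h1 : φ * φ' = 1)
    (h2 : φ' * φ = 1) (hφ : ∀ v, Q (φ v) = Q v) (L : Multiset F[X]) :
    L.Nodup → (∀ P ∈ L, Irreducible P ∧ P.Monic ∧ ∃ a₀ : F, a₀ ≠ 0 ∧ P.reverse = C a₀ * P) →
    ∀ v : V, aeval φ L.prod v = 0 → Q v ≠ 0 →
      ∃ P ∈ L, ∃ v' : V, aeval φ P v' = 0 ∧ Q v' ≠ 0 := by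
  induction L using Multiset.induction_on with
  | empty =>
    intro _ _ v hv hQ
    rw [Multiset.prod_zero, map_one, Module.End.one_apply] at hv
    rw [hv, QuadraticMap.map_zero] at hQ
    exact absurd rfl hQ
  | cons P L ih =>
    intro hnd hL v hv hQ
    rw [Multiset.nodup_cons] at hnd
    obtain ⟨hirr, hmon, a₀, ha₀, hrev⟩ := hL P (Multiset.mem_cons_self P L)
    have hcop : IsCoprime P L.prod := by
      rw [hirr.coprime_iff_not_dvd]
      intro hdvd
      obtain ⟨P', hP', hPP'⟩ := (hirr.prime).exists_mem_multiset_dvd hdvd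
      obtain ⟨hirr', hmon', -⟩ := hL P' (Multiset.mem_cons_of_mem hP')
      have : P = P' := eq_of_monic_of_associated hmon hmon' (hirr.associated_of_dvd hirr' hPP')
      exact hnd.1 (this ▸ hP')
    obtain ⟨a, b, hab⟩ := hcop
    obtain ⟨v₁, hv₁⟩ : ∃ v₁, v₁ = aeval φ (a * P) v := ⟨_, rfl⟩
    obtain ⟨v₂, hv₂⟩ : ∃ v₂, v₂ = aeval φ (b * L.prod) v := ⟨_, rfl⟩
    have hsum : v = v₁ + v₂ := by
      have h3 : aeval φ (a * P + b * L.prod) v = v := by
        rw [hab, map_one, Module.End.one_apply]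
      rw [map_add, LinearMap.add_apply] at h3
      rw [hv₁, hv₂]
      exact h3.symm
    have hk1 : aeval φ L.prod v₁ = 0 := by
      rw [hv₁, ← Module.End.mul_apply, ← map_mul]
      have : L.prod * (a * P) = a * (P ::ₘ L).prod := by rw [Multiset.prod_cons]; ring
      rw [this, map_mul, Module.End.mul_apply, hv, map_zero]
    have hk2 : aeval φ P v₂ = 0 := by
      rw [hv₂, ← Module.End.mul_apply, ← map_mul]
      have : P * (b * L.prod) = b * (P ::ₘ L).prod := by rw [Multiset.prod_cons]; ring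
      rw [this, map_mul, Module.End.mul_apply, hv, map_zero]
    have horth : polar Q v₂ v₁ = 0 :=
      orth Q φ φ' h1 h2 hφ P L.prod a₀ ha₀ hrev ⟨a, b, hab⟩ v₂ v₁ hk2 hk1
    have hQs : Q v = Q v₁ + Q v₂ := by
      rw [hsum, q_add, polar_comm, horth, add_zero]
    by_cases hQ2 : Q v₂ = 0
    · have hQ1 : Q v₁ ≠ 0 := by
        rw [hQs, hQ2, add_zero] at hQ
        exact hQ
      obtain ⟨P', hP', v', hv', hQ'⟩ :=
        ih hnd.2 (fun P' hP' => hL P' (Multiset.mem_cons_of_mem hP')) v₁ hk1 hQ1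
      exact ⟨P', Multiset.mem_cons_of_mem hP', v', hv', hQ'⟩
    · exact ⟨P, Multiset.mem_cons_self P L, v₂, hk2, hQ2⟩

end abstract

theorem main : Cfsg.Agent.Lib.Helper37.HypStmt2.BlockFindE.{u} := by
  intro F _ _ p _ _ hodd d r _ hr2 hrp hev x hx hxr Y hStab hND hfix hYne
  classical
  have hr : r.Prime := Fact.out
  have hp : p.Prime := Fact.out
  have h2F : (2 : F) ≠ 0 := by
    intro h
    have hch : ringChar F = 2 :=
      CharP.ringChar_of_prime_eq_zero Nat.prime_two (by exact_mod_cast h)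
    have := FiniteField.even_card_of_char_two hch
    rcases hodd with ⟨m, hm⟩
    omega
  obtain ⟨Q, hQ⟩ : ∃ Q : QuadraticForm F (I d → F), Q = oddQ d F := ⟨_, rfl⟩
  have hQc : ∀ v, Q v = Cfsg.quadFormOdd d F v := fun v => by rw [hQ]; rfl
  obtain ⟨Q', hQ'⟩ : ∃ Q' : QuadraticForm F ↥Y, Q' = res Q Y := ⟨_, rfl⟩
  have hQ'a : ∀ v : ↥Y, Q' v = Cfsg.quadFormOdd d F (v : I d → F) := fun v => by
    rw [hQ', ← hQc]; rfl
  have hpol : ∀ v w : ↥Y, polar Q' v w
      = polar (Cfsg.quadFormOdd d F) (v : I d → F) (w : I d → F) := fun v w => by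
    rw [hQ', hQ]; rfl
  have hS : Sep Q' := by
    intro v hv
    by_contra hv0
    have hv0' : (v : I d → F) ≠ 0 := fun h => hv0 (Subtype.ext h)
    obtain ⟨-, ⟨y, hyE, hy⟩⟩ := hND v v.2 hv0'
    apply hy
    have := hv ⟨y, hyE⟩
    rw [hpol] at this
    exact this
  -- the restriction of `x` to `Y`
  have hmap : ∀ v ∈ Y, Matrix.toLin' (x : Matrix (I d) (I d) F) v ∈ Y :=
    fun v hv => hStab (Submodule.mem_map_of_mem hv)
  have key : ∀ w : I d → F, ((x⁻¹ : Matrix.GeneralLinearGroup (I d) F) : Matrix (I d) (I d) F)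
      *ᵥ ((x : Matrix (I d) (I d) F) *ᵥ w) = w := fun w => by
    rw [Matrix.mulVec_mulVec, Units.inv_mul, Matrix.one_mulVec]
  obtain ⟨φ, hφ⟩ : ∃ φ : Module.End F ↥Y, ∀ v : ↥Y,
      ((φ v : ↥Y) : I d → F) = (x : Matrix (I d) (I d) F) *ᵥ (v : I d → F) :=
    ⟨(Matrix.toLin' (x : Matrix (I d) (I d) F)).restrict hmap, fun v => rfl⟩
  have hφinj : Function.Injective φ := by
    intro a b hab
    have h1 : (x : Matrix (I d) (I d) F) *ᵥ (a : I d → F)
        = (x : Matrix (I d) (I d) F) *ᵥ (b : I d → F) := by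
      rw [← hφ, ← hφ, hab]
    apply Subtype.ext
    calc (a : I d → F) = ((x⁻¹ : Matrix.GeneralLinearGroup (I d) F) : Matrix (I d) (I d) F)
          *ᵥ ((x : Matrix (I d) (I d) F) *ᵥ (a : I d → F)) := (key _).symm
      _ = ((x⁻¹ : Matrix.GeneralLinearGroup (I d) F) : Matrix (I d) (I d) F)
          *ᵥ ((x : Matrix (I d) (I d) F) *ᵥ (b : I d → F)) := by rw [h1]
      _ = b := key _
  obtain ⟨φ', h1, h2⟩ : ∃ φ' : Module.End F ↥Y, φ * φ' = 1 ∧ φ' * φ = 1 := by
    refine ⟨((LinearEquiv.ofInjectiveEndo φ hφinj).symm : ↥Y →ₗ[F] ↥Y), ?_, ?_⟩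
    · apply LinearMap.ext
      intro v
      rw [Module.End.mul_apply, Module.End.one_apply]
      have h := (LinearEquiv.ofInjectiveEndo φ hφinj).apply_symm_apply v
      rw [← LinearEquiv.coe_ofInjectiveEndo φ hφinj]
      exact h
    · apply LinearMap.ext
      intro v
      rw [Module.End.mul_apply, Module.End.one_apply]
      have h := (LinearEquiv.ofInjectiveEndo φ hφinj).symm_apply_apply v
      have h3 : (LinearEquiv.ofInjectiveEndo φ hφinj) v = φ v := by
        rw [← LinearEquiv.coe_ofInjectiveEndo φ hφinj]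
      rw [h3] at h
      exact h
  have hφQ : ∀ v, Q' (φ v) = Q' v := by
    intro v
    rw [hQ'a, hQ'a, hφ]
    exact hx (v : I d → F) (v : I d → F)
  have hφ'Q : ∀ v, Q' (φ' v) = Q' v := by
    intro v
    rw [← hφQ (φ' v), ← Module.End.mul_apply, h1, Module.End.one_apply]
  have hφpow : ∀ n : ℕ, ∀ v : ↥Y, (((φ ^ n) v : ↥Y) : I d → F)
      = ((x : Matrix (I d) (I d) F) ^ n) *ᵥ (v : I d → F) := by
    intro n
    induction n with
    | zero => intro v; simp
    | succ n ih =>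
      intro v
      rw [pow_succ, Module.End.mul_apply, ih, hφ, Matrix.mulVec_mulVec, ← pow_succ]
  have hφr : φ ^ r = 1 := by
    apply LinearMap.ext
    intro v
    apply Subtype.ext
    rw [hφpow, ← Units.val_pow_eq_pow_val, hxr]
    simp
  have hφ'eq : φ' = φ ^ (r - 1) := by
    have hr1 : r = (r - 1) + 1 := by have := hr.pos; omega
    calc φ' = φ' * φ ^ r := by rw [hφr, mul_one]
      _ = φ' * (φ * φ ^ (r - 1)) := by rw [← pow_succ', ← hr1]
      _ = φ ^ (r - 1) := by rw [← mul_assoc, h2, one_mul]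
  have hfree : ∀ v : ↥Y, φ v = v → v = 0 := by
    intro v hv
    have h1 : (v : I d → F) ∈ Y ⊓ Fx (x : Matrix (I d) (I d) F) :=
      Submodule.mem_inf.mpr ⟨v.2, (mem_Fx _ _).mpr (by rw [← hφ, hv])⟩
    rw [hfix] at h1
    exact Subtype.ext ((Submodule.mem_bot F).mp h1)
  -- the cyclotomic polynomial kills `Y`
  have hr0 : (r : F) ≠ 0 := by
    rw [Ne, CharP.cast_eq_zero_iff F p]
    intro h
    exact hrp ((Nat.prime_dvd_prime_iff_eq hp hr).mp h).symm
  have : NeZero (r : F) := ⟨hr0⟩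
  obtain ⟨Φ, hΦ⟩ : ∃ Φ : F[X], Φ = cyclotomic r F := ⟨_, rfl⟩
  have hΦ0 : Φ ≠ 0 := hΦ ▸ cyclotomic_ne_zero r F
  have hΦm : Φ.Monic := hΦ ▸ cyclotomic.monic r F
  have hΦmul : Φ * (X - 1) = X ^ r - 1 := hΦ ▸ cyclotomic_prime_mul_X_sub_one F r
  have hΦkill : ∀ v : ↥Y, aeval φ Φ v = 0 := by
    intro v
    apply hfree
    have h3 : aeval φ ((X - 1) * Φ) v = 0 := by
      rw [mul_comm, hΦmul, map_sub, map_pow, aeval_X, map_one, hφr, sub_self]
      rfl
    rw [map_mul, Module.End.mul_apply, map_sub, aeval_X, map_one, LinearMap.sub_apply,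
      Module.End.one_apply, sub_eq_zero] at h3
    exact h3
  have hnodup : (normalizedFactors Φ).Nodup :=
    (squarefree_iff_nodup_normalizedFactors hΦ0).mp
      (hΦ ▸ (separable_cyclotomic r F).squarefree)
  have hprod : (normalizedFactors Φ).prod = Φ := by
    rw [prod_normalizedFactors_eq hΦ0, hΦm.normalize_eq_self]
  -- the irreducible factors
  obtain ⟨f, -, hf⟩ := FiniteField.card F p
  have hq0 : ((Fintype.card F : ℕ) : ZMod r) ≠ 0 := by
    rw [Ne, ZMod.natCast_eq_zero_iff, hf]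
    intro h
    exact hrp ((Nat.prime_dvd_prime_iff_eq hr hp).mp (hr.dvd_of_dvd_pow h))
  have hidvd : orderOf ((Fintype.card F : ℕ) : ZMod r) ∣ r - 1 :=
    orderOf_dvd_of_pow_eq_one (ZMod.pow_card_sub_one_eq_one hq0)
  obtain ⟨t, ht⟩ := hidvd
  obtain ⟨S, -, -, hSS, hall⟩ := Cfsg.Agent.S2568.cyclo_facts (F := F) (p := p) r
    (orderOf ((Fintype.card F : ℕ) : ZMod r)) t hr hrp rfl (by rw [ht, mul_comm])
  have hfac : ∀ P ∈ normalizedFactors Φ, Irreducible P ∧ P.Monic ∧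
      P.natDegree = orderOf ((Fintype.card F : ℕ) : ZMod r) ∧
      ∃ a₀ : F, a₀ ≠ 0 ∧ P.reverse = C a₀ * P := by
    intro P hP
    have hirr : Irreducible P := irreducible_of_normalized_factor P hP
    have hmon : P.Monic := by
      have h3 := normalize_normalized_factor P hP
      rw [← h3]
      exact monic_normalize hirr.ne_zero
    have hdΦ : P ∣ Φ := dvd_of_mem_normalizedFactors hP
    have hdvd : P ∣ X ^ r - C (1 : F) := by
      rw [map_one, ← hΦmul]
      exact Dvd.dvd.mul_right hdΦ _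
    have hne : P ≠ X - C 1 := by
      intro h
      rw [h, dvd_iff_isRoot, IsRoot, hΦ, eval_one_cyclotomic_prime] at hdΦ
      exact hr0 hdΦ
    have hdeg : P.natDegree = orderOf ((Fintype.card F : ℕ) : ZMod r) := by
      rcases (hall P hirr hmon).mp hdvd with h | h
      · exact absurd h hne
      · exact (hSS P h).2.2
    have hstar := Cfsg.Agent.Lib.Helper5.SPSELFREC.main F p r hr hrp P hirr hmon hdvd hne
      (hdeg ▸ hev)
    have hstar' : C (P.coeff 0)⁻¹ * P.reverse = P := by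
      have h3 := hstar
      unfold rstar at h3
      rw [Polynomial.map_id, RingHom.id_apply] at h3
      exact h3
    have ha0 : P.coeff 0 ≠ 0 := by
      intro h
      rw [h, inv_zero, map_zero, zero_mul] at hstar'
      exact hirr.ne_zero hstar'.symm
    refine ⟨hirr, hmon, hdeg, P.coeff 0, ha0, ?_⟩
    calc P.reverse = C (P.coeff 0) * (C (P.coeff 0)⁻¹ * P.reverse) := by
          rw [← mul_assoc, ← C_mul, mul_inv_cancel₀ ha0, C_1, one_mul]
      _ = C (P.coeff 0) * P := by rw [hstar']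
  -- a non-singular vector in a primary component
  have : Nontrivial ↥Y := (Submodule.nontrivial_iff_ne_bot).mpr hYne
  obtain ⟨v₀, hv₀⟩ := exists_ne_zero hS
  obtain ⟨P, hPL, v, hPv, hQv⟩ := split Q' φ φ' h1 h2 hφQ (normalizedFactors Φ) hnodup
    (fun P hP => ⟨(hfac P hP).1, (hfac P hP).2.1, (hfac P hP).2.2.2⟩) v₀
    (by rw [hprod]; exact hΦkill v₀) hv₀
  obtain ⟨hirr, hmon, hdeg, -⟩ := hfac P hPL
  -- dimension of cyclic subspaces
  have hdim : ∀ w : ↥Y, w ≠ 0 → aeval φ P w = 0 →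
      finrank F ↥(cyc φ w) = orderOf ((Fintype.card F : ℕ) : ZMod r) := by
    intro w hw hPw
    have hle : finrank F ↥(cyc φ w) ≤ orderOf ((Fintype.card F : ℕ) : ZMod r) := by
      rw [← hdeg]
      exact finrank_cyc_le φ P hmon hPw
    have hpos : 0 < finrank F ↥(cyc φ w) :=
      Module.finrank_pos_iff_exists_ne_zero.mpr
        ⟨⟨w, self_mem_cyc φ w⟩, fun h => hw (congrArg Subtype.val h)⟩
    have hStabB : Stab (x : Matrix (I d) (I d) F) ((cyc φ w).map Y.subtype) := by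
      rintro _ ⟨_, ⟨u, hu, rfl⟩, rfl⟩
      refine ⟨φ u, cyc_map φ w hu, ?_⟩
      rw [Matrix.toLin'_apply]
      exact hφ u
    have hBfix : (cyc φ w).map Y.subtype ⊓ Fx (x : Matrix (I d) (I d) F) = ⊥ :=
      eq_bot_iff.mpr (le_trans (inf_le_inf_right _ (Submodule.map_subtype_le Y _))
        (le_of_eq hfix))
    have hdvd := Cfsg.Agent.Lib.Helper82.HypINVDIM.main F p d r hrp x hxr _ hStabB hBfix
    rw [Submodule.finrank_map_subtype_eq] at hdvd
    exact Nat.le_antisymm hle (Nat.le_of_dvd hpos hdvd)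
  have hv0 : v ≠ 0 := by
    rintro rfl
    exact hQv (QuadraticMap.map_zero Q')
  have hStabC : ∀ w ∈ cyc φ v, φ w ∈ cyc φ v := fun w hw => cyc_map φ v hw
  have hStabC' : ∀ w ∈ cyc φ v, φ' w ∈ cyc φ v := by
    intro w hw
    have h3 := aeval_mem φ (cyc φ v) hStabC (X ^ (r - 1)) hw
    rw [map_pow, aeval_X] at h3
    rw [hφ'eq]
    exact h3
  -- nondegeneracy of the cyclic subspace
  have hcore : ∀ u ∈ cyc φ v, u ≠ 0 → ∃ y ∈ cyc φ v, polar Q' y u ≠ 0 := by
    intro u hu hu0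
    by_contra hall'
    push Not at hall'
    have hle : cyc φ u ≤ cyc φ v := cyc_le φ (cyc φ v) hStabC hu
    have hPu : aeval φ P u = 0 := cyc_ker φ P hPv hu
    have heq : cyc φ u = cyc φ v :=
      Submodule.eq_of_le_of_finrank_eq hle (by rw [hdim u hu0 hPu, hdim v hv0 hPv])
    have hvu : v ∈ cyc φ u := heq ▸ self_mem_cyc φ v
    obtain ⟨g, hg⟩ := (mem_cyc φ u v).mp hvu
    have h3 : polar Q' (aeval φ' g v) u = polar Q' v (aeval φ g u) :=
      adj_aeval Q' φ' φ h2 hφ'Q g v u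
    rw [hall' _ (aeval_mem φ' (cyc φ v) hStabC' g (self_mem_cyc φ v)), hg, polar_self'] at h3
    rcases mul_eq_zero.mp h3.symm with h | h
    · exact h2F h
    · exact hQv h
  refine ⟨(cyc φ v).map Y.subtype, Submodule.map_subtype_le Y _, ?_, ?_, ?_⟩
  · rintro _ ⟨_, ⟨u, hu, rfl⟩, rfl⟩
    refine ⟨φ u, cyc_map φ v hu, ?_⟩
    rw [Matrix.toLin'_apply]
    exact hφ u
  · rintro w ⟨u, hu, rfl⟩ hw0
    have hu0 : u ≠ 0 := by
      rintro rfl
      exact hw0 rfl
    obtain ⟨y, hy, hyu⟩ := hcore u hu hu0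
    rw [hpol] at hyu
    refine ⟨⟨(y : I d → F), ⟨y, hy, rfl⟩, hyu⟩, ⟨(y : I d → F), ⟨y, hy, rfl⟩, ?_⟩⟩
    rw [polar_comm]
    exact hyu
  · rw [Submodule.finrank_map_subtype_eq]
    exact hdim v hv0 hPv

end Cfsg.Agent.Lib.Helper38.HypBFE
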