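import Mathlib
import Cfsg.Agent.Lib.Helper32.D8Stmt

/-!
# S3716 / DUAL (call by helper32)

The configuration `Cfg T N x y a b w` is symmetric under
`x ↦ x*y`, `y ↦ x*y⁻¹`, `a ↦ w*a*b`, `b ↦ w`, `w ↦ b`.
-/

set_option autoImplicit false

namespace Cfsg.Agent.Lib.Helper38.D8DUAL

open Cfsg.Agent.Lib.Helper32

universe u

theorem main : D8Stmt.DUAL.{u} := by
  intro G _ _ T N x y a b w c
  have hw' : w * w = 1 := by rw [← pow_two]; exact c.w2
  have ha' : a * a = 1 := by rw [← pow_two]; exact c.a2
  have hb' : b * b = 1 := by rw [← pow_two]; exact c.b2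
  have hainv : a⁻¹ = a := inv_eq_of_mul_eq_one_right ha'
  have hxy : Commute x y := (commute_iff_eq x y).mpr c.xy
  have hxyi : Commute x y⁻¹ := hxy.inv_right
  have hyx : y * x = x * y := c.xy.symm
  -- conjugation actions
  have hax : MulAut.conj a x = x⁻¹ := by rw [MulAut.conj_apply]; exact c.ax
  have hay : MulAut.conj a y = y := by
    rw [MulAut.conj_apply]; exact mul_inv_eq_iff_eq_mul.mpr c.ay
  have hbx : MulAut.conj b x = x := by
    rw [MulAut.conj_apply]; exact mul_inv_eq_iff_eq_mul.mpr c.bx
  have hby : MulAut.conj b y = y⁻¹ := by rw [MulAut.conj_apply]; exact c.by_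
  have hwx : MulAut.conj w x = y := by rw [MulAut.conj_apply]; exact c.wx
  have hwy : MulAut.conj w y = x := by
    rw [MulAut.conj_apply, ← c.wx]
    calc w * (w * x * w⁻¹) * w⁻¹ = (w * w) * x * (w * w)⁻¹ := by group
      _ = x := by rw [hw']; simp
  have hwb : w * b * w⁻¹ = a := by
    rw [← c.wa]
    calc w * (w * a * w⁻¹) * w⁻¹ = (w * w) * a * (w * w)⁻¹ := by group
      _ = a := by rw [hw']; simp
  have e1 : w * a = b * w := by rw [← c.wa]; group
  have e2 : w * b = a * w := by rw [← hwb]; group
  -- the identities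
  have hi : w * a * b = a * w * a⁻¹ := by
    symm
    calc a * w * a⁻¹ = (a * w) * a := by rw [hainv]
      _ = (w * b) * a := by rw [e2]
      _ = w * (b * a) := by group
      _ = w * (a * b) := by rw [c.ab]
      _ = w * a * b := by group
  have hii : w * a * b * w = a * b := by
    calc w * a * b * w = w * a * (b * w) := by group
      _ = w * a * (w * a) := by rw [← e1]
      _ = (w * a) * w * a := by group
      _ = (b * w) * w * a := by rw [e1]
      _ = b * (w * w) * a := by group
      _ = b * a := by rw [hw', mul_one]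
      _ = a * b := c.ab.symm
  have ha1 : a ≠ 1 := by
    intro h
    apply c.x1
    have h1 := c.ax
    rw [h] at h1
    simp at h1
    have h2 : x * x = 1 := by
      nth_rewrite 2 [h1]
      exact mul_inv_cancel x
    have h3 := c.x3
    rw [pow_succ, pow_two, h2, one_mul] at h3
    exact h3
  have hw1 : w ≠ 1 := by
    intro h
    apply c.yx
    have h1 := c.wx
    rw [h] at h1
    simp at h1
    rw [← h1]
    exact Subgroup.mem_zpowers x
  have hxy3 : (x * y) ^ 3 = 1 := by
    rw [hxy.mul_pow, c.x3, c.y3, one_mul]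
  refine ⟨?_, hi, hii, c.wa.symm, ha1, hw1⟩
  refine
    { x3 := hxy3
      y3 := ?_
      a2 := ?_
      b2 := c.w2
      w2 := c.b2
      xy := ?_
      ab := ?_
      ax := ?_
      ay := ?_
      bx := ?_
      by_ := ?_
      wx := ?_
      wa := ?_
      x1 := ?_
      yx := ?_
      xT := T.mul_mem c.xT c.yT
      yT := T.mul_mem c.xT (T.inv_mem c.yT)
      cardT := c.cardT
      TN := c.TN
      aN := N.mul_mem (N.mul_mem c.wN c.aN) c.bN
      bN := c.wN
      wN := c.bN
      cardN := c.cardN
      nT := c.nT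
      norm := c.norm
      loc := c.loc
      syl := c.syl }
  · -- y3
    rw [hxyi.mul_pow, c.x3, inv_pow, c.y3, inv_one, one_mul]
  · -- a2
    calc (w * a * b) ^ 2 = w * a * (b * w) * a * b := by rw [pow_two]; group
      _ = w * a * (w * a) * a * b := by rw [← e1]
      _ = w * a * w * (a * a) * b := by group
      _ = w * a * (w * b) := by rw [ha']; group
      _ = w * a * (a * w) := by rw [e2]
      _ = w * (a * a) * w := by group
      _ = 1 := by rw [ha', mul_one, hw']
  · -- xy
    calc (x * y) * (x * y⁻¹) = x * (y * x) * y⁻¹ := by group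
      _ = x * (x * y) * y⁻¹ := by rw [hyx]
      _ = x * (x * y⁻¹) * y := by group
      _ = x * (y⁻¹ * x) * y := by rw [hxyi.eq]
      _ = (x * y⁻¹) * (x * y) := by group
  · -- ab
    rw [hii]
    calc a * b = (w * w) * a * b := by rw [hw', one_mul]
      _ = w * (w * a * b) := by group
  · -- ax
    have h : MulAut.conj (w * a * b) (x * y) = (x * y)⁻¹ := by
      simp only [map_mul, MulAut.mul_apply, map_inv, hbx, hby, hax, hay, hwx, hwy, mul_inv_rev]
    rw [MulAut.conj_apply] at h
    exact h
  · -- ay
    have h : MulAut.conj (w * a * b) (x * y⁻¹) = x * y⁻¹ := by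
      simp only [map_mul, MulAut.mul_apply, map_inv, hbx, hby, hax, hay, hwx, hwy, inv_inv]
      exact hxyi.eq.symm
    rw [MulAut.conj_apply] at h
    exact mul_inv_eq_iff_eq_mul.mp h
  · -- bx
    have h : MulAut.conj w (x * y) = x * y := by
      simp only [map_mul, hwx, hwy]
      exact hyx
    rw [MulAut.conj_apply] at h
    exact mul_inv_eq_iff_eq_mul.mp h
  · -- by
    have h : MulAut.conj w (x * y⁻¹) = (x * y⁻¹)⁻¹ := by
      simp only [map_mul, map_inv, hwx, hwy, mul_inv_rev, inv_inv]
    rw [MulAut.conj_apply] at h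
    exact h
  · -- wx
    have h : MulAut.conj b (x * y) = x * y⁻¹ := by
      simp only [map_mul, hbx, hby]
    rw [MulAut.conj_apply] at h
    exact h
  · -- wa
    calc b * (w * a * b) * b⁻¹ = b * (w * a) := by group
      _ = b * (b * w) := by rw [e1]
      _ = (b * b) * w := by group
      _ = w := by rw [hb', one_mul]
  · -- x1
    intro h
    apply c.yx
    rw [eq_inv_of_mul_eq_one_right h]
    exact Subgroup.inv_mem _ (Subgroup.mem_zpowers x)
  · -- yx
    intro h
    obtain ⟨k, hk⟩ := Subgroup.mem_zpowers_iff.mp h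
    have h3 : (x * y) ^ (3 : ℤ) = 1 := by
      have := hxy3
      exact_mod_cast this
    rw [zpow_eq_zpow_emod k h3] at hk
    have hk3 : k % 3 = 0 ∨ k % 3 = 1 ∨ k % 3 = 2 := by omega
    rcases hk3 with h0 | h0 | h0
    · rw [h0, zpow_zero] at hk
      have hxy' : x = y := mul_inv_eq_one.mp hk.symm
      apply c.yx
      rw [← hxy']
      exact Subgroup.mem_zpowers x
    · rw [h0, zpow_one] at hk
      have h5 : y = y⁻¹ := mul_left_cancel hk
      have h6 : y * y = 1 := by
        nth_rewrite 2 [h5]
        exact mul_inv_cancel y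
      have h7 := c.y3
      rw [pow_succ, pow_two, h6, one_mul] at h7
      apply c.yx
      rw [h7]
      exact Subgroup.one_mem _
    · rw [h0, zpow_two] at hk
      have h5 : y * (x * y) = y⁻¹ := by
        apply mul_left_cancel (a := x)
        rw [← hk]
        group
      have h6 : x * (y * y * y) = 1 := by
        calc x * (y * y * y) = (y * x) * y * y := by rw [hyx]; group
          _ = y * (x * y) * y := by group
          _ = y⁻¹ * y := by rw [h5]
          _ = 1 := inv_mul_cancel y
      have h7 : y * y * y = 1 := by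
        have := c.y3
        rw [pow_succ, pow_two] at this
        exact this
      rw [h7, mul_one] at h6
      exact c.x1 h6

end Cfsg.Agent.Lib.Helper38.D8DUAL
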