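import Mathlib
import Cfsg.Agent.Lib.Helper44.BCStmt

set_option autoImplicit false

/-! Piece [CENT3] of S2362: in dimension 3, an isometry of order prime to `p` commuting with a
nontrivial unipotent isometry is `± 1`. -/

namespace Cfsg.Agent.Lib.Helper38.BCCENT3

open Matrix Polynomial
open Cfsg.Agent.Lib.Helper44.QSpace Cfsg.Agent.Lib.Helper44.OGroup Cfsg.Agent.Lib.Helper44.OMat
open Cfsg.Agent.Lib.Helper44.OExt
open Cfsg.Agent.Lib.Helper44.BCStmt

universe u

variable {F : Type u} [Field F]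

/-- Gram identity of an isometry of `qN N`. -/
theorem gram {κ : Type} [Fintype κ] [DecidableEq κ] (N A : Matrix κ κ F)
    (h : ∀ v : κ → F, qN N (A *ᵥ v) = qN N v) : Aᵀ * (N + Nᵀ) * A = N + Nᵀ := by
  have hp : ∀ x y : κ → F,
      QuadraticMap.polar (qN N) (A *ᵥ x) (A *ᵥ y) = QuadraticMap.polar (qN N) x y := by
    intro x y
    unfold QuadraticMap.polar
    rw [← Matrix.mulVec_add, h, h, h]
  ext i j
  have h1 := hp (Pi.single i 1) (Pi.single j 1)
  rw [polar_qN, polar_qN, mulVec_dot, Matrix.mulVec_mulVec, Matrix.mulVec_mulVec] at h1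
  simpa [Matrix.mul_assoc] using h1

theorem cube_zero (R : Matrix (Fin 3) (Fin 3) F) (k : ℕ) (h : R ^ k = 0) : R ^ 3 = 0 := by
  have hnil : IsNilpotent R := ⟨k, h⟩
  have h1 := Matrix.isNilpotent_charpoly_sub_pow_of_isNilpotent hnil
  have h2 : R.charpoly = X ^ 3 := by
    have h3 := h1.eq_zero
    simpa [sub_eq_zero] using h3
  have h3 := Matrix.aeval_self_charpoly R
  rw [h2] at h3
  simpa using h3

theorem rank_one_of_sq_zero (R : Matrix (Fin 3) (Fin 3) F) (h : R * R = 0) :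
    ∃ w φ : Fin 3 → F, R = Matrix.vecMulVec w φ := by
  set L : (Fin 3 → F) →ₗ[F] (Fin 3 → F) := Matrix.mulVecLin R with hL
  have hle : LinearMap.range L ≤ LinearMap.ker L := by
    rintro _ ⟨x, rfl⟩
    rw [LinearMap.mem_ker]
    show R *ᵥ (R *ᵥ x) = 0
    rw [Matrix.mulVec_mulVec, h, Matrix.zero_mulVec]
  have hrn := LinearMap.finrank_range_add_finrank_ker L
  have hfin : Module.finrank F (Fin 3 → F) = 3 := by simp
  have h1 : Module.finrank F (LinearMap.range L) ≤ 1 := by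
    have h2 := Submodule.finrank_mono hle
    omega
  rw [finrank_le_one_iff] at h1
  obtain ⟨w, hw⟩ := h1
  choose c hc using fun j : Fin 3 => hw ⟨L (Pi.single j 1), LinearMap.mem_range_self L _⟩
  refine ⟨w.1, c, ?_⟩
  ext i j
  have h3 := congrArg (fun z : ↥(LinearMap.range L) => (z : Fin 3 → F) i) (hc j)
  simp only [hL, Submodule.coe_smul, Pi.smul_apply, smul_eq_mul, Matrix.mulVecLin_apply,
    Matrix.mulVec_single_one, Matrix.col_apply] at h3
  rw [Matrix.vecMulVec_apply, ← h3, mul_comm]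

theorem cyclic_span (R : Matrix (Fin 3) (Fin 3) F) (v : Fin 3 → F)
    (hR3v : ∀ y : Fin 3 → F, R *ᵥ (R *ᵥ (R *ᵥ y)) = 0)
    (hv : R *ᵥ (R *ᵥ v) ≠ 0) (x : Fin 3 → F) :
    ∃ α β γ : F, x = α • v + β • (R *ᵥ v) + γ • (R *ᵥ (R *ᵥ v)) := by
  have hli : LinearIndependent F ![v, R *ᵥ v, R *ᵥ (R *ᵥ v)] := by
    rw [Fintype.linearIndependent_iff]
    intro g hg
    rw [Fin.sum_univ_three] at hg
    simp only [Matrix.cons_val_zero, Matrix.cons_val_one, Matrix.cons_val_two,
      Matrix.head_cons, Matrix.tail_cons] at hg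
    have h0 : g 0 = 0 := by
      have h := congrArg (fun z => R *ᵥ (R *ᵥ z)) hg
      simp only [Matrix.mulVec_add, Matrix.mulVec_smul, Matrix.mulVec_zero, hR3v, smul_zero,
        add_zero] at h
      exact (smul_eq_zero.mp h).resolve_right hv
    rw [h0, zero_smul, zero_add] at hg
    have h1 : g 1 = 0 := by
      have h := congrArg (fun z => R *ᵥ z) hg
      simp only [Matrix.mulVec_add, Matrix.mulVec_smul, Matrix.mulVec_zero, hR3v, smul_zero,
        add_zero] at h
      exact (smul_eq_zero.mp h).resolve_right hv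
    rw [h1, zero_smul, zero_add] at hg
    have h2 : g 2 = 0 := (smul_eq_zero.mp hg).resolve_right hv
    intro i
    fin_cases i
    · exact h0
    · exact h1
    · exact h2
  have hspan := hli.span_eq_top_of_card_eq_finrank' (by simp)
  have hx : x ∈ Submodule.span F (Set.range ![v, R *ᵥ v, R *ᵥ (R *ᵥ v)]) := by
    rw [hspan]; exact Submodule.mem_top
  rw [Submodule.mem_span_range_iff_exists_fun] at hx
  obtain ⟨g, hg⟩ := hx
  rw [Fin.sum_univ_three] at hg
  simp only [Matrix.cons_val_zero, Matrix.cons_val_one, Matrix.cons_val_two,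
    Matrix.head_cons, Matrix.tail_cons] at hg
  exact ⟨g 0, g 1, g 2, hg.symm⟩

theorem main : RankOne.{u} → Cent3.{u} := by
  intro hRank F _ p _ _ h2 N S U M hN hS hU hSU hUp hU1 hSM hMp
  obtain ⟨G, hG⟩ : ∃ G : Matrix (Fin 3) (Fin 3) F, G = N + Nᵀ := ⟨_, rfl⟩
  have hGt : Gᵀ = G := by
    rw [hG, Matrix.transpose_add, Matrix.transpose_transpose, add_comm]
  have hSG : Sᵀ * G * S = G := by rw [hG]; exact gram N S hS
  have hUG : Uᵀ * G * U = G := by rw [hG]; exact gram N U hU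
  have hGdet : G.det ≠ 0 := by rw [hG]; exact hN
  obtain ⟨R, hR⟩ : ∃ R : Matrix (Fin 3) (Fin 3) F, R = U - 1 := ⟨_, rfl⟩
  have hRp : R ^ p = 0 := by
    rw [hR, sub_pow_char_of_commute p (Commute.one_right U), hUp, one_pow, sub_self]
  have hR3 : R ^ 3 = 0 := cube_zero R p hRp
  have hR3' : R * (R * R) = 0 := by
    have h := hR3
    rw [pow_succ, pow_two, Matrix.mul_assoc] at h
    exact h
  have hR3v : ∀ y : Fin 3 → F, R *ᵥ (R *ᵥ (R *ᵥ y)) = 0 := by
    intro y
    rw [Matrix.mulVec_mulVec, Matrix.mulVec_mulVec, Matrix.mul_assoc, hR3', Matrix.zero_mulVec]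
  have hRR : R * R ≠ 0 := by
    intro h0
    obtain ⟨w, φ, hwφ⟩ := rank_one_of_sq_zero R h0
    exact hU1 (hRank F (Fin 3) G U w φ p h2 hGt hGdet hUG (hR ▸ hwφ) (hR ▸ hRp))
  obtain ⟨v, hv⟩ : ∃ v, R *ᵥ (R *ᵥ v) ≠ 0 := by
    by_contra hcon
    push Not at hcon
    apply hRR
    apply matrix_ext_mulVec
    intro x
    rw [← Matrix.mulVec_mulVec, hcon, Matrix.zero_mulVec]
  have hSR : S * R = R * S := by rw [hR, mul_sub, sub_mul, hSU, mul_one, one_mul]
  obtain ⟨a, b, c, habc⟩ := cyclic_span R v hR3v hv (S *ᵥ v)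
  obtain ⟨T, hT⟩ : ∃ T : Matrix (Fin 3) (Fin 3) F, T = S - a • (1 : Matrix (Fin 3) (Fin 3) F) :=
    ⟨_, rfl⟩
  have hTR : T * R = R * T := by
    rw [hT, sub_mul, mul_sub, hSR, Matrix.smul_mul, Matrix.mul_smul, one_mul, mul_one]
  have hT0 : T *ᵥ v = b • (R *ᵥ v) + c • (R *ᵥ (R *ᵥ v)) := by
    rw [hT, Matrix.sub_mulVec, habc, Matrix.smul_mulVec, Matrix.one_mulVec]
    abel
  have hcomm : ∀ w : Fin 3 → F, T *ᵥ (R *ᵥ w) = R *ᵥ (T *ᵥ w) := by
    intro w
    rw [Matrix.mulVec_mulVec, hTR, ← Matrix.mulVec_mulVec]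
  have hT1 : T *ᵥ (R *ᵥ v) = b • (R *ᵥ (R *ᵥ v)) := by
    rw [hcomm, hT0, Matrix.mulVec_add,
      Matrix.mulVec_smul, Matrix.mulVec_smul, hR3v, smul_zero, add_zero]
  have hT2 : T *ᵥ (R *ᵥ (R *ᵥ v)) = 0 := by
    rw [hcomm, hT1, Matrix.mulVec_smul, hR3v, smul_zero]
  have hT3 : T ^ 3 = 0 := by
    apply matrix_ext_mulVec
    intro x
    obtain ⟨α, β, γ, rfl⟩ := cyclic_span R v hR3v hv x
    have e : T ^ 3 = T * (T * T) := by rw [pow_succ, pow_two, Matrix.mul_assoc]
    rw [e, ← Matrix.mulVec_mulVec, ← Matrix.mulVec_mulVec, Matrix.zero_mulVec]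
    simp only [Matrix.mulVec_add, Matrix.mulVec_smul, hT0, hT1, hT2, smul_zero, add_zero,
      Matrix.mulVec_zero, zero_add]
  have hM0 : (M : F) ≠ 0 := by
    intro h
    have h1 : p ∣ M := (CharP.cast_eq_zero_iff F p M).mp h
    have h3 : p ∣ Nat.gcd M p := Nat.dvd_gcd h1 dvd_rfl
    rw [hMp] at h3
    exact (Fact.out : p.Prime).one_lt.ne' (Nat.dvd_one.mp h3)
  have hsep : (X ^ M - C (1 : F)).Separable := separable_X_pow_sub_C 1 hM0 one_ne_zero
  have hd1 : minpoly F S ∣ X ^ M - C (1 : F) := by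
    apply minpoly.dvd
    simp [hSM]
  have hd2 : minpoly F S ∣ (X - C a) ^ 3 := by
    apply minpoly.dvd
    have h3 : aeval S ((X - C a) ^ 3 : F[X]) = T ^ 3 := by
      rw [hT]
      simp [Algebra.algebraMap_eq_smul_one]
    rw [h3, hT3]
  have hsq : Squarefree (minpoly F S) := hsep.squarefree.squarefree_of_dvd hd1
  have hd3 : minpoly F S ∣ X - C a := (hsq.dvd_pow_iff_dvd (by norm_num)).mp hd2
  have hSa : S = a • (1 : Matrix (Fin 3) (Fin 3) F) := by
    obtain ⟨f, hf⟩ := hd3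
    have h := congrArg (aeval S) hf
    rw [map_mul, minpoly.aeval, zero_mul] at h
    have h4 : aeval S (X - C a : F[X]) = S - a • (1 : Matrix (Fin 3) (Fin 3) F) := by
      simp [Algebra.algebraMap_eq_smul_one]
    rw [h4] at h
    exact sub_eq_zero.mp h
  have ha2 : a * a = 1 := by
    have h1 : (a * a) • G = G := by
      have h5 := hSG
      rw [hSa, Matrix.transpose_smul, Matrix.transpose_one, Matrix.smul_mul, Matrix.one_mul,
        Matrix.mul_smul, Matrix.mul_one, smul_smul] at h5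
      exact h5
    have hG0 : G ≠ 0 := by
      rintro h0
      apply hGdet
      rw [h0]
      simp
    have h6 : (a * a - 1) • G = 0 := by rw [sub_smul, h1, one_smul, sub_self]
    rcases smul_eq_zero.mp h6 with h | h
    · exact sub_eq_zero.mp h
    · exact absurd h hG0
  rcases mul_self_eq_one_iff.mp ha2 with h | h
  · left
    rw [hSa, h, one_smul]
  · right
    rw [hSa, h]
    simp

end Cfsg.Agent.Lib.Helper38.BCCENT3
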