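import Mathlib

set_option autoImplicit false

namespace Cfsg.Agent.Lib.Helper38.InvertIndex

/-- If some element `m` of the normalizer of `H` inverts an element `x ∈ H` with `x ≠ x⁻¹`,
then `|N(H) : C(H)|` is even. -/
theorem even_index_of_inverting {G : Type*} [Group G] [Finite G] (H : Subgroup G) (x : G)
    (hx : x ∈ H) (hxx : x ≠ x⁻¹) (m : G) (hm : m ∈ Subgroup.normalizer (H : Set G))
    (hmx : m * x * m⁻¹ = x⁻¹) :
    2 ∣ ((Subgroup.centralizer (H : Set G)).subgroupOf (Subgroup.normalizer (H : Set G))).index := by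
  rw [← Subgroup.normalizerMonoidHom_ker, Subgroup.index_ker]
  set φ := H.normalizerMonoidHom with hφ
  set a : MulAut H := φ ⟨m, hm⟩ with ha
  set y : H := ⟨x, hx⟩ with hy
  have hay : a y = y⁻¹ := by
    apply Subtype.ext
    simp [ha, hφ, hy, hmx]
  have hyy : y ≠ y⁻¹ := by
    intro h
    apply hxx
    have := congrArg Subtype.val h
    simpa [hy] using this
  have hpow : ∀ k : ℕ, (a ^ (2 * k)) y = y ∧ (a ^ (2 * k + 1)) y = y⁻¹ := by
    intro k
    induction k with
    | zero => simp [hay]
    | succ k ih =>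
      have h1 : (a ^ (2 * (k + 1))) y = y := by
        have : a ^ (2 * (k + 1)) = a * a ^ (2 * k + 1) := by
          rw [← pow_succ']; rfl
        rw [this, MulAut.mul_apply, ih.2, map_inv, hay, inv_inv]
      refine ⟨h1, ?_⟩
      have : a ^ (2 * (k + 1) + 1) = a * a ^ (2 * (k + 1)) := by
        rw [← pow_succ']
      rw [this, MulAut.mul_apply, h1, hay]
  have heven : 2 ∣ orderOf a := by
    rcases Nat.even_or_odd (orderOf a) with he | ho
    · exact even_iff_two_dvd.1 he
    · exfalso
      obtain ⟨k, hk⟩ := ho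
      have h1 := (hpow k).2
      rw [← hk, pow_orderOf_eq_one] at h1
      exact hyy h1
  have hmem : a ∈ φ.range := ⟨⟨m, hm⟩, rfl⟩
  have h2 : orderOf a ∣ Nat.card φ.range := by
    have := orderOf_dvd_natCard (⟨a, hmem⟩ : φ.range)
    rwa [Subgroup.orderOf_mk] at this
  exact heven.trans h2

end Cfsg.Agent.Lib.Helper38.InvertIndex
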