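import Mathlib

set_option autoImplicit false

namespace Cfsg.Agent.Lib.Helper38.NilpNum

open Nat

/-- 2-adic valuation of `n!`. -/
def e (n : ℕ) : ℕ := padicValNat 2 (n !)

theorem e_two_mul (j : ℕ) : e (2 * j) = j + e j := by
  unfold e
  have := @padicValNat_factorial_mul 2 j ⟨Nat.prime_two⟩
  omega

theorem e_two_mul_add_one (j : ℕ) : e (2 * j + 1) = j + e j := by
  unfold e
  have h1 := @padicValNat_factorial_mul_add 2 1 j ⟨Nat.prime_two⟩ (by norm_num)
  have h2 := @padicValNat_factorial_mul 2 j ⟨Nat.prime_two⟩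
  omega

theorem e_zero : e 0 = 0 := by simp [e]

theorem e_one : e 1 = 0 := by simp [e]

theorem e_add_le (a b : ℕ) : e a + e b ≤ e (a + b) := by
  unfold e
  have hd := Nat.factorial_mul_factorial_dvd_factorial_add a b
  have _i : Fact (Nat.Prime 2) := ⟨Nat.prime_two⟩
  have h0 : (a + b)! ≠ 0 := Nat.factorial_ne_zero _
  rw [← padicValNat.mul (Nat.factorial_ne_zero a) (Nat.factorial_ne_zero b)]
  exact (padicValNat_dvd_iff_le h0).mp (dvd_trans pow_padicValNat_dvd hd)

theorem e_add_odd {a b : ℕ} (ha : a % 2 = 1) (hb : b % 2 = 1) : e a + e b + 1 ≤ e (a + b) := by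
  obtain ⟨i, rfl⟩ : ∃ i, a = 2 * i + 1 := ⟨a / 2, by omega⟩
  obtain ⟨j, rfl⟩ : ∃ j, b = 2 * j + 1 := ⟨b / 2, by omega⟩
  have h1 : 2 * i + 1 + (2 * j + 1) = 2 * (i + j + 1) := by ring
  rw [h1, e_two_mul, e_two_mul_add_one, e_two_mul_add_one]
  have h2 := e_add_le i j
  have h3 := e_add_le (i + j) 1
  omega

theorem e_add_three_two {a b : ℕ} (ha : a % 4 = 3) (hb : b % 4 = 2) :
    e a + e b + 1 ≤ e (a + b) := by
  obtain ⟨i, rfl⟩ : ∃ i, a = 2 * i + 1 := ⟨a / 2, by omega⟩
  obtain ⟨j, rfl⟩ : ∃ j, b = 2 * j := ⟨b / 2, by omega⟩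
  have h1 : 2 * i + 1 + 2 * j = 2 * (i + j) + 1 := by ring
  rw [h1, e_two_mul, e_two_mul_add_one, e_two_mul_add_one]
  have h2 := e_add_odd (a := i) (b := j) (by omega) (by omega)
  omega

theorem e_add_three_three {a b : ℕ} (ha : a % 4 = 3) (hb : b % 4 = 3) :
    e a + e b + 2 ≤ e (a + b) := by
  obtain ⟨i, rfl⟩ : ∃ i, a = 2 * i + 1 := ⟨a / 2, by omega⟩
  obtain ⟨j, rfl⟩ : ∃ j, b = 2 * j + 1 := ⟨b / 2, by omega⟩
  have h1 : 2 * i + 1 + (2 * j + 1) = 2 * (i + j + 1) := by ring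
  rw [h1, e_two_mul, e_two_mul_add_one, e_two_mul_add_one]
  have h2 := e_add_odd (a := i) (b := j) (by omega) (by omega)
  have h3 := e_add_le (i + j) 1
  omega

theorem e_of_mod {n : ℕ} (hn : n % 4 = 3) : e n = e (n - 3) + 1 := by
  obtain ⟨i, rfl⟩ : ∃ i, n = 2 * (2 * i + 1) + 1 := ⟨n / 4, by omega⟩
  have h1 : 2 * (2 * i + 1) + 1 - 3 = 2 * (2 * i) := by omega
  rw [h1, e_two_mul, e_two_mul_add_one, e_two_mul_add_one, e_two_mul]
  omega

/-- The bound: `3 * 2 ^ e (n - 3)` if `n ≡ 3 mod 4`, else `2 ^ e n`. -/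
def h (n : ℕ) : ℕ := if n % 4 = 3 then 3 * 2 ^ e (n - 3) else 2 ^ e n

theorem h_of_mod {n : ℕ} (hn : n % 4 = 3) : h n = 3 * 2 ^ e (n - 3) := by
  unfold h; rw [if_pos hn]

theorem h_of_not {n : ℕ} (hn : n % 4 ≠ 3) : h n = 2 ^ e n := by
  unfold h; rw [if_neg hn]

theorem h_pos (n : ℕ) : 0 < h n := by
  unfold h; split_ifs <;> positivity

theorem two_pow_e_le_h (n : ℕ) : 2 ^ e n ≤ h n := by
  by_cases hn : n % 4 = 3
  · rw [h_of_mod hn, e_of_mod hn, pow_succ]
    have : 0 < 2 ^ e (n - 3) := by positivity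
    omega
  · rw [h_of_not hn]

theorem aux3 {x y z : ℕ} (hz : x + y + 2 ≤ z) : 3 * 2 ^ x * 2 ^ y ≤ 2 ^ z := by
  calc 3 * 2 ^ x * 2 ^ y ≤ 4 * 2 ^ x * 2 ^ y :=
        Nat.mul_le_mul_right _ (Nat.mul_le_mul_right _ (by norm_num))
    _ = 2 ^ (x + y + 2) := by ring
    _ ≤ 2 ^ z := Nat.pow_le_pow_right (by norm_num) hz

theorem h_mul_le_aux {a b : ℕ} (ha : a % 4 = 3) (hb : b % 4 ≠ 3) : h a * h b ≤ h (a + b) := by
  rw [h_of_mod ha, h_of_not hb]
  have hea := e_of_mod ha
  by_cases hb0 : b % 4 = 0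
  · have hab : (a + b) % 4 = 3 := by omega
    rw [h_of_mod hab]
    have h1 : a + b - 3 = (a - 3) + b := by omega
    have h2 := e_add_le (a - 3) b
    rw [h1]
    calc 3 * 2 ^ e (a - 3) * 2 ^ e b = 3 * 2 ^ (e (a - 3) + e b) := by ring
      _ ≤ 3 * 2 ^ e (a - 3 + b) :=
        Nat.mul_le_mul_left _ (Nat.pow_le_pow_right (by norm_num) h2)
  · have hab : (a + b) % 4 ≠ 3 := by omega
    rw [h_of_not hab]
    apply aux3
    by_cases hb1 : b % 4 = 1
    · have := e_add_odd (a := a) (b := b) (by omega) (by omega)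
      omega
    · have := e_add_three_two (a := a) (b := b) ha (by omega)
      omega

theorem h_mul_le (a b : ℕ) : h a * h b ≤ h (a + b) := by
  by_cases ha : a % 4 = 3
  · by_cases hb : b % 4 = 3
    · have hab : (a + b) % 4 ≠ 3 := by omega
      rw [h_of_mod ha, h_of_mod hb, h_of_not hab]
      have h1 := e_add_three_three ha hb
      have h2 := e_of_mod ha
      have h3 := e_of_mod hb
      calc 3 * 2 ^ e (a - 3) * (3 * 2 ^ e (b - 3))
          = 9 * 2 ^ (e (a - 3) + e (b - 3)) := by ring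
        _ ≤ 16 * 2 ^ (e (a - 3) + e (b - 3)) := Nat.mul_le_mul_right _ (by norm_num)
        _ = 2 ^ (e (a - 3) + e (b - 3) + 4) := by ring
        _ ≤ 2 ^ e (a + b) := Nat.pow_le_pow_right (by norm_num) (by omega)
    · exact h_mul_le_aux ha hb
  · by_cases hb : b % 4 = 3
    · rw [mul_comm, add_comm]
      exact h_mul_le_aux hb ha
    · rw [h_of_not ha, h_of_not hb, ← pow_add]
      exact le_trans (Nat.pow_le_pow_right (by norm_num) (e_add_le a b)) (two_pow_e_le_h _)

theorem h_mono {a b : ℕ} (hab : a ≤ b) : h a ≤ h b := by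
  obtain ⟨d, rfl⟩ := Nat.exists_eq_add_of_le hab
  calc h a = h a * 1 := (mul_one _).symm
    _ ≤ h a * h d := Nat.mul_le_mul_left _ (h_pos d)
    _ ≤ h (a + d) := h_mul_le a d

theorem two_pow_le (n : ℕ) : 2 ^ n ≤ (n + 1) * 2 ^ e n := by
  induction n using Nat.strong_induction_on with
  | _ n ih =>
    rcases Nat.even_or_odd' n with ⟨j, rfl | rfl⟩
    · rcases Nat.eq_zero_or_pos j with rfl | hj
      · simp [e]
      have := ih j (by omega)
      rw [e_two_mul]
      calc 2 ^ (2 * j) = 2 ^ j * 2 ^ j := by ring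
        _ ≤ 2 ^ j * ((j + 1) * 2 ^ e j) := Nat.mul_le_mul_left _ this
        _ = (j + 1) * 2 ^ (j + e j) := by ring
        _ ≤ (2 * j + 1) * 2 ^ (j + e j) := Nat.mul_le_mul_right _ (by omega)
    · have := ih j (by omega)
      rw [e_two_mul_add_one]
      calc 2 ^ (2 * j + 1) = 2 * (2 ^ j * 2 ^ j) := by ring
        _ ≤ 2 * (2 ^ j * ((j + 1) * 2 ^ e j)) :=
          Nat.mul_le_mul_left _ (Nat.mul_le_mul_left _ this)
        _ = (2 * j + 1 + 1) * 2 ^ (j + e j) := by ring

theorem three_pow_le (t : ℕ) (ht : 8 ≤ t) : 3 ^ t * (t + 1) ≤ 4 ^ t := by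
  induction t, ht using Nat.le_induction with
  | base => norm_num
  | succ t ht ih =>
    calc 3 ^ (t + 1) * (t + 1 + 1) = 3 ^ t * (3 * (t + 2)) := by ring
      _ ≤ 3 ^ t * (4 * (t + 1)) := Nat.mul_le_mul_left _ (by omega)
      _ = 4 * (3 ^ t * (t + 1)) := by ring
      _ ≤ 4 * 4 ^ t := Nat.mul_le_mul_left _ ih
      _ = 4 ^ (t + 1) := by ring

theorem sq_le_three_pow (p : ℕ) (hp : 3 ≤ p) : p ^ 2 ≤ 3 ^ (p - 1) := by
  induction p, hp using Nat.le_induction with
  | base => norm_num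
  | succ p hp ih =>
    obtain ⟨m, rfl⟩ : ∃ m, p = m + 1 := ⟨p - 1, by omega⟩
    have h1 : m + 1 + 1 - 1 = m + 1 := by omega
    have h2 : m + 1 - 1 = m := by omega
    rw [h1]
    rw [h2] at ih
    calc (m + 1 + 1) ^ 2 ≤ 3 * (m + 1) ^ 2 := by nlinarith
      _ ≤ 3 * 3 ^ m := Nat.mul_le_mul_left _ ih
      _ = 3 ^ (m + 1) := by ring

theorem mul_succ_le_two_pow (p : ℕ) (hp : 5 ≤ p) : p * (p + 1) ≤ 2 ^ p := by
  induction p, hp using Nat.le_induction with
  | base => norm_num
  | succ p hp ih =>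
    calc (p + 1) * (p + 1 + 1) ≤ 2 * (p * (p + 1)) := by nlinarith
      _ ≤ 2 * 2 ^ p := Nat.mul_le_mul_left _ ih
      _ = 2 ^ (p + 1) := by ring

theorem E_succ (p a : ℕ) (hp : p.Prime) :
    padicValNat p ((p ^ (a + 1))!) = padicValNat p ((p ^ a)!) + p ^ a := by
  have := @padicValNat_factorial_mul p (p ^ a) ⟨hp⟩
  rw [pow_succ']
  exact this

theorem E_zero (p : ℕ) : padicValNat p ((p ^ 0)!) = 0 := by simp

theorem E_formula (p a : ℕ) (hp : p.Prime) :
    padicValNat p ((p ^ a)!) * (p - 1) + 1 = p ^ a := by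
  obtain ⟨r, rfl⟩ : ∃ r, p = r + 1 := ⟨p - 1, by have := hp.pos; omega⟩
  have h1 : r + 1 - 1 = r := by omega
  rw [h1]
  induction a with
  | zero => simp
  | succ a ih =>
    rw [E_succ _ _ hp]
    calc (padicValNat (r + 1) ((r + 1) ^ a)! + (r + 1) ^ a) * r + 1
        = (padicValNat (r + 1) ((r + 1) ^ a)! * r + 1) + (r + 1) ^ a * r := by ring
      _ = (r + 1) ^ a + (r + 1) ^ a * r := by rw [ih]
      _ = (r + 1) ^ (a + 1) := by ring

theorem two_pow_mod (a : ℕ) : (2 ^ a) % 4 ≠ 3 := by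
  cases a with
  | zero => norm_num
  | succ a => rw [pow_succ]; omega

theorem e_nine : e 9 = 7 := by
  have h1 : e 9 = 4 + e 4 := e_two_mul_add_one 4
  have h2 : e 4 = 2 + e 2 := e_two_mul 2
  have h3 : e 2 = 1 + e 1 := e_two_mul 1
  rw [h1, h2, h3, e_one]

/-- general bound for an odd prime power at least 17 -/
theorem pow_E_le_general (p a : ℕ) (hp : p.Prime) (hp3 : 3 ≤ p) (hq : 17 ≤ p ^ a) :
    p ^ padicValNat p ((p ^ a)!) ≤ 2 ^ e (p ^ a) := by
  have hF := E_formula p a hp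
  obtain ⟨E, hE⟩ : ∃ E, E = padicValNat p ((p ^ a)!) := ⟨_, rfl⟩
  rw [← hE] at hF ⊢
  obtain ⟨q, hqd⟩ : ∃ q, q = p ^ a := ⟨_, rfl⟩
  rw [← hqd] at hF hq ⊢
  have hpodd : p % 2 = 1 := by
    rcases hp.eq_two_or_odd with h2 | h2
    · omega
    · exact h2
  have hqodd : q % 2 = 1 := by
    rw [hqd, Nat.pow_mod, hpodd]; simp
  obtain ⟨t, rfl⟩ : ∃ t, q = 2 * t + 1 := ⟨q / 2, by omega⟩
  have ht : 8 ≤ t := by omega
  have h1 : (p ^ E) ^ 2 ≤ (3 ^ t) ^ 2 := by
    calc (p ^ E) ^ 2 = (p ^ 2) ^ E := by ring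
      _ ≤ (3 ^ (p - 1)) ^ E := Nat.pow_le_pow_left (sq_le_three_pow p hp3) E
      _ = 3 ^ (E * (p - 1)) := by rw [← pow_mul, mul_comm]
      _ = 3 ^ (2 * t) := by congr 1; omega
      _ = (3 ^ t) ^ 2 := by ring
  have h2 : p ^ E ≤ 3 ^ t := by
    by_contra hlt
    push Not at hlt
    have := Nat.pow_lt_pow_left hlt (n := 2) (by norm_num)
    omega
  have h3 : p ^ E * (2 * t + 1 + 1) ≤ 2 ^ e (2 * t + 1) * (2 * t + 1 + 1) := by
    calc p ^ E * (2 * t + 1 + 1) ≤ 3 ^ t * (2 * t + 1 + 1) := Nat.mul_le_mul_right _ h2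
      _ = 2 * (3 ^ t * (t + 1)) := by ring
      _ ≤ 2 * 4 ^ t := Nat.mul_le_mul_left _ (three_pow_le t ht)
      _ = 2 ^ (2 * t + 1) := by
          have : (4 : ℕ) = 2 ^ 2 := by norm_num
          rw [this, ← pow_mul]; ring
      _ ≤ (2 * t + 1 + 1) * 2 ^ e (2 * t + 1) := two_pow_le _
      _ = 2 ^ e (2 * t + 1) * (2 * t + 1 + 1) := by ring
  exact Nat.le_of_mul_le_mul_right h3 (by omega)

theorem pow_E_le_h (p a : ℕ) (hp : p.Prime) :
    p ^ padicValNat p ((p ^ a)!) ≤ h (p ^ a) := by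
  rcases hp.eq_two_or_odd with h2 | hodd
  · subst h2
    rw [h_of_not (two_pow_mod a)]
    rfl
  have hp3 : 3 ≤ p := by have := hp.two_le; omega
  by_cases hq : 17 ≤ p ^ a
  · exact le_trans (pow_E_le_general p a hp hp3 hq) (two_pow_e_le_h _)
  push Not at hq
  rcases Nat.lt_or_ge a 2 with ha | ha
  · interval_cases a
    · rw [E_zero, pow_zero]; exact h_pos 1
    · have hE : padicValNat p ((p ^ 1)!) = 1 := by
        have := E_succ p 0 hp
        rw [E_zero] at this
        simpa using this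
      rw [hE]
      simp only [pow_one]
      by_cases h3 : p = 3
      · subst h3
        rw [h_of_mod (by norm_num)]
        simp [e_zero]
      · have hp5 : 5 ≤ p := by
          have h4 : p ≠ 4 := by
            rintro rfl
            exact absurd hp (by norm_num)
          omega
        have h1 := mul_succ_le_two_pow p hp5
        have h2 := two_pow_le p
        have h3' : p * (p + 1) ≤ 2 ^ e p * (p + 1) := by
          calc p * (p + 1) ≤ 2 ^ p := h1
            _ ≤ (p + 1) * 2 ^ e p := h2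
            _ = 2 ^ e p * (p + 1) := by ring
        exact le_trans (Nat.le_of_mul_le_mul_right h3' (by omega)) (two_pow_e_le_h _)
  · have hpa : p ^ 2 ≤ p ^ a := Nat.pow_le_pow_right hp.pos ha
    have hp4 : p ≤ 4 := by nlinarith
    have h3 : p = 3 := by
      have h4 : p ≠ 4 := by
        rintro rfl
        exact absurd hp (by norm_num)
      omega
    subst h3
    have ha2 : a = 2 := by
      by_contra hne
      have h3a : 3 ≤ a := by omega
      have : 3 ^ 3 ≤ 3 ^ a := Nat.pow_le_pow_right (by norm_num) h3a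
      omega
    subst ha2
    have hE1 : padicValNat 3 ((3 ^ 1)!) = 1 := by
      have := E_succ 3 0 Nat.prime_three
      rw [E_zero] at this
      simpa using this
    have hE2 : padicValNat 3 ((3 ^ 2)!) = 4 := by
      have := E_succ 3 1 Nat.prime_three
      rw [hE1] at this
      simpa using this
    rw [hE2]
    have h9 : (3 : ℕ) ^ 2 = 9 := by norm_num
    rw [h9, h_of_not (by norm_num), e_nine]
    norm_num

theorem pow_le_h_prime_pow (p a c : ℕ) (hp : p.Prime) (hc : p ^ c ∣ (p ^ a)!) :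
    p ^ c ≤ h (p ^ a) := by
  have _i : Fact p.Prime := ⟨hp⟩
  have h1 : c ≤ padicValNat p ((p ^ a)!) :=
    (padicValNat_dvd_iff_le (Nat.factorial_ne_zero _)).mp hc
  exact le_trans (Nat.pow_le_pow_right hp.pos h1) (pow_E_le_h p a hp)

/-- The numeric heart: if each prime-power part of `k` divides the factorial of the
corresponding prime-power part of `m`, then `k ≤ h m`. -/
theorem main_num : ∀ m : ℕ, m ≠ 0 → ∀ k : ℕ, k ≠ 0 →
    (∀ p : ℕ, p.Prime → p ^ (k.factorization p) ∣ (p ^ (m.factorization p))!) → k ≤ h m := by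
  intro m
  induction m using Nat.strong_induction_on with
  | _ m ih =>
    intro hm k hk hyp
    by_cases hm1 : m = 1
    · subst hm1
      have hk1 : k = 1 := by
        by_contra hk1
        obtain ⟨p, hp, hpk⟩ := Nat.exists_prime_and_dvd hk1
        have h1 := hyp p hp
        have h2 : 1 ≤ k.factorization p := hp.factorization_pos_of_dvd hk hpk
        simp only [Nat.factorization_one, Finsupp.coe_zero, Pi.zero_apply, pow_zero,
          Nat.factorial_one, Nat.dvd_one] at h1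
        have h3 : p ^ 1 ≤ p ^ k.factorization p := Nat.pow_le_pow_right hp.pos h2
        rw [pow_one] at h3
        have := hp.two_le
        omega
      subst hk1
      exact h_pos 1
    · have hp : (m.minFac).Prime := Nat.minFac_prime hm1
      have hpm : m.minFac ∣ m := Nat.minFac_dvd m
      obtain ⟨p, hpdef⟩ : ∃ p, p = m.minFac := ⟨_, rfl⟩
      rw [← hpdef] at hp hpm
      have ha : 1 ≤ m.factorization p := hp.factorization_pos_of_dvd hm hpm
      have hm_eq : p ^ m.factorization p * (m / p ^ m.factorization p) = m :=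
        Nat.ordProj_mul_ordCompl_eq_self m p
      have hk_eq : p ^ k.factorization p * (k / p ^ k.factorization p) = k :=
        Nat.ordProj_mul_ordCompl_eq_self k p
      have hm'0 : m / p ^ m.factorization p ≠ 0 := (Nat.ordCompl_pos p hm).ne'
      have hk'0 : k / p ^ k.factorization p ≠ 0 := (Nat.ordCompl_pos p hk).ne'
      have hpa2 : 2 ≤ p ^ m.factorization p := by
        calc 2 ≤ p := hp.two_le
          _ = p ^ 1 := (pow_one p).symm
          _ ≤ p ^ m.factorization p := Nat.pow_le_pow_right hp.pos ha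
      have hlt : m / p ^ m.factorization p < m := by
        have hpos : 0 < m / p ^ m.factorization p := Nat.pos_of_ne_zero hm'0
        nlinarith
      have h1 : k / p ^ k.factorization p ≤ h (m / p ^ m.factorization p) := by
        apply ih _ hlt hm'0 _ hk'0
        intro r hr
        by_cases hrp : r = p
        · subst hrp
          rw [Nat.factorization_ordCompl k r]
          simp
        · rw [Nat.factorization_ordCompl k p, Nat.factorization_ordCompl m p,
            Finsupp.erase_ne hrp, Finsupp.erase_ne hrp]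
          exact hyp r hr
      have h2 : p ^ k.factorization p ≤ h (p ^ m.factorization p) :=
        pow_le_h_prime_pow p _ _ hp (hyp p hp)
      obtain ⟨m', hm'⟩ : ∃ m', m' = m / p ^ m.factorization p := ⟨_, rfl⟩
      obtain ⟨k', hk'⟩ : ∃ k', k' = k / p ^ k.factorization p := ⟨_, rfl⟩
      rw [← hm'] at hm_eq hm'0 h1
      rw [← hk'] at hk_eq h1
      rw [← hk_eq, ← hm_eq]
      by_cases hm'1 : m' = 1
      · rw [hm'1] at h1 ⊢
        have hh1 : h 1 = 1 := by rw [h_of_not (by norm_num), e_one]; rfl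
        rw [hh1] at h1
        calc p ^ k.factorization p * k' ≤ h (p ^ m.factorization p) * 1 := Nat.mul_le_mul h2 h1
          _ = h (p ^ m.factorization p * 1) := by rw [mul_one, mul_one]
      · have hm'2 : 2 ≤ m' := by
          have := Nat.pos_of_ne_zero hm'0
          omega
        have hsum : p ^ m.factorization p + m' ≤ p ^ m.factorization p * m' := by nlinarith
        calc p ^ k.factorization p * k' ≤ h (p ^ m.factorization p) * h m' :=
              Nat.mul_le_mul h2 h1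
          _ ≤ h (p ^ m.factorization p + m') := h_mul_le _ _
          _ ≤ h (p ^ m.factorization p * m') := h_mono hsum

end Cfsg.Agent.Lib.Helper38.NilpNum
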