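import Mathlib
import Cfsg.Agent.Lib.Helper38.NilpNum

set_option autoImplicit false

namespace Cfsg.Agent.Lib.Helper38.NilpNumA

open Nat
open Cfsg.Agent.Lib.Helper38.NilpNum

theorem e2 : e 2 = 1 := by have := e_two_mul 1; rw [e_one] at this; exact this
theorem e3 : e 3 = 1 := by have := e_two_mul_add_one 1; rw [e_one] at this; exact this
theorem e4 : e 4 = 3 := by have := e_two_mul 2; rw [e2] at this; exact this
theorem e5 : e 5 = 3 := by have := e_two_mul_add_one 2; rw [e2] at this; exact this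
theorem e6 : e 6 = 4 := by have := e_two_mul 3; rw [e3] at this; exact this
theorem e7 : e 7 = 4 := by have := e_two_mul_add_one 3; rw [e3] at this; exact this
theorem e8 : e 8 = 7 := by have := e_two_mul 4; rw [e4] at this; exact this
theorem e9 : e 9 = 7 := e_nine
theorem e10 : e 10 = 8 := by have := e_two_mul 5; rw [e5] at this; exact this
theorem e11 : e 11 = 8 := by have := e_two_mul_add_one 5; rw [e5] at this; exact this
theorem e12 : e 12 = 10 := by have := e_two_mul 6; rw [e6] at this; exact this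
theorem e14 : e 14 = 11 := by have := e_two_mul 7; rw [e7] at this; exact this
theorem e15 : e 15 = 11 := by have := e_two_mul_add_one 7; rw [e7] at this; exact this
theorem e18 : e 18 = 16 := by have := e_two_mul 9; rw [e9] at this; exact this

theorem h0 : h 0 = 1 := by rw [h_of_not (by norm_num), e_zero]; rfl
theorem h1 : h 1 = 1 := by rw [h_of_not (by norm_num), e_one]; rfl
theorem h2 : h 2 = 2 := by rw [h_of_not (by norm_num), e2]; rfl
theorem h3 : h 3 = 3 := by rw [h_of_mod (by norm_num)]; simp [e_zero]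
theorem h4 : h 4 = 8 := by rw [h_of_not (by norm_num), e4]; rfl
theorem h5 : h 5 = 8 := by rw [h_of_not (by norm_num), e5]; rfl
theorem h6 : h 6 = 16 := by rw [h_of_not (by norm_num), e6]; rfl
theorem h7 : h 7 = 24 := by rw [h_of_mod (by norm_num)]; simp [e4]
theorem h8 : h 8 = 128 := by rw [h_of_not (by norm_num), e8]; rfl
theorem h9 : h 9 = 128 := by rw [h_of_not (by norm_num), e9]; rfl
theorem h10 : h 10 = 256 := by rw [h_of_not (by norm_num), e10]; rfl
theorem h11 : h 11 = 384 := by rw [h_of_mod (by norm_num)]; simp [e8]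
theorem h12 : h 12 = 1024 := by rw [h_of_not (by norm_num), e12]; rfl
theorem h14 : h 14 = 2048 := by rw [h_of_not (by norm_num), e14]; rfl
theorem h15 : h 15 = 3072 := by rw [h_of_mod (by norm_num)]; simp [e12]
theorem h18 : h 18 = 65536 := by rw [h_of_not (by norm_num), e18]; rfl

/-- The bound for twice the order of an even nilpotent permutation group of degree `n`. -/
def g (n : ℕ) : ℕ :=
  if n ≤ 1 then 2 else if n = 3 then 6 else if n = 5 then 10 else if n = 6 then 18
  else if n = 9 then 162 else h n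

theorem g_of_ne {n : ℕ} (h1' : 2 ≤ n) (h3' : n ≠ 3) (h5' : n ≠ 5) (h6' : n ≠ 6) (h9' : n ≠ 9) :
    g n = h n := by
  unfold g
  rw [if_neg (by omega), if_neg h3', if_neg h5', if_neg h6', if_neg h9']

theorem g0 : g 0 = 2 := by simp [g]
theorem g1 : g 1 = 2 := by simp [g]
theorem g3 : g 3 = 6 := by simp [g]
theorem g5 : g 5 = 10 := by simp [g]
theorem g6 : g 6 = 18 := by simp [g]
theorem g9 : g 9 = 162 := by simp [g]

theorem h_le_g (n : ℕ) : h n ≤ g n := by
  by_cases c1 : n ≤ 1
  · interval_cases n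
    · rw [h0, g0]; norm_num
    · rw [h1, g1]; norm_num
  by_cases c3 : n = 3
  · subst c3; rw [h3, g3]; norm_num
  by_cases c5 : n = 5
  · subst c5; rw [h5, g5]; norm_num
  by_cases c6 : n = 6
  · subst c6; rw [h6, g6]; norm_num
  by_cases c9 : n = 9
  · subst c9; rw [h9, g9]; norm_num
  rw [g_of_ne (by omega) c3 c5 c6 c9]

theorem g_le_two_h (n : ℕ) : g n ≤ 2 * h n := by
  by_cases c1 : n ≤ 1
  · interval_cases n
    · rw [h0, g0]
    · rw [h1, g1]
  by_cases c3 : n = 3
  · subst c3; rw [h3, g3]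
  by_cases c5 : n = 5
  · subst c5; rw [h5, g5]; norm_num
  by_cases c6 : n = 6
  · subst c6; rw [h6, g6]; norm_num
  by_cases c9 : n = 9
  · subst c9; rw [h9, g9]; norm_num
  rw [g_of_ne (by omega) c3 c5 c6 c9]
  omega

theorem g_mul_le_aux {a b : ℕ} (ha : g a = h a) : g a * g b ≤ 2 * g (a + b) := by
  calc g a * g b ≤ h a * (2 * h b) := by
        rw [ha]; exact Nat.mul_le_mul_left _ (g_le_two_h b)
    _ = 2 * (h a * h b) := by ring
    _ ≤ 2 * h (a + b) := Nat.mul_le_mul_left _ (h_mul_le a b)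
    _ ≤ 2 * g (a + b) := Nat.mul_le_mul_left _ (h_le_g _)

theorem g_mul_le {a b : ℕ} (ha : 1 ≤ a) (hb : 1 ≤ b) : g a * g b ≤ 2 * g (a + b) := by
  by_cases hea : a = 1 ∨ a = 3 ∨ a = 5 ∨ a = 6 ∨ a = 9
  · by_cases heb : b = 1 ∨ b = 3 ∨ b = 5 ∨ b = 6 ∨ b = 9
    · have g2 : g 2 = 2 := by rw [g_of_ne (by norm_num) (by norm_num) (by norm_num)
        (by norm_num) (by norm_num), h2]
      have g4 : g 4 = 8 := by rw [g_of_ne (by norm_num) (by norm_num) (by norm_num)
        (by norm_num) (by norm_num), h4]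
      have g7 : g 7 = 24 := by rw [g_of_ne (by norm_num) (by norm_num) (by norm_num)
        (by norm_num) (by norm_num), h7]
      have g8 : g 8 = 128 := by rw [g_of_ne (by norm_num) (by norm_num) (by norm_num)
        (by norm_num) (by norm_num), h8]
      have g10 : g 10 = 256 := by rw [g_of_ne (by norm_num) (by norm_num) (by norm_num)
        (by norm_num) (by norm_num), h10]
      have g11 : g 11 = 384 := by rw [g_of_ne (by norm_num) (by norm_num) (by norm_num)
        (by norm_num) (by norm_num), h11]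
      have g12 : g 12 = 1024 := by rw [g_of_ne (by norm_num) (by norm_num) (by norm_num)
        (by norm_num) (by norm_num), h12]
      have g14 : g 14 = 2048 := by rw [g_of_ne (by norm_num) (by norm_num) (by norm_num)
        (by norm_num) (by norm_num), h14]
      have g15 : g 15 = 3072 := by rw [g_of_ne (by norm_num) (by norm_num) (by norm_num)
        (by norm_num) (by norm_num), h15]
      have g18 : g 18 = 65536 := by rw [g_of_ne (by norm_num) (by norm_num) (by norm_num)
        (by norm_num) (by norm_num), h18]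
      rcases hea with rfl | rfl | rfl | rfl | rfl <;>
      rcases heb with rfl | rfl | rfl | rfl | rfl <;>
      norm_num [g1, g3, g5, g6, g9, g2, g4, g7, g8, g10, g11, g12, g14, g15, g18]
    · rw [mul_comm, add_comm]
      apply g_mul_le_aux
      push Not at heb
      exact g_of_ne (by omega) heb.2.1 heb.2.2.1 heb.2.2.2.1 heb.2.2.2.2
  · apply g_mul_le_aux
    push Not at hea
    exact g_of_ne (by omega) hea.2.1 hea.2.2.1 hea.2.2.2.1 hea.2.2.2.2

/-- margin for even degree -/
theorem two_h_pred_le {m : ℕ} (hm : m % 2 = 0) (hm2 : 2 ≤ m) : 2 * h (m - 1) ≤ h m := by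
  by_cases h4 : m % 4 = 2
  · obtain ⟨i, rfl⟩ : ∃ i, m = 2 * (2 * i + 1) := ⟨m / 4, by omega⟩
    have hm1 : 2 * (2 * i + 1) - 1 = 2 * (2 * i) + 1 := by omega
    rw [hm1, h_of_not (by omega), h_of_not (by omega), e_two_mul, e_two_mul_add_one,
      e_two_mul_add_one, e_two_mul, ← pow_succ']
    apply Nat.pow_le_pow_right (by norm_num)
    omega
  · obtain ⟨i, rfl⟩ : ∃ i, m = 2 * (2 * (i + 1)) := ⟨m / 4 - 1, by omega⟩
    have hm1 : (2 * (2 * (i + 1)) - 1) % 4 = 3 := by omega
    have hm2' : 2 * (2 * (i + 1)) - 1 - 3 = 2 * (2 * i) := by omega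
    rw [h_of_mod hm1, hm2', h_of_not (by omega), e_two_mul, e_two_mul, e_two_mul, e_two_mul]
    have hmono := e_add_le i 1
    rw [e_one] at hmono
    calc 2 * (3 * 2 ^ (2 * i + (i + e i))) ≤ 8 * 2 ^ (2 * i + (i + e i)) := by omega
      _ = 2 ^ (2 * i + (i + e i) + 3) := by ring
      _ ≤ 2 ^ (2 * (i + 1) + (i + 1 + e (i + 1))) :=
        Nat.pow_le_pow_right (by norm_num) (by omega)

/-- margin for odd degree -/
theorem two_h_sub_three_le {m : ℕ} (hm : m % 2 = 1) (hm3 : 3 ≤ m) : 2 * h (m - 3) ≤ h m := by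
  by_cases h4 : m % 4 = 3
  · rw [h_of_mod h4, h_of_not (by omega)]
    omega
  · obtain ⟨i, rfl⟩ : ∃ i, m = 2 * (2 * (i + 1)) + 1 := ⟨m / 4 - 1, by omega⟩
    have hm1 : 2 * (2 * (i + 1)) + 1 - 3 = 2 * (2 * i + 1) := by omega
    rw [hm1, h_of_not (by omega), h_of_not (by omega), e_two_mul, e_two_mul_add_one,
      e_two_mul_add_one, e_two_mul, ← pow_succ']
    have hmono := e_add_le i 1
    rw [e_one] at hmono
    apply Nat.pow_le_pow_right (by norm_num)
    omega

theorem three_pow_le2 (t : ℕ) (ht : 12 ≤ t) : 2 * (3 ^ t * (t + 1)) ≤ 4 ^ t := by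
  induction t, ht using Nat.le_induction with
  | base => norm_num
  | succ t ht ih =>
    calc 2 * (3 ^ (t + 1) * (t + 1 + 1)) = 2 * (3 ^ t * (3 * (t + 2))) := by ring
      _ ≤ 2 * (3 ^ t * (4 * (t + 1))) :=
        Nat.mul_le_mul_left _ (Nat.mul_le_mul_left _ (by omega))
      _ = 4 * (2 * (3 ^ t * (t + 1))) := by ring
      _ ≤ 4 * 4 ^ t := Nat.mul_le_mul_left _ ih
      _ = 4 ^ (t + 1) := by ring

theorem two_mul_succ_le_two_pow (p : ℕ) (hp : 7 ≤ p) : 2 * (p * (p + 1)) ≤ 2 ^ p := by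
  induction p, hp using Nat.le_induction with
  | base => norm_num
  | succ p hp ih =>
    calc 2 * ((p + 1) * (p + 1 + 1)) ≤ 2 * (2 * (p * (p + 1))) := by nlinarith
      _ ≤ 2 * 2 ^ p := Nat.mul_le_mul_left _ ih
      _ = 2 ^ (p + 1) := by ring

/-- general margin-2 bound for an odd prime power at least 25 -/
theorem pow_E_le_general2 (p a : ℕ) (hp : p.Prime) (hp3 : 3 ≤ p) (hq : 25 ≤ p ^ a) :
    2 * p ^ padicValNat p ((p ^ a)!) ≤ 2 ^ e (p ^ a) := by
  have hF := E_formula p a hp
  obtain ⟨E, hE⟩ : ∃ E, E = padicValNat p ((p ^ a)!) := ⟨_, rfl⟩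
  rw [← hE] at hF ⊢
  obtain ⟨q, hqd⟩ : ∃ q, q = p ^ a := ⟨_, rfl⟩
  rw [← hqd] at hF hq ⊢
  have hpodd : p % 2 = 1 := by
    rcases hp.eq_two_or_odd with h2 | h2
    · omega
    · exact h2
  have hqodd : q % 2 = 1 := by
    rw [hqd, Nat.pow_mod, hpodd]; simp
  obtain ⟨t, rfl⟩ : ∃ t, q = 2 * t + 1 := ⟨q / 2, by omega⟩
  have ht : 12 ≤ t := by omega
  have h1 : (p ^ E) ^ 2 ≤ (3 ^ t) ^ 2 := by
    calc (p ^ E) ^ 2 = (p ^ 2) ^ E := by ring
      _ ≤ (3 ^ (p - 1)) ^ E := Nat.pow_le_pow_left (sq_le_three_pow p hp3) E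
      _ = 3 ^ (E * (p - 1)) := by rw [← pow_mul, mul_comm]
      _ = 3 ^ (2 * t) := by congr 1; omega
      _ = (3 ^ t) ^ 2 := by ring
  have h2 : p ^ E ≤ 3 ^ t := by
    by_contra hlt
    push Not at hlt
    have := Nat.pow_lt_pow_left hlt (n := 2) (by norm_num)
    omega
  have h3 : 2 * p ^ E * (2 * t + 1 + 1) ≤ 2 ^ e (2 * t + 1) * (2 * t + 1 + 1) := by
    calc 2 * p ^ E * (2 * t + 1 + 1) ≤ 2 * 3 ^ t * (2 * t + 1 + 1) :=
          Nat.mul_le_mul_right _ (Nat.mul_le_mul_left _ h2)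
      _ = 2 * (2 * (3 ^ t * (t + 1))) := by ring
      _ ≤ 2 * 4 ^ t := Nat.mul_le_mul_left _ (three_pow_le2 t ht)
      _ = 2 ^ (2 * t + 1) := by
          have : (4 : ℕ) = 2 ^ 2 := by norm_num
          rw [this, ← pow_mul]; ring
      _ ≤ (2 * t + 1 + 1) * 2 ^ e (2 * t + 1) := two_pow_le _
      _ = 2 ^ e (2 * t + 1) * (2 * t + 1 + 1) := by ring
  exact Nat.le_of_mul_le_mul_right h3 (by omega)

theorem two_pow_E_le_g (p a : ℕ) (hp : p.Prime) (hodd : p ≠ 2) (ha : 1 ≤ a) :
    2 * p ^ padicValNat p ((p ^ a)!) ≤ g (p ^ a) := by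
  have hp3 : 3 ≤ p := by have := hp.two_le; omega
  have h4 : p ≠ 4 := by
    rintro rfl
    exact absurd hp (by norm_num)
  by_cases hq : 25 ≤ p ^ a
  · exact le_trans (pow_E_le_general2 p a hp hp3 hq)
      (le_trans (two_pow_e_le_h _) (h_le_g _))
  push Not at hq
  rcases Nat.lt_or_ge a 2 with ha2 | ha2
  · have ha1 : a = 1 := by omega
    subst ha1
    have hE : padicValNat p ((p ^ 1)!) = 1 := by
      have := E_succ p 0 hp
      rw [E_zero] at this
      simpa using this
    rw [hE]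
    simp only [pow_one]
    by_cases h3 : p = 3
    · subst h3; rw [g3]
    by_cases h5 : p = 5
    · subst h5; rw [g5]
    have h6 : p ≠ 6 := by
      rintro rfl
      exact absurd hp (by norm_num)
    have hp7 : 7 ≤ p := by omega
    have h1 := two_mul_succ_le_two_pow p hp7
    have h2 := two_pow_le p
    have h3' : 2 * p * (p + 1) ≤ 2 ^ e p * (p + 1) := by
      calc 2 * p * (p + 1) = 2 * (p * (p + 1)) := by ring
        _ ≤ 2 ^ p := h1
        _ ≤ (p + 1) * 2 ^ e p := h2
        _ = 2 ^ e p * (p + 1) := by ring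
    exact le_trans (Nat.le_of_mul_le_mul_right h3' (by omega))
      (le_trans (two_pow_e_le_h _) (h_le_g _))
  · have hpa : p ^ 2 ≤ p ^ a := Nat.pow_le_pow_right hp.pos ha2
    have hp4 : p ≤ 4 := by nlinarith
    have h3 : p = 3 := by omega
    subst h3
    have ha2' : a = 2 := by
      by_contra hne
      have h3a : 3 ≤ a := by omega
      have : 3 ^ 3 ≤ 3 ^ a := Nat.pow_le_pow_right (by norm_num) h3a
      omega
    subst ha2'
    have hE1 : padicValNat 3 ((3 ^ 1)!) = 1 := by
      have := E_succ 3 0 Nat.prime_three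
      rw [E_zero] at this
      simpa using this
    have hE2 : padicValNat 3 ((3 ^ 2)!) = 4 := by
      have := E_succ 3 1 Nat.prime_three
      rw [hE1] at this
      simpa using this
    rw [hE2]
    have h9' : (3 : ℕ) ^ 2 = 9 := by norm_num
    rw [h9', g9]
    norm_num

theorem sum_le_prod1 {x y : ℕ} (hx : 2 ≤ x) (hy : 3 ≤ y) : x + y + 1 ≤ x * y := by
  obtain ⟨x', rfl⟩ := Nat.exists_eq_add_of_le hx
  obtain ⟨y', rfl⟩ := Nat.exists_eq_add_of_le hy
  nlinarith [Nat.zero_le (x' * y')]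

theorem sum_le_prod3 {x y : ℕ} (hx : 3 ≤ x) (hy : 3 ≤ y) : x + y + 3 ≤ x * y := by
  obtain ⟨x', rfl⟩ := Nat.exists_eq_add_of_le hx
  obtain ⟨y', rfl⟩ := Nat.exists_eq_add_of_le hy
  nlinarith [Nat.zero_le (x' * y')]

/-- The numeric heart for even groups. -/
theorem main_numA (m k : ℕ) (hm : m ≠ 0) (hk : k ≠ 0)
    (hyp : ∀ p : ℕ, p.Prime → p ^ (k.factorization p) ∣ (p ^ (m.factorization p))!)
    (hev : 2 ≤ m → 2 * k ∣ m !) : 2 * k ≤ g m := by
  by_cases hm1 : m = 1
  · subst hm1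
    have hk1 := main_num 1 hm k hk hyp
    rw [h1] at hk1
    have : k = 1 := by have := Nat.pos_of_ne_zero hk; omega
    subst this
    rw [g1]
  have hm2 : 2 ≤ m := by have := Nat.pos_of_ne_zero hm; omega
  have hp : (m.minFac).Prime := Nat.minFac_prime hm1
  have hpm : m.minFac ∣ m := Nat.minFac_dvd m
  have h2iff := Nat.minFac_eq_two_iff m
  obtain ⟨p, hpdef⟩ : ∃ p, p = m.minFac := ⟨_, rfl⟩
  rw [← hpdef] at hp hpm h2iff
  have ha : 1 ≤ m.factorization p := hp.factorization_pos_of_dvd hm hpm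
  have hm_eq : p ^ m.factorization p * (m / p ^ m.factorization p) = m :=
    Nat.ordProj_mul_ordCompl_eq_self m p
  have hk_eq : p ^ k.factorization p * (k / p ^ k.factorization p) = k :=
    Nat.ordProj_mul_ordCompl_eq_self k p
  have hm'0 : m / p ^ m.factorization p ≠ 0 := (Nat.ordCompl_pos p hm).ne'
  have hk'0 : k / p ^ k.factorization p ≠ 0 := (Nat.ordCompl_pos p hk).ne'
  have hcop : Nat.Coprime p (m / p ^ m.factorization p) := Nat.coprime_ordCompl hp hm
  have hpa2 : p ≤ p ^ m.factorization p := by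
    calc p = p ^ 1 := (pow_one p).symm
      _ ≤ p ^ m.factorization p := Nat.pow_le_pow_right hp.pos ha
  have h1' : k / p ^ k.factorization p ≤ h (m / p ^ m.factorization p) := by
    apply main_num _ hm'0 _ hk'0
    intro r hr
    by_cases hrp : r = p
    · subst hrp
      rw [Nat.factorization_ordCompl k r]
      simp
    · rw [Nat.factorization_ordCompl k p, Nat.factorization_ordCompl m p,
        Finsupp.erase_ne hrp, Finsupp.erase_ne hrp]
      exact hyp r hr
  have hpc : p ^ k.factorization p ∣ (p ^ m.factorization p)! := hyp p hp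
  have h2' : p ^ k.factorization p ≤ h (p ^ m.factorization p) :=
    pow_le_h_prime_pow p _ _ hp hpc
  obtain ⟨m', hm'⟩ : ∃ m', m' = m / p ^ m.factorization p := ⟨_, rfl⟩
  obtain ⟨k', hk'⟩ : ∃ k', k' = k / p ^ k.factorization p := ⟨_, rfl⟩
  obtain ⟨x, hx⟩ : ∃ x, x = p ^ m.factorization p := ⟨_, rfl⟩
  obtain ⟨c, hc⟩ : ∃ c, c = k.factorization p := ⟨_, rfl⟩
  rw [← hm', ← hx] at hm_eq
  rw [← hm'] at hm'0 h1' hcop
  rw [← hk', ← hc] at hk_eq
  rw [← hk'] at h1' hk'0
  rw [← hc, ← hx] at h2'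
  rw [← hx] at hpa2
  by_cases hm'1 : m' = 1
  · -- prime power case
    rw [hm'1, h1] at h1'
    have hk'1 : k' = 1 := by have := Nat.pos_of_ne_zero hk'0; omega
    rw [hk'1, mul_one] at hk_eq
    rw [hm'1, mul_one] at hm_eq
    by_cases hp2 : p = 2
    · have hd := hev hm2
      rw [← hk_eq, hp2, ← pow_succ'] at hd
      have _i : Fact (Nat.Prime 2) := ⟨Nat.prime_two⟩
      have hle : c + 1 ≤ e m := (padicValNat_dvd_iff_le (Nat.factorial_ne_zero _)).mp hd
      rw [← hk_eq, hp2, ← pow_succ']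
      exact le_trans (Nat.pow_le_pow_right (by norm_num) hle)
        (le_trans (two_pow_e_le_h _) (h_le_g _))
    · have _i : Fact p.Prime := ⟨hp⟩
      have hcE : c ≤ padicValNat p ((p ^ m.factorization p)!) := by
        rw [hc]
        exact (padicValNat_dvd_iff_le (Nat.factorial_ne_zero _)).mp hpc
      rw [← hk_eq, ← hm_eq, hx]
      exact le_trans (Nat.mul_le_mul_left _ (Nat.pow_le_pow_right hp.pos hcE))
        (two_pow_E_le_g p _ hp hp2 ha)
  · have hm'2 : 2 ≤ m' := by
      have := Nat.pos_of_ne_zero hm'0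
      omega
    have hkle : k ≤ h (x + m') := by
      rw [← hk_eq]
      exact le_trans (Nat.mul_le_mul h2' h1') (h_mul_le _ _)
    have hp2le := hp.two_le
    by_cases hp2 : p = 2
    · have hmeven : m % 2 = 0 := by
        have : 2 ∣ m := h2iff.mp hp2
        omega
      have hm'odd : m' % 2 = 1 := by
        rw [hp2] at hcop
        exact Nat.odd_iff.mp ((Nat.coprime_two_left).mp hcop)
      have hsum : x + m' ≤ m - 1 := by
        have : x + m' + 1 ≤ x * m' := sum_le_prod1 (by omega) (by omega)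
        omega
      calc 2 * k ≤ 2 * h (x + m') := Nat.mul_le_mul_left _ hkle
        _ ≤ 2 * h (m - 1) := Nat.mul_le_mul_left _ (h_mono hsum)
        _ ≤ h m := two_h_pred_le hmeven hm2
        _ ≤ g m := h_le_g m
    · have hmodd : m % 2 = 1 := by
        by_contra hne
        have : 2 ∣ m := by omega
        exact hp2 (h2iff.mpr this)
      have hm'odd : m' % 2 = 1 := by
        by_contra hne
        have h2m' : 2 ∣ m' := by omega
        have : 2 ∣ m := by rw [← hm_eq]; exact Dvd.dvd.mul_left h2m' x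
        omega
      have hx3 : 3 ≤ x := by omega
      have hm'3 : 3 ≤ m' := by omega
      have hsum : x + m' ≤ m - 3 := by
        have : x + m' + 3 ≤ x * m' := sum_le_prod3 hx3 hm'3
        omega
      calc 2 * k ≤ 2 * h (x + m') := Nat.mul_le_mul_left _ hkle
        _ ≤ 2 * h (m - 3) := Nat.mul_le_mul_left _ (h_mono hsum)
        _ ≤ h m := two_h_sub_three_le hmodd (by omega)
        _ ≤ g m := h_le_g m

end Cfsg.Agent.Lib.Helper38.NilpNumA
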