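import Mathlib
import Cfsg.Agent.Lib.Helper38.NilpNum
import Cfsg.Agent.Lib.Helper65.NilCoprime

set_option autoImplicit false

namespace Cfsg.Agent.Lib.Helper38.NilpPerm

open Cfsg.Agent.Lib.Helper38

/-- A `p`-group acting on a nonempty finite set has an orbit whose size divides the
cardinality of the set. -/
theorem exists_small_orbit {p : ℕ} [Fact p.Prime] {P Ω : Type*} [Group P] [MulAction P Ω]
    [Finite Ω] [Nonempty Ω] (hP : IsPGroup p P) :
    ∃ ω : Ω, ∃ b : ℕ, Nat.card (MulAction.orbit P ω) = p ^ b ∧ p ^ b ∣ Nat.card Ω := by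
  classical
  by_contra hcon
  push Not at hcon
  have hcard0 : Nat.card Ω ≠ 0 := Nat.card_pos.ne'
  have hp : p.Prime := Fact.out
  obtain ⟨a, ha⟩ : ∃ a, a = (Nat.card Ω).factorization p := ⟨_, rfl⟩
  have hdiv : ∀ ω : Ω, p ^ (a + 1) ∣ Nat.card (MulAction.orbit P ω) := by
    intro ω
    obtain ⟨b, hb⟩ := hP.card_orbit ω
    rw [hb]
    apply pow_dvd_pow
    by_contra hle
    push Not at hle
    refine hcon ω b hb (dvd_trans (pow_dvd_pow p ?_) (Nat.ordProj_dvd _ p))
    omega
  have _i : Fintype (MulAction.orbitRel.Quotient P Ω) := Fintype.ofFinite _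
  have hsum : Nat.card Ω
      = ∑ q : MulAction.orbitRel.Quotient P Ω, Nat.card (MulAction.orbit P q.out) := by
    rw [Nat.card_congr (MulAction.selfEquivSigmaOrbits P Ω), Nat.card_sigma]
  have h1 : p ^ (a + 1)
      ∣ ∑ q : MulAction.orbitRel.Quotient P Ω, Nat.card (MulAction.orbit P q.out) :=
    Finset.dvd_sum (fun q _ => hdiv q.out)
  rw [← hsum, ha] at h1
  exact Nat.pow_succ_factorization_not_dvd hcard0 hp h1

/-- In a finite nilpotent group, `p`-elements lie in every Sylow `p`-subgroup. -/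
theorem mem_sylow_of_orderOf {G : Type*} [Group G] [Finite G] [Group.IsNilpotent G]
    {p : ℕ} [Fact p.Prime] (P : Sylow p G) (u : G) (k : ℕ) (hu : orderOf u ∣ p ^ k) :
    u ∈ P := by
  have hp : p.Prime := Fact.out
  obtain ⟨m, _, hm⟩ := (Nat.dvd_prime_pow hp).mp hu
  have hz : IsPGroup p (Subgroup.zpowers u) := by
    apply IsPGroup.of_card (n := m)
    rw [Nat.card_zpowers, hm]
  obtain ⟨Q, hQ⟩ := hz.exists_le_sylow
  have hPn : (P : Subgroup G).Normal := inferInstance
  have hQP : Q = P :=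
    ((Sylow.unique_of_normal P hPn).uniq Q).trans ((Sylow.unique_of_normal P hPn).uniq P).symm
  rw [← hQP]
  exact hQ (Subgroup.mem_zpowers u)

/-- Every element `t` of a finite nilpotent group factors as `v * u` with `u` in the Sylow
`p`-subgroup `P` and `v` commuting with every element of `P`. -/
theorem exists_decomp {G : Type*} [Group G] [Finite G] [Group.IsNilpotent G]
    {p : ℕ} [Fact p.Prime] (P : Sylow p G) (t : G) :
    ∃ u v : G, u ∈ P ∧ t = v * u ∧ ∀ g ∈ P, g * v = v * g := by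
  have hp : p.Prime := Fact.out
  have hn0 : orderOf t ≠ 0 := (orderOf_pos t).ne'
  obtain ⟨n1, hn1⟩ : ∃ n1, n1 = p ^ (orderOf t).factorization p := ⟨_, rfl⟩
  obtain ⟨n2, hn2⟩ : ∃ n2, n2 = orderOf t / p ^ (orderOf t).factorization p := ⟨_, rfl⟩
  have hprod : n1 * n2 = orderOf t := by
    rw [hn1, hn2]; exact Nat.ordProj_mul_ordCompl_eq_self _ p
  have hcop2 : Nat.Coprime p n2 := by
    rw [hn2]; exact Nat.coprime_ordCompl hp hn0
  have hcop : Nat.Coprime n1 n2 := by
    rw [hn1]; exact Nat.Coprime.pow_left _ hcop2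
  have hbez := Nat.gcd_eq_gcd_ab n1 n2
  rw [hcop.gcd_eq_one] at hbez
  obtain ⟨A, hA⟩ : ∃ A, A = Nat.gcdA n1 n2 := ⟨_, rfl⟩
  obtain ⟨B, hB⟩ : ∃ B, B = Nat.gcdB n1 n2 := ⟨_, rfl⟩
  rw [← hA, ← hB] at hbez
  have ht : t = (t ^ n1) ^ A * (t ^ n2) ^ B := by
    calc t = t ^ (1 : ℤ) := (zpow_one t).symm
      _ = t ^ ((n1 : ℤ) * A + (n2 : ℤ) * B) := by rw [← hbez]; norm_num
      _ = (t ^ n1) ^ A * (t ^ n2) ^ B := by
        rw [zpow_add, zpow_mul, zpow_mul, zpow_natCast, zpow_natCast]
  have hu1 : orderOf ((t ^ n2) ^ B) ∣ n1 := by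
    refine dvd_trans (orderOf_dvd_of_mem_zpowers (Subgroup.zpow_mem_zpowers _ B)) ?_
    apply orderOf_dvd_of_pow_eq_one
    rw [← pow_mul, mul_comm, hprod, pow_orderOf_eq_one]
  have hv1 : orderOf ((t ^ n1) ^ A) ∣ n2 := by
    refine dvd_trans (orderOf_dvd_of_mem_zpowers (Subgroup.zpow_mem_zpowers _ A)) ?_
    apply orderOf_dvd_of_pow_eq_one
    rw [← pow_mul, hprod, pow_orderOf_eq_one]
  refine ⟨(t ^ n2) ^ B, (t ^ n1) ^ A, ?_, ht, ?_⟩
  · rw [hn1] at hu1
    exact mem_sylow_of_orderOf P _ _ hu1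
  · intro g hg
    obtain ⟨k, hk⟩ := P.isPGroup' ⟨g, hg⟩
    have hk' : g ^ p ^ k = 1 := by
      have := congrArg Subtype.val hk
      simpa using this
    have hgo : orderOf g ∣ p ^ k := orderOf_dvd_of_pow_eq_one hk'
    have hc : Nat.Coprime (orderOf g) (orderOf ((t ^ n1) ^ A)) :=
      Nat.Coprime.coprime_dvd_left hgo
        (Nat.Coprime.coprime_dvd_right hv1 (Nat.Coprime.pow_left _ hcop2))
    exact Helper65.NilCoprime.commute_of_coprime G g _ (isOfFinOrder_of_finite _)
      (isOfFinOrder_of_finite _) hc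

/-- The Sylow `p`-subgroup of a transitive faithful nilpotent group acts faithfully on each of
its orbits. -/
theorem eq_one_of_fix_orbit {G Ω : Type*} [Group G] [Finite G] [Group.IsNilpotent G]
    [MulAction G Ω] [FaithfulSMul G Ω] [MulAction.IsPretransitive G Ω]
    {p : ℕ} [Fact p.Prime] (P : Sylow p G) (ω : Ω) (g : G) (hg : g ∈ P)
    (hfix : ∀ y ∈ P, g • y • ω = y • ω) : g = 1 := by
  apply FaithfulSMul.eq_of_smul_eq_smul (α := Ω)
  intro x
  rw [one_smul]
  obtain ⟨t, rfl⟩ := MulAction.exists_smul_eq G ω x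
  obtain ⟨u, v, hu, ht, hv⟩ := exists_decomp P t
  rw [ht, mul_smul, ← mul_smul g v, hv g hg, mul_smul, hfix u hu]

theorem sylow_bound {G Ω : Type*} [Group G] [Finite G] [Group.IsNilpotent G]
    [MulAction G Ω] [FaithfulSMul G Ω] [MulAction.IsPretransitive G Ω] [Finite Ω] [Nonempty Ω]
    (p : ℕ) (hp : p.Prime) :
    p ^ ((Nat.card G).factorization p) ∣ (p ^ ((Nat.card Ω).factorization p)).factorial := by
  have _i : Fact p.Prime := ⟨hp⟩
  obtain ⟨P⟩ : Nonempty (Sylow p G) := inferInstance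
  have hcardP : Nat.card P = p ^ (Nat.card G).factorization p := P.card_eq_multiplicity
  obtain ⟨ω, b, hb, hdvd⟩ := exists_small_orbit (P := ↥P) (Ω := Ω) P.isPGroup'
  have hcard0 : Nat.card Ω ≠ 0 := Nat.card_pos.ne'
  have hba : b ≤ (Nat.card Ω).factorization p :=
    (hp.pow_dvd_iff_le_factorization hcard0).mp hdvd
  have hinj : Function.Injective (MulAction.toPermHom ↥P ↥(MulAction.orbit ↥P ω)) := by
    rw [injective_iff_map_eq_one]
    intro g hg1
    have h1 : (g : G) = 1 := by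
      apply eq_one_of_fix_orbit P ω (g : G) g.2
      intro y hy
      have h2 := congrArg (fun σ : Equiv.Perm ↥(MulAction.orbit ↥P ω) =>
        ((σ ⟨(⟨y, hy⟩ : ↥P) • ω, MulAction.mem_orbit ω _⟩ : ↥(MulAction.orbit ↥P ω)) : Ω)) hg1
      have h3 : (g • (⟨y, hy⟩ : ↥P) • ω : Ω) = (⟨y, hy⟩ : ↥P) • ω := by simpa using h2
      exact h3
    exact Subtype.ext h1
  have hd := Subgroup.card_dvd_of_injective _ hinj
  rw [Nat.card_perm, hb] at hd
  have hd' : p ^ (Nat.card G).factorization p ∣ (p ^ b).factorial := by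
    rw [← hcardP]; exact hd
  exact dvd_trans hd' (Nat.factorial_dvd_factorial (Nat.pow_le_pow_right hp.pos hba))

/-- A nilpotent group acting faithfully and transitively on a finite nonempty set of size `m`
has order at most `h m`. -/
theorem card_le_of_transitive {G Ω : Type*} [Group G] [Group.IsNilpotent G]
    [MulAction G Ω] [FaithfulSMul G Ω] [MulAction.IsPretransitive G Ω] [Finite Ω] [Nonempty Ω] :
    Nat.card G ≤ NilpNum.h (Nat.card Ω) := by
  have _i : Finite G := Finite.of_injective (MulAction.toPermHom G Ω) MulAction.toPerm_injective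
  exact NilpNum.main_num (Nat.card Ω) Nat.card_pos.ne' (Nat.card G) Nat.card_pos.ne'
    (fun p hp => sylow_bound p hp)

/-- Restriction of a permutation group to an invariant set. -/
def restr {Ω : Type*} (N : Subgroup (Equiv.Perm Ω)) (s : Set Ω)
    (hs : ∀ g ∈ N, ∀ x, g x ∈ s ↔ x ∈ s) : N →* Equiv.Perm s where
  toFun g := (g : Equiv.Perm Ω).subtypePerm (hs g g.2)
  map_one' := by ext x; rfl
  map_mul' := fun a b => by ext x; rfl

theorem restr_apply {Ω : Type*} (N : Subgroup (Equiv.Perm Ω)) (s : Set Ω)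
    (hs : ∀ g ∈ N, ∀ x, g x ∈ s ↔ x ∈ s) (g : N) (x : s) :
    ((restr N s hs g x : s) : Ω) = (g : Equiv.Perm Ω) x := rfl

/-- Splitting along an invariant set: `N` embeds in the product of its restrictions. -/
theorem card_le_split {Ω : Type*} [Finite Ω] (N : Subgroup (Equiv.Perm Ω)) (s : Set Ω)
    (hs : ∀ g ∈ N, ∀ x, g x ∈ s ↔ x ∈ s) (hs' : ∀ g ∈ N, ∀ x, g x ∈ sᶜ ↔ x ∈ sᶜ) :
    Nat.card N ≤ Nat.card (restr N s hs).range * Nat.card (restr N sᶜ hs').range := by
  rw [← Nat.card_prod]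
  apply Nat.card_le_card_of_injective
    (fun g : N => ((restr N s hs).rangeRestrict g, (restr N sᶜ hs').rangeRestrict g))
  intro g g' hgg
  have h1 : restr N s hs g = restr N s hs g' := by
    have := congrArg (fun z => (z.1 : Equiv.Perm s)) hgg
    simpa using this
  have h2 : restr N sᶜ hs' g = restr N sᶜ hs' g' := by
    have := congrArg (fun z => (z.2 : Equiv.Perm (sᶜ : Set Ω))) hgg
    simpa using this
  apply Subtype.ext
  ext x
  by_cases hx : x ∈ s
  · have := congrArg (fun σ : Equiv.Perm s => ((σ ⟨x, hx⟩ : s) : Ω)) h1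
    simpa [restr_apply] using this
  · have := congrArg (fun σ : Equiv.Perm (sᶜ : Set Ω) => ((σ ⟨x, hx⟩ : (sᶜ : Set Ω)) : Ω)) h2
    simpa [restr_apply] using this

/-- Main theorem: a nilpotent permutation group of degree `k` has order at most `h k`. -/
theorem card_le_h : ∀ (k : ℕ) (Ω : Type) [Finite Ω], Nat.card Ω = k →
    ∀ N : Subgroup (Equiv.Perm Ω), Group.IsNilpotent N → Nat.card N ≤ NilpNum.h k := by
  intro k
  induction k using Nat.strong_induction_on with
  | _ k ih =>
    intro Ω _ hk N hN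
    classical
    rcases isEmpty_or_nonempty Ω with hΩ | hΩ
    · have : Subsingleton N := inferInstance
      rw [Nat.card_of_subsingleton (1 : N)]
      exact NilpNum.h_pos k
    by_cases htr : MulAction.IsPretransitive N Ω
    · have _f : FaithfulSMul N Ω := ⟨fun {g g'} hgg => Subtype.ext (Equiv.ext hgg)⟩
      rw [← hk]
      exact card_le_of_transitive (G := N) (Ω := Ω)
    · obtain ⟨ω⟩ := hΩ
      have hs : ∀ g ∈ N, ∀ x, g x ∈ MulAction.orbit N ω ↔ x ∈ MulAction.orbit N ω := by
        intro g hg x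
        rw [MulAction.mem_orbit_iff, MulAction.mem_orbit_iff]
        constructor
        · rintro ⟨n, hn⟩
          refine ⟨(⟨g, hg⟩ : N)⁻¹ * n, ?_⟩
          rw [mul_smul, hn]
          exact inv_smul_smul (⟨g, hg⟩ : N) x
        · rintro ⟨n, hn⟩
          refine ⟨(⟨g, hg⟩ : N) * n, ?_⟩
          rw [mul_smul, hn]
          rfl
      have hs' : ∀ g ∈ N, ∀ x, g x ∈ (MulAction.orbit N ω)ᶜ ↔ x ∈ (MulAction.orbit N ω)ᶜ := by
        intro g hg x
        exact not_congr (hs g hg x)
      have hne : ∃ x₀, x₀ ∉ MulAction.orbit N ω := by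
        by_contra hall
        push Not at hall
        apply htr
        refine ⟨fun x y => ?_⟩
        obtain ⟨a, ha⟩ := hall x
        obtain ⟨b, hb⟩ := hall y
        refine ⟨b * a⁻¹, ?_⟩
        rw [← ha, ← hb, mul_smul, inv_smul_smul]
      obtain ⟨x₀, hx₀⟩ := hne
      have hsum : Nat.card (MulAction.orbit N ω) + Nat.card ((MulAction.orbit N ω)ᶜ : Set Ω)
          = k := by
        rw [← hk, ← Nat.card_sum]
        exact Nat.card_congr (Equiv.Set.sumCompl _)
      have hpos1 : 0 < Nat.card (MulAction.orbit N ω) := by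
        have : Nonempty (MulAction.orbit N ω) := ⟨⟨ω, MulAction.mem_orbit_self ω⟩⟩
        exact Nat.card_pos
      have hpos2 : 0 < Nat.card ((MulAction.orbit N ω)ᶜ : Set Ω) := by
        have : Nonempty ((MulAction.orbit N ω)ᶜ : Set Ω) := ⟨⟨x₀, hx₀⟩⟩
        exact Nat.card_pos
      have hN1 : Group.IsNilpotent (restr N _ hs).range :=
        Group.nilpotent_of_surjective (restr N _ hs).rangeRestrict
          (restr N _ hs).rangeRestrict_surjective
      have hN2 : Group.IsNilpotent (restr N _ hs').range :=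
        Group.nilpotent_of_surjective (restr N _ hs').rangeRestrict
          (restr N _ hs').rangeRestrict_surjective
      have ih1 := ih (Nat.card (MulAction.orbit N ω)) (by omega) (MulAction.orbit N ω) rfl
        (restr N _ hs).range hN1
      have ih2 := ih (Nat.card ((MulAction.orbit N ω)ᶜ : Set Ω)) (by omega)
        ((MulAction.orbit N ω)ᶜ : Set Ω) rfl (restr N _ hs').range hN2
      calc Nat.card N ≤ Nat.card (restr N _ hs).range * Nat.card (restr N _ hs').range :=
            card_le_split N _ hs hs'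
        _ ≤ NilpNum.h (Nat.card (MulAction.orbit N ω))
            * NilpNum.h (Nat.card ((MulAction.orbit N ω)ᶜ : Set Ω)) := Nat.mul_le_mul ih1 ih2
        _ ≤ NilpNum.h (Nat.card (MulAction.orbit N ω)
            + Nat.card ((MulAction.orbit N ω)ᶜ : Set Ω)) := NilpNum.h_mul_le _ _
        _ = NilpNum.h k := by rw [hsum]

/-- Order of a Sylow 2-subgroup of `Perm (Fin n)`. -/
theorem card_sylow_two (n : ℕ) (P : Sylow 2 (Equiv.Perm (Fin n))) :
    Nat.card P = 2 ^ NilpNum.e n := by
  have _i : Fact (Nat.Prime 2) := ⟨Nat.prime_two⟩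
  rw [P.card_eq_multiplicity, Nat.card_perm, Nat.card_eq_fintype_card, Fintype.card_fin,
    Nat.factorization_def _ Nat.prime_two]
  rfl

end Cfsg.Agent.Lib.Helper38.NilpPerm
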