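import Mathlib
import Cfsg.Agent.Lib.Helper38.NilpPerm
import Cfsg.Agent.Lib.Helper38.NilpNumA

set_option autoImplicit false

namespace Cfsg.Agent.Lib.Helper38.NilpAlt

open Cfsg.Agent.Lib.Helper38

/-- Restriction of a permutation group to an invariant predicate. -/
def restrP {Ω : Type*} (N : Subgroup (Equiv.Perm Ω)) (p : Ω → Prop)
    (hp : ∀ g ∈ N, ∀ x, p (g x) ↔ p x) : N →* Equiv.Perm {x // p x} where
  toFun g := (g : Equiv.Perm Ω).subtypePerm (hp g g.2)
  map_one' := by ext x; rfl
  map_mul' := fun a b => by ext x; rfl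

theorem restrP_apply {Ω : Type*} (N : Subgroup (Equiv.Perm Ω)) (p : Ω → Prop)
    (hp : ∀ g ∈ N, ∀ x, p (g x) ↔ p x) (g : N) (x : {x // p x}) :
    ((restrP N p hp g x : {x // p x}) : Ω) = (g : Equiv.Perm Ω) x := rfl

theorem sign_split {Ω : Type*} [Fintype Ω] [DecidableEq Ω] (p : Ω → Prop) [DecidablePred p]
    (g : Equiv.Perm Ω) (h : ∀ x, p (g x) ↔ p x) (h' : ∀ x, ¬ p (g x) ↔ ¬ p x) :
    Equiv.Perm.sign g
      = Equiv.Perm.sign (g.subtypePerm h)
        * Equiv.Perm.sign (Equiv.Perm.subtypePerm (p := fun x => ¬ p x) g h') := by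
  rw [← Equiv.Perm.sign_subtypeCongr]
  congr 1
  ext x
  by_cases hx : p x
  · rw [Equiv.Perm.subtypeCongr.left_apply _ _ hx]; rfl
  · rw [Equiv.Perm.subtypeCongr.right_apply _ _ hx]; rfl

theorem restrP_joint_inj {Ω : Type*} (N : Subgroup (Equiv.Perm Ω)) (p : Ω → Prop)
    (hp : ∀ g ∈ N, ∀ x, p (g x) ↔ p x) (hp' : ∀ g ∈ N, ∀ x, ¬ p (g x) ↔ ¬ p x) (g g' : N)
    (h1 : restrP N p hp g = restrP N p hp g')
    (h2 : restrP N (fun x => ¬ p x) hp' g = restrP N (fun x => ¬ p x) hp' g') : g = g' := by
  apply Subtype.ext
  ext x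
  by_cases hx : p x
  · have := congrArg (fun σ : Equiv.Perm {x // p x} => ((σ ⟨x, hx⟩ : {x // p x}) : Ω)) h1
    simpa [restrP_apply] using this
  · have := congrArg (fun σ : Equiv.Perm {x // ¬ p x} => ((σ ⟨x, hx⟩ : {x // ¬ p x}) : Ω)) h2
    simpa [restrP_apply] using this

/-- Main theorem for even groups: a nilpotent group of even permutations of degree `k` has
order at most `g k / 2`. -/
theorem card_le_g : ∀ (k : ℕ) (Ω : Type) [Fintype Ω] [DecidableEq Ω], Fintype.card Ω = k →
    ∀ N : Subgroup (Equiv.Perm Ω), Group.IsNilpotent N →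
    (∀ σ ∈ N, Equiv.Perm.sign σ = 1) → 2 * Nat.card N ≤ NilpNumA.g k := by
  intro k
  induction k using Nat.strong_induction_on with
  | _ k ih =>
    intro Ω _ _ hk N hN hev
    classical
    rcases isEmpty_or_nonempty Ω with hΩ | hΩ
    · have : Subsingleton N := inferInstance
      rw [Nat.card_of_subsingleton (1 : N)]
      have hk0 : k = 0 := by rw [← hk]; exact Fintype.card_eq_zero
      rw [hk0, NilpNumA.g0]
    by_cases htr : MulAction.IsPretransitive N Ω
    · have _f : FaithfulSMul N Ω := ⟨fun {g g'} hgg => Subtype.ext (Equiv.ext hgg)⟩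
      have hcard : Nat.card Ω = k := by rw [Nat.card_eq_fintype_card, hk]
      rw [← hcard]
      apply NilpNumA.main_numA (Nat.card Ω) (Nat.card N) Nat.card_pos.ne' Nat.card_pos.ne'
        (fun p hp => NilpPerm.sylow_bound (G := N) (Ω := Ω) p hp)
      intro h2
      have _nt : Nontrivial Ω := by
        rw [← Fintype.one_lt_card_iff_nontrivial, ← Nat.card_eq_fintype_card]; omega
      have hle : N ≤ alternatingGroup Ω :=
        fun σ hσ => Equiv.Perm.mem_alternatingGroup.mpr (hev σ hσ)
      have h3 := Subgroup.card_dvd_of_le hle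
      have h4 := two_mul_nat_card_alternatingGroup (α := Ω)
      rw [Nat.card_perm] at h4
      rw [← h4]
      exact Nat.mul_dvd_mul_left 2 h3
    · obtain ⟨ω⟩ := hΩ
      obtain ⟨p, hp, hpω, x₀, hx₀⟩ : ∃ p : Ω → Prop,
          (∀ g ∈ N, ∀ x, p (g x) ↔ p x) ∧ p ω ∧ ∃ x₀, ¬ p x₀ := by
        refine ⟨fun x => x ∈ MulAction.orbit N ω, ?_, MulAction.mem_orbit_self ω, ?_⟩
        · intro g hg x
          show g x ∈ MulAction.orbit N ω ↔ x ∈ MulAction.orbit N ω
          rw [MulAction.mem_orbit_iff, MulAction.mem_orbit_iff]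
          constructor
          · rintro ⟨n, hn⟩
            refine ⟨(⟨g, hg⟩ : N)⁻¹ * n, ?_⟩
            rw [mul_smul, hn]
            exact inv_smul_smul (⟨g, hg⟩ : N) x
          · rintro ⟨n, hn⟩
            refine ⟨(⟨g, hg⟩ : N) * n, ?_⟩
            rw [mul_smul, hn]
            rfl
        · by_contra hall
          push Not at hall
          apply htr
          refine ⟨fun x y => ?_⟩
          obtain ⟨a, ha⟩ := hall x
          obtain ⟨b, hb⟩ := hall y
          refine ⟨b * a⁻¹, ?_⟩
          rw [← ha, ← hb, mul_smul, inv_smul_smul]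
      have hp' : ∀ g ∈ N, ∀ x, ¬ p (g x) ↔ ¬ p x := fun g hg x => not_congr (hp g hg x)
      have hsum : Fintype.card {x // p x} + Fintype.card {x // ¬ p x} = k := by
        rw [← hk, ← Fintype.card_sum]
        exact Fintype.card_congr (Equiv.sumCompl p)
      have hpos1 : 0 < Fintype.card {x // p x} := Fintype.card_pos_iff.mpr ⟨⟨ω, hpω⟩⟩
      have hpos2 : 0 < Fintype.card {x // ¬ p x} := Fintype.card_pos_iff.mpr ⟨⟨x₀, hx₀⟩⟩
      have hN1 : Group.IsNilpotent (restrP N p hp).range :=
        Group.nilpotent_of_surjective (restrP N p hp).rangeRestrict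
          (restrP N p hp).rangeRestrict_surjective
      have hN2 : Group.IsNilpotent (restrP N (fun x => ¬ p x) hp').range :=
        Group.nilpotent_of_surjective (restrP N (fun x => ¬ p x) hp').rangeRestrict
          (restrP N (fun x => ¬ p x) hp').rangeRestrict_surjective
      have hsgn : ∀ g : N, Equiv.Perm.sign (restrP N p hp g)
          * Equiv.Perm.sign (restrP N (fun x => ¬ p x) hp' g) = 1 := by
        intro g
        have h1 := sign_split p (g : Equiv.Perm Ω) (hp g g.2) (hp' g g.2)
        rw [hev g g.2] at h1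
        exact h1.symm
      by_cases hev1 : ∀ σ ∈ (restrP N p hp).range, Equiv.Perm.sign σ = 1
      · have hev2 : ∀ σ ∈ (restrP N (fun x => ¬ p x) hp').range, Equiv.Perm.sign σ = 1 := by
          rintro σ ⟨g, rfl⟩
          have h1 := hsgn g
          rw [hev1 _ ⟨g, rfl⟩, one_mul] at h1
          exact h1
        have ih1 := ih _ (by omega) {x // p x} rfl (restrP N p hp).range hN1 hev1
        have ih2 := ih _ (by omega) {x // ¬ p x} rfl
          (restrP N (fun x => ¬ p x) hp').range hN2 hev2
        have hle : Nat.card N ≤ Nat.card (restrP N p hp).range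
            * Nat.card (restrP N (fun x => ¬ p x) hp').range := by
          rw [← Nat.card_prod]
          apply Nat.card_le_card_of_injective (fun g : N =>
            ((restrP N p hp).rangeRestrict g, (restrP N (fun x => ¬ p x) hp').rangeRestrict g))
          intro g g' hgg
          obtain ⟨a1, a2⟩ := Prod.mk.inj hgg
          exact restrP_joint_inj N p hp hp' g g' (congrArg Subtype.val a1)
            (congrArg Subtype.val a2)
        have hg := NilpNumA.g_mul_le hpos1 hpos2
        rw [hsum] at hg
        have hmul := Nat.mul_le_mul ih1 ih2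
        nlinarith
      · push Not at hev1
        obtain ⟨σ₀, hσ₀, hσ₀s⟩ := hev1
        have key : ∀ g g' : N, restrP N (fun x => ¬ p x) hp' g
            = restrP N (fun x => ¬ p x) hp' g' →
            Equiv.Perm.sign (restrP N p hp g) = Equiv.Perm.sign (restrP N p hp g') := by
          intro g g' e2
          have s1 := hsgn g
          have s2 := hsgn g'
          rw [e2] at s1
          exact mul_right_cancel (s1.trans s2.symm)
        have hinj : 2 * Nat.card N ≤ Nat.card (restrP N p hp).range
            * Nat.card (restrP N (fun x => ¬ p x) hp').range := by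
          have h2 : 2 * Nat.card N = Nat.card (N ⊕ N) := by
            rw [Nat.card_sum, two_mul]
          rw [h2, ← Nat.card_prod]
          apply Nat.card_le_card_of_injective (Sum.elim
            (fun g : N => ((restrP N p hp).rangeRestrict g,
              (restrP N (fun x => ¬ p x) hp').rangeRestrict g))
            (fun g : N => ((restrP N p hp).rangeRestrict g * ⟨σ₀, hσ₀⟩,
              (restrP N (fun x => ¬ p x) hp').rangeRestrict g)))
          rintro (g | g) (g' | g') hgg
          · simp only [Sum.elim_inl] at hgg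
            obtain ⟨a1, a2⟩ := Prod.mk.inj hgg
            rw [restrP_joint_inj N p hp hp' g g' (congrArg Subtype.val a1)
              (congrArg Subtype.val a2)]
          · exfalso
            simp only [Sum.elim_inl, Sum.elim_inr] at hgg
            obtain ⟨a1, a2⟩ := Prod.mk.inj hgg
            have b1 : restrP N p hp g = restrP N p hp g' * σ₀ := congrArg Subtype.val a1
            have b2 := key g g' (congrArg Subtype.val a2)
            have b3 := congrArg Equiv.Perm.sign b1
            rw [map_mul, b2] at b3
            exact hσ₀s (mul_left_cancel (b3.symm.trans (mul_one _).symm))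
          · exfalso
            simp only [Sum.elim_inl, Sum.elim_inr] at hgg
            obtain ⟨a1, a2⟩ := Prod.mk.inj hgg
            have b1 : restrP N p hp g * σ₀ = restrP N p hp g' := congrArg Subtype.val a1
            have b2 := key g g' (congrArg Subtype.val a2)
            have b3 := congrArg Equiv.Perm.sign b1
            rw [map_mul, b2] at b3
            exact hσ₀s (mul_left_cancel (b3.trans (mul_one _).symm))
          · simp only [Sum.elim_inr] at hgg
            obtain ⟨a1, a2⟩ := Prod.mk.inj hgg
            have a1' := mul_right_cancel a1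
            rw [restrP_joint_inj N p hp hp' g g' (congrArg Subtype.val a1')
              (congrArg Subtype.val a2)]
        have c1 := NilpPerm.card_le_h (Fintype.card {x // p x}) {x // p x}
          Nat.card_eq_fintype_card (restrP N p hp).range hN1
        have c2 := NilpPerm.card_le_h (Fintype.card {x // ¬ p x}) {x // ¬ p x}
          Nat.card_eq_fintype_card (restrP N (fun x => ¬ p x) hp').range hN2
        calc 2 * Nat.card N ≤ Nat.card (restrP N p hp).range
              * Nat.card (restrP N (fun x => ¬ p x) hp').range := hinj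
          _ ≤ NilpNum.h (Fintype.card {x // p x}) * NilpNum.h (Fintype.card {x // ¬ p x}) :=
            Nat.mul_le_mul c1 c2
          _ ≤ NilpNum.h (Fintype.card {x // p x} + Fintype.card {x // ¬ p x}) :=
            NilpNum.h_mul_le _ _
          _ = NilpNum.h k := by rw [hsum]
          _ ≤ NilpNumA.g k := NilpNumA.h_le_g k

/-- Twice the order of a Sylow 2-subgroup of `Alt (Fin n)`, `n ≥ 2`. -/
theorem two_mul_card_sylow_alt (n : ℕ) (h2 : 2 ≤ n) (P : Sylow 2 (alternatingGroup (Fin n))) :
    2 * Nat.card P = 2 ^ NilpNum.e n := by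
  have _i : Fact (Nat.Prime 2) := ⟨Nat.prime_two⟩
  have _nt : Nontrivial (Fin n) := Fin.nontrivial_iff_two_le.mpr h2
  have h4 := two_mul_nat_card_alternatingGroup (α := Fin n)
  rw [Nat.card_perm, Nat.card_eq_fintype_card (α := Fin n), Fintype.card_fin] at h4
  have hA0 : Nat.card (alternatingGroup (Fin n)) ≠ 0 := Nat.card_pos.ne'
  have h5 : (n.factorial).factorization 2
      = 1 + (Nat.card (alternatingGroup (Fin n))).factorization 2 := by
    rw [← h4, Nat.factorization_mul two_ne_zero hA0]
    simp [Nat.prime_two.factorization_self]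
  rw [P.card_eq_multiplicity, ← pow_succ']
  congr 1
  unfold NilpNum.e
  rw [← Nat.factorization_def _ Nat.prime_two, h5]
  omega

/-- The image in `Perm Ω` of a subgroup of the alternating group. -/
theorem two_mul_card_le_g {n : ℕ} (N : Subgroup (alternatingGroup (Fin n)))
    (hN : Group.IsNilpotent N) : 2 * Nat.card N ≤ NilpNumA.g n := by
  have hinj : Function.Injective (alternatingGroup (Fin n)).subtype :=
    Subgroup.subtype_injective _
  have hnil : Group.IsNilpotent (N.map (alternatingGroup (Fin n)).subtype) :=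
    Group.nilpotent_of_surjective ((alternatingGroup (Fin n)).subtype.subgroupMap N)
      (MonoidHom.subgroupMap_surjective _ _)
  have key := card_le_g n (Fin n) (Fintype.card_fin n)
    (N.map (alternatingGroup (Fin n)).subtype) hnil (by
      rintro σ ⟨a, _, rfl⟩
      exact Equiv.Perm.mem_alternatingGroup.mp a.2)
  rw [Subgroup.card_map_of_injective hinj] at key
  exact key

end Cfsg.Agent.Lib.Helper38.NilpAlt
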