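import Mathlib
import Cfsg.Agent.Lib.Helper38.NilpPerm
import Cfsg.Agent.Lib.Helper38.NilpAlt

set_option autoImplicit false

namespace Cfsg.Agent.Lib.Helper38.NilpExt

open Cfsg.Agent.Lib.Helper38

/-- `e` is monotone. -/
theorem e_mono {a b : ℕ} (hab : a ≤ b) : NilpNum.e a ≤ NilpNum.e b := by
  obtain ⟨d, rfl⟩ := Nat.exists_eq_add_of_le hab
  have := NilpNum.e_add_le a d
  omega

/-- If `z` (of order dividing 3) and the 2-element `t` commute and agree at `x`, then both
fix `x`. -/
theorem fix_of_coprime {Ω : Type*} (z t : Equiv.Perm Ω) (hz : z ^ 3 = 1) (m : ℕ)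
    (ht : t ^ 2 ^ m = 1) (hzt : t * z = z * t) (x : Ω) (hx : z x = t x) : z x = x := by
  have hpow : ∀ i : ℕ, (z ^ i) x = (t ^ i) x := by
    intro i
    induction i with
    | zero => simp
    | succ i ih =>
      have hc : (t ^ i) * z = z * (t ^ i) := (Commute.pow_left (show Commute t z from hzt) i).eq
      calc (z ^ (i + 1)) x = z ((z ^ i) x) := by rw [pow_succ']; rfl
        _ = z ((t ^ i) x) := by rw [ih]
        _ = (t ^ i) (z x) := by
            have := congrArg (fun σ : Equiv.Perm Ω => σ x) hc
            exact this.symm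
        _ = (t ^ i) (t x) := by rw [hx]
        _ = (t ^ (i + 1)) x := by rw [pow_succ]; rfl
  have h3 : (t ^ 3) x = x := by rw [← hpow 3, hz]; rfl
  have hord : orderOf t ∣ 2 ^ m := orderOf_dvd_of_pow_eq_one ht
  have hcop : Nat.Coprime 3 (orderOf t) :=
    Nat.Coprime.coprime_dvd_right hord (Nat.Coprime.pow_right m (by norm_num))
  obtain ⟨j, hj⟩ := exists_pow_eq_self_of_coprime hcop
  have htx : t x = x := by
    conv_lhs => rw [← hj]
    exact Equiv.Perm.pow_apply_eq_self_of_apply_eq_self h3 j
  rw [hx, htx]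

/-- A 2-group acting faithfully on a finite set `X` has order at most `2 ^ e |X|`. -/
theorem card_two_group_le {T X : Type*} [Group T] [Finite X] (hT : IsPGroup 2 T)
    (φ : T →* Equiv.Perm X) (hφ : Function.Injective φ) :
    Nat.card T ≤ 2 ^ NilpNum.e (Nat.card X) := by
  have _i : Fact (Nat.Prime 2) := ⟨Nat.prime_two⟩
  have _f : Finite T := Finite.of_injective φ hφ
  obtain ⟨c, hc⟩ := IsPGroup.iff_card.mp hT
  have hd := Subgroup.card_dvd_of_injective φ hφ
  rw [Nat.card_perm, hc] at hd
  rw [hc]
  exact Nat.pow_le_pow_right (by norm_num)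
    ((padicValNat_dvd_iff_le (Nat.factorial_ne_zero _)).mp hd)

theorem fix_mod {Ω : Type*} [Finite Ω] (z : Equiv.Perm Ω) (hz : z ^ 3 = 1) :
    Nat.card Ω % 3 = Nat.card {x // z x = x} % 3 := by
  classical
  have _ft : Fintype Ω := Fintype.ofFinite Ω
  have _i : Fact (Nat.Prime 3) := ⟨Nat.prime_three⟩
  obtain ⟨f, hf⟩ : ∃ f : Function.End Ω, f = ⇑z := ⟨_, rfl⟩
  have h3 : f ^ 3 ^ 1 = 1 := by
    rw [pow_one, pow_succ, pow_succ, pow_one]
    subst hf
    funext x
    have := congrArg (fun σ : Equiv.Perm Ω => σ x) hz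
    rw [pow_succ, pow_succ, pow_one] at this
    exact this
  have h := Equiv.Perm.card_fixedPoints_modEq h3
  subst hf
  rw [← Nat.card_eq_fintype_card, ← Nat.card_eq_fintype_card] at h
  exact h

/-- splitting the fixed-point count along a predicate -/
theorem card_fix_split {Ω : Type*} [Finite Ω] (A : Ω → Prop) (z : Equiv.Perm Ω)
    (hA : ∀ x, A (z x) ↔ A x) (hA' : ∀ x, ¬ A (z x) ↔ ¬ A x) :
    Nat.card {x // z x = x}
      = Nat.card {y : {x // A x} // z.subtypePerm hA y = y}
        + Nat.card {y : {x // ¬ A x} //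
            Equiv.Perm.subtypePerm (p := fun x => ¬ A x) z hA' y = y} := by
  classical
  have _ft : Fintype Ω := Fintype.ofFinite Ω
  have e1 : {y : {x // A x} // z.subtypePerm hA y = y} ≃ {x // A x ∧ z x = x} :=
    (Equiv.subtypeEquivRight (fun y => by
      rw [Subtype.ext_iff]; rfl)).trans
      (Equiv.subtypeSubtypeEquivSubtypeInter A (fun x => z x = x))
  have e2 : {y : {x // ¬ A x} // Equiv.Perm.subtypePerm (p := fun x => ¬ A x) z hA' y = y}
      ≃ {x // ¬ A x ∧ z x = x} :=
    (Equiv.subtypeEquivRight (fun y => by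
      rw [Subtype.ext_iff]; rfl)).trans
      (Equiv.subtypeSubtypeEquivSubtypeInter (fun x => ¬ A x) (fun x => z x = x))
  rw [Nat.card_congr e1, Nat.card_congr e2, Nat.card_eq_fintype_card, Nat.card_eq_fintype_card,
    Nat.card_eq_fintype_card, Fintype.card_subtype, Fintype.card_subtype, Fintype.card_subtype,
    ← Finset.card_filter_add_card_filter_not (fun x => A x),
    Finset.filter_filter, Finset.filter_filter]
  congr 2
  · ext x; simp [and_comm]
  · ext x; simp [and_comm]

/-- A 2-group `T` of permutations centralizing `z` with `z ^ 3 = 1`: its order is at most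
`2 ^ e ((k + 2 f) / 3)` where `f` is the number of fixed points of `z`. -/
theorem card_centralizing_le : ∀ (k : ℕ) (Ω : Type) [Finite Ω], Nat.card Ω = k →
    ∀ (T : Subgroup (Equiv.Perm Ω)) (z : Equiv.Perm Ω), IsPGroup 2 T → z ^ 3 = 1 →
    (∀ t ∈ T, t * z = z * t) →
    Nat.card T ≤ 2 ^ NilpNum.e ((k + 2 * Nat.card {x // z x = x}) / 3) := by
  intro k
  induction k using Nat.strong_induction_on with
  | _ k ih =>
    intro Ω _ hk T z hT hz hcomm
    classical
    rcases isEmpty_or_nonempty Ω with hΩ | ⟨⟨x₀⟩⟩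
    · have : Subsingleton T := inferInstance
      rw [Nat.card_of_subsingleton (1 : T)]
      exact Nat.one_le_two_pow
    -- commutation facts
    have hcz : ∀ t ∈ T, ∀ (i : ℕ) (y : Ω), t ((z ^ i) y) = (z ^ i) (t y) := by
      intro t ht i y
      have hc : t * z ^ i = z ^ i * t :=
        (Commute.pow_right (show Commute t z from hcomm t ht) i).eq
      exact congrArg (fun σ : Equiv.Perm Ω => σ y) hc
    have hzinv : z⁻¹ = z ^ 2 := by
      apply inv_eq_of_mul_eq_one_right
      rw [← pow_succ', hz]
    obtain ⟨A, hAdef⟩ : ∃ A : Ω → Prop, A = fun y => ∃ t ∈ T, ∃ i : ℕ, y = (z ^ i) (t x₀) :=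
      ⟨_, rfl⟩
    have hAiff : ∀ y, A y ↔ ∃ t ∈ T, ∃ i : ℕ, y = (z ^ i) (t x₀) := by
      intro y; rw [hAdef]
    have hAT : ∀ t ∈ T, ∀ y, A (t y) ↔ A y := by
      intro t ht y
      rw [hAiff, hAiff]
      constructor
      · rintro ⟨t', ht', i, h⟩
        refine ⟨t⁻¹ * t', T.mul_mem (T.inv_mem ht) ht', i, ?_⟩
        have h1 : y = t⁻¹ ((z ^ i) (t' x₀)) := by rw [← h]; simp
        rw [h1, hcz t⁻¹ (T.inv_mem ht) i]
        rfl
      · rintro ⟨t', ht', i, h⟩
        refine ⟨t * t', T.mul_mem ht ht', i, ?_⟩
        rw [h, hcz t ht i]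
        rfl
    have hAz : ∀ y, A (z y) ↔ A y := by
      intro y
      rw [hAiff, hAiff]
      constructor
      · rintro ⟨t', ht', i, h⟩
        refine ⟨t', ht', i + 2, ?_⟩
        have h1 : y = z⁻¹ ((z ^ i) (t' x₀)) := by rw [← h]; simp
        rw [h1, hzinv, add_comm i 2, pow_add]
        rfl
      · rintro ⟨t', ht', i, h⟩
        refine ⟨t', ht', i + 1, ?_⟩
        rw [h, pow_succ']
        rfl
    by_cases hall : ∀ y, A y
    · by_cases hfix : z x₀ = x₀
      · -- z fixes every point
        have hzall : ∀ y, z y = y := by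
          intro y
          obtain ⟨t, ht, i, rfl⟩ := (hAiff y).mp (hall y)
          have h1 : z ((z ^ i) (t x₀)) = (z ^ i) (z (t x₀)) := by
            have : z * z ^ i = z ^ i * z := (Commute.pow_right (Commute.refl z) i).eq
            exact congrArg (fun σ : Equiv.Perm Ω => σ (t x₀)) this
          have h2 : z (t x₀) = t (z x₀) := by
            have := congrArg (fun σ : Equiv.Perm Ω => σ x₀) (hcomm t ht)
            exact this.symm
          rw [h1, h2, hfix]
        have hf : Nat.card {x // z x = x} = k := by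
          rw [← hk]; exact Nat.card_congr (Equiv.subtypeUnivEquiv hzall)
        have hk3 : (k + 2 * Nat.card {x // z x = x}) / 3 = k := by rw [hf]; omega
        rw [hk3, ← hk]
        exact card_two_group_le hT T.subtype (Subgroup.subtype_injective T)
      · -- z has no fixed points
        have hnofix : ∀ y, z y ≠ y := by
          intro y hy
          obtain ⟨t, ht, i, rfl⟩ := (hAiff y).mp (hall y)
          have h1 : z ((z ^ i) (t x₀)) = (z ^ i) (z (t x₀)) := by
            have : z * z ^ i = z ^ i * z := (Commute.pow_right (Commute.refl z) i).eq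
            exact congrArg (fun σ : Equiv.Perm Ω => σ (t x₀)) this
          have h2 : z (t x₀) = t (z x₀) := by
            have := congrArg (fun σ : Equiv.Perm Ω => σ x₀) (hcomm t ht)
            exact this.symm
          rw [h1, h2] at hy
          exact hfix (t.injective ((z ^ i).injective hy))
        have hf : Nat.card {x // z x = x} = 0 := by
          have : IsEmpty {x // z x = x} := ⟨fun y => hnofix y.1 y.2⟩
          exact Nat.card_of_isEmpty
        obtain ⟨R, hRdef⟩ : ∃ R : Set Ω, R = {y | ∃ t ∈ T, y = t x₀} := ⟨_, rfl⟩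
        have hRiff : ∀ y, y ∈ R ↔ ∃ t ∈ T, y = t x₀ := by
          intro y; rw [hRdef]; rfl
        have hR : ∀ g ∈ T, ∀ y, g y ∈ R ↔ y ∈ R := by
          intro g hg y
          rw [hRiff, hRiff]
          constructor
          · rintro ⟨t', ht', h⟩
            refine ⟨g⁻¹ * t', T.mul_mem (T.inv_mem hg) ht', ?_⟩
            have h1 : y = g⁻¹ (t' x₀) := by rw [← h]; simp
            rw [h1]; rfl
          · rintro ⟨t', ht', h⟩
            exact ⟨g * t', T.mul_mem hg ht', by rw [h]; rfl⟩
        -- T acts faithfully on R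
        have hinj : Function.Injective (NilpPerm.restr T R hR) := by
          rw [injective_iff_map_eq_one]
          intro g hg1
          apply Subtype.ext
          ext y
          obtain ⟨t, ht, i, rfl⟩ := (hAiff y).mp (hall y)
          have h1 : (g : Equiv.Perm Ω) (t x₀) = t x₀ := by
            have := congrArg (fun σ : Equiv.Perm R =>
              ((σ ⟨t x₀, (hRiff _).mpr ⟨t, ht, rfl⟩⟩ : R) : Ω)) hg1
            simpa [NilpPerm.restr_apply] using this
          show (g : Equiv.Perm Ω) ((z ^ i) (t x₀)) = (z ^ i) (t x₀)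
          rw [hcz g g.2 i, h1]
        have hcard1 := card_two_group_le hT (NilpPerm.restr T R hR) hinj
        -- semiregularity
        have hsemi : ∀ (m : ℕ) (r r' : Ω), r ∈ R → r' ∈ R → (z ^ m) r = r' → 3 ∣ m := by
          intro m r r' hr hr' hm
          obtain ⟨t, ht, rfl⟩ := (hRiff r).mp hr
          obtain ⟨t', ht', rfl⟩ := (hRiff r').mp hr'
          have hmem : t' * t⁻¹ ∈ T := T.mul_mem ht' (T.inv_mem ht)
          obtain ⟨j, hj⟩ := hT ⟨t' * t⁻¹, hmem⟩
          have hj' : (t' * t⁻¹) ^ 2 ^ j = 1 := by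
            have := congrArg Subtype.val hj
            simpa using this
          have hz3 : (z ^ m) ^ 3 = 1 := by rw [← pow_mul, mul_comm, pow_mul, hz, one_pow]
          have hc : (t' * t⁻¹) * z ^ m = z ^ m * (t' * t⁻¹) :=
            (Commute.pow_right (show Commute (t' * t⁻¹) z from hcomm _ hmem) m).eq
          have hfixm := fix_of_coprime (z ^ m) (t' * t⁻¹) hz3 j hj' hc (t x₀) (by
            rw [hm]; simp)
          by_contra h3
          rw [pow_eq_pow_mod m hz] at hfixm
          have hm3 : m % 3 = 1 ∨ m % 3 = 2 := by omega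
          rcases hm3 with h1 | h2
          · rw [h1, pow_one] at hfixm
            exact hnofix _ hfixm
          · rw [h2] at hfixm
            apply hnofix (t x₀)
            have h4 : z ((z ^ 2) (t x₀)) = z (t x₀) := by rw [hfixm]
            have h5 : z ((z ^ 2) (t x₀)) = (z ^ 3) (t x₀) := by rw [pow_succ' z 2]; rfl
            rw [h5, hz] at h4
            exact h4.symm
        have hcard2 : Nat.card R * 3 ≤ k := by
          rw [← hk]
          have h3 : Nat.card R * 3 = Nat.card (R × Fin 3) := by
            rw [Nat.card_prod, Nat.card_eq_fintype_card (α := Fin 3), Fintype.card_fin]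
          rw [h3]
          apply Nat.card_le_card_of_injective (fun q : R × Fin 3 => (z ^ (q.2 : ℕ)) (q.1 : Ω))
          rintro ⟨⟨r, hr⟩, i⟩ ⟨⟨r', hr'⟩, j⟩ hq
          have hq' : (z ^ (i : ℕ)) r = (z ^ (j : ℕ)) r' := hq
          have h4 : (z ^ (2 * (j : ℕ) + (i : ℕ))) r = r' := by
            rw [pow_add]
            show (z ^ (2 * (j : ℕ))) ((z ^ (i : ℕ)) r) = r'
            rw [hq']
            show (z ^ (2 * (j : ℕ)) * z ^ (j : ℕ)) r' = r'
            rw [← pow_add]
            have : 2 * (j : ℕ) + (j : ℕ) = 3 * (j : ℕ) := by ring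
            rw [this, pow_mul, hz, one_pow]
            rfl
          have h5 := hsemi _ r r' hr hr' h4
          have hij : i = j := by
            apply Fin.ext
            have := i.2
            have := j.2
            omega
          subst hij
          have h6 : r = r' := (z ^ (i : ℕ)).injective hq'
          subst h6
          rfl
        have hRle : Nat.card R ≤ (k + 2 * Nat.card {x // z x = x}) / 3 := by
          rw [hf]; omega
        exact le_trans hcard1 (Nat.pow_le_pow_right (by norm_num) (e_mono hRle))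
    · push Not at hall
      obtain ⟨y₀, hy₀⟩ := hall
      have hA0 : A x₀ := (hAiff x₀).mpr ⟨1, T.one_mem, 0, rfl⟩
      have hAT' : ∀ t ∈ T, ∀ y, ¬ A (t y) ↔ ¬ A y := fun t ht y => not_congr (hAT t ht y)
      have hAz' : ∀ y, ¬ A (z y) ↔ ¬ A y := fun y => not_congr (hAz y)
      have hsum : Nat.card {x // A x} + Nat.card {x // ¬ A x} = k := by
        rw [← hk, ← Nat.card_sum]
        exact Nat.card_congr (Equiv.sumCompl A)
      have hpos1 : 0 < Nat.card {x // A x} := by
        have : Nonempty {x // A x} := ⟨⟨x₀, hA0⟩⟩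
        exact Nat.card_pos
      have hpos2 : 0 < Nat.card {x // ¬ A x} := by
        have : Nonempty {x // ¬ A x} := ⟨⟨y₀, hy₀⟩⟩
        exact Nat.card_pos
      have hT1 : IsPGroup 2 (NilpAlt.restrP T A hAT).range :=
        hT.of_surjective (NilpAlt.restrP T A hAT).rangeRestrict
          (NilpAlt.restrP T A hAT).rangeRestrict_surjective
      have hT2 : IsPGroup 2 (NilpAlt.restrP T (fun x => ¬ A x) hAT').range :=
        hT.of_surjective (NilpAlt.restrP T (fun x => ¬ A x) hAT').rangeRestrict
          (NilpAlt.restrP T (fun x => ¬ A x) hAT').rangeRestrict_surjective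
      have hz1 : (z.subtypePerm hAz) ^ 3 = 1 := by
        rw [Equiv.Perm.subtypePerm_pow]
        ext x
        simp [hz]
      have hz2 : (Equiv.Perm.subtypePerm (p := fun x => ¬ A x) z hAz') ^ 3 = 1 := by
        rw [Equiv.Perm.subtypePerm_pow]
        ext x
        simp [hz]
      have hc1 : ∀ t ∈ (NilpAlt.restrP T A hAT).range,
          t * z.subtypePerm hAz = z.subtypePerm hAz * t := by
        rintro _ ⟨g, rfl⟩
        ext x
        have := congrArg (fun σ : Equiv.Perm Ω => σ (x : Ω)) (hcomm g g.2)
        exact this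
      have hc2 : ∀ t ∈ (NilpAlt.restrP T (fun x => ¬ A x) hAT').range,
          t * Equiv.Perm.subtypePerm (p := fun x => ¬ A x) z hAz'
            = Equiv.Perm.subtypePerm (p := fun x => ¬ A x) z hAz' * t := by
        rintro _ ⟨g, rfl⟩
        ext x
        have := congrArg (fun σ : Equiv.Perm Ω => σ (x : Ω)) (hcomm g g.2)
        exact this
      have ih1 := ih _ (by omega) {x // A x} rfl _ _ hT1 hz1 hc1
      have ih2 := ih _ (by omega) {x // ¬ A x} rfl _ _ hT2 hz2 hc2
      have hle : Nat.card T ≤ Nat.card (NilpAlt.restrP T A hAT).range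
          * Nat.card (NilpAlt.restrP T (fun x => ¬ A x) hAT').range := by
        rw [← Nat.card_prod]
        apply Nat.card_le_card_of_injective (fun g : T =>
          ((NilpAlt.restrP T A hAT).rangeRestrict g,
            (NilpAlt.restrP T (fun x => ¬ A x) hAT').rangeRestrict g))
        intro g g' hgg
        obtain ⟨a1, a2⟩ := Prod.mk.inj hgg
        exact NilpAlt.restrP_joint_inj T A hAT hAT' g g' (congrArg Subtype.val a1)
          (congrArg Subtype.val a2)
      have hm1 := fix_mod (z.subtypePerm hAz) hz1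
      have hm2 := fix_mod (Equiv.Perm.subtypePerm (p := fun x => ¬ A x) z hAz') hz2
      have hfs := card_fix_split A z hAz hAz'
      have hexp : (Nat.card {x // A x}
            + 2 * Nat.card {y : {x // A x} // z.subtypePerm hAz y = y}) / 3
          + (Nat.card {x // ¬ A x} + 2 * Nat.card {y : {x // ¬ A x} //
            Equiv.Perm.subtypePerm (p := fun x => ¬ A x) z hAz' y = y}) / 3
          = (k + 2 * Nat.card {x // z x = x}) / 3 := by
        rw [hfs, ← hsum]
        omega
      calc Nat.card T ≤ Nat.card (NilpAlt.restrP T A hAT).range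
            * Nat.card (NilpAlt.restrP T (fun x => ¬ A x) hAT').range := hle
        _ ≤ 2 ^ NilpNum.e ((Nat.card {x // A x}
              + 2 * Nat.card {y : {x // A x} // z.subtypePerm hAz y = y}) / 3)
            * 2 ^ NilpNum.e ((Nat.card {x // ¬ A x} + 2 * Nat.card {y : {x // ¬ A x} //
              Equiv.Perm.subtypePerm (p := fun x => ¬ A x) z hAz' y = y}) / 3) :=
          Nat.mul_le_mul ih1 ih2
        _ = 2 ^ (NilpNum.e ((Nat.card {x // A x}
              + 2 * Nat.card {y : {x // A x} // z.subtypePerm hAz y = y}) / 3)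
            + NilpNum.e ((Nat.card {x // ¬ A x} + 2 * Nat.card {y : {x // ¬ A x} //
              Equiv.Perm.subtypePerm (p := fun x => ¬ A x) z hAz' y = y}) / 3)) := by
          rw [pow_add]
        _ ≤ 2 ^ NilpNum.e ((k + 2 * Nat.card {x // z x = x}) / 3) := by
          apply Nat.pow_le_pow_right (by norm_num)
          rw [← hexp]
          exact NilpNum.e_add_le _ _

end Cfsg.Agent.Lib.Helper38.NilpExt
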