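import Mathlib
import Cfsg.Agent.Lib.Helper38.NilpExt

set_option autoImplicit false

namespace Cfsg.Agent.Lib.Helper38.NilpConj

open Cfsg.Agent.Lib.Helper38

theorem e_gap {n : ℕ} (hn : n % 4 = 3) (h7 : 7 ≤ n) :
    NilpNum.e (n - 4) + 2 ≤ NilpNum.e (n - 3) := by
  obtain ⟨j, rfl⟩ : ∃ j, n = 4 * (j + 1) + 3 := ⟨n / 4 - 1, by omega⟩
  have h1 : 4 * (j + 1) + 3 - 3 = 2 * (2 * (j + 1)) := by omega
  have h2 : 4 * (j + 1) + 3 - 4 = 2 * (2 * j + 1) + 1 := by omega
  rw [h1, h2, NilpNum.e_two_mul, NilpNum.e_two_mul, NilpNum.e_two_mul_add_one,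
    NilpNum.e_two_mul_add_one]
  have := NilpNum.e_add_le j 1
  rw [NilpNum.e_one] at this
  omega

theorem card_fix_add_support {n : ℕ} (z : Equiv.Perm (Fin n)) :
    Nat.card {x // z x = x} + z.support.card = n := by
  have h1 : Nat.card {x // z x = x} + Nat.card {x // ¬ z x = x} = n := by
    rw [← Nat.card_sum, Nat.card_congr (Equiv.sumCompl (fun x => z x = x)),
      Nat.card_eq_fintype_card, Fintype.card_fin]
  have h2 : Nat.card {x // ¬ z x = x} = z.support.card := by
    rw [Nat.card_eq_fintype_card, Fintype.card_subtype]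
    congr 1
  omega

/-- Canonical form of an extremal nilpotent subgroup. -/
theorem canonical_form (n E : ℕ) (N : Subgroup (Equiv.Perm (Fin n)))
    (hN : Group.IsNilpotent N) (hcard : Nat.card N = 3 * 2 ^ E)
    (hE : ∀ r, r + 4 ≤ n → NilpNum.e r < E) :
    ∃ (T : Subgroup (Equiv.Perm (Fin n))) (z : Equiv.Perm (Fin n)), z.IsThreeCycle ∧
      (∀ t ∈ T, ∀ x, z x ≠ x → t x = x) ∧ Nat.card T = 2 ^ E ∧
      N = T ⊔ Subgroup.zpowers z := by
  have _i2 : Fact (Nat.Prime 2) := ⟨Nat.prime_two⟩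
  have _i3 : Fact (Nat.Prime 3) := ⟨Nat.prime_three⟩
  obtain ⟨z', hz'⟩ := exists_prime_orderOf_dvd_card' (G := N) 3
    (by rw [hcard]; exact Dvd.intro _ rfl)
  obtain ⟨P⟩ : Nonempty (Sylow 2 N) := inferInstance
  have hfac : (3 * 2 ^ E).factorization 2 = E := by
    rw [Nat.factorization_mul (by norm_num) (by positivity), Nat.factorization_pow]
    simp [Nat.factorization_eq_zero_of_not_dvd (show ¬ 2 ∣ 3 by norm_num),
      Nat.prime_two.factorization_self]
  have hPcard : Nat.card P = 2 ^ E := by rw [P.card_eq_multiplicity, hcard, hfac]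
  obtain ⟨T, hTdef⟩ : ∃ T, T = (P : Subgroup N).map N.subtype := ⟨_, rfl⟩
  obtain ⟨z, hzdef⟩ : ∃ z : Equiv.Perm (Fin n), z = (z' : Equiv.Perm (Fin n)) := ⟨_, rfl⟩
  have hTcard : Nat.card T = 2 ^ E := by
    rw [hTdef, Subgroup.card_map_of_injective (Subgroup.subtype_injective N)]; exact hPcard
  have hTp : IsPGroup 2 T := IsPGroup.of_card hTcard
  have hzord : orderOf z = 3 := by rw [hzdef, Subgroup.orderOf_coe]; exact hz'
  have hz3 : z ^ 3 = 1 := by rw [← hzord]; exact pow_orderOf_eq_one z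
  have hcomm : ∀ t ∈ T, t * z = z * t := by
    intro t ht
    rw [hTdef] at ht
    obtain ⟨t', ht', rfl⟩ := ht
    have ho : orderOf t' ∣ 2 ^ E := by
      have h1 : orderOf (⟨t', ht'⟩ : (P : Subgroup N)) ∣ Nat.card (P : Subgroup N) :=
        orderOf_dvd_natCard _
      rw [Subgroup.orderOf_mk] at h1
      rw [← hPcard]; exact h1
    have hc : Nat.Coprime (orderOf t') (orderOf z') := by
      rw [hz']
      exact Nat.Coprime.coprime_dvd_left ho (Nat.Coprime.pow_left E (by norm_num))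
    have := Helper65.NilCoprime.commute_of_coprime N t' z' (isOfFinOrder_of_finite _)
      (isOfFinOrder_of_finite _) hc
    rw [hzdef]
    exact congrArg Subtype.val this
  have hcl := NilpExt.card_centralizing_le n (Fin n)
    (by rw [Nat.card_eq_fintype_card, Fintype.card_fin]) T z hTp hz3 hcomm
  rw [hTcard] at hcl
  have hEle : E ≤ NilpNum.e ((n + 2 * Nat.card {x // z x = x}) / 3) :=
    (Nat.pow_le_pow_iff_right (by norm_num)).mp hcl
  have hmod := NilpExt.fix_mod z hz3
  rw [Nat.card_eq_fintype_card (α := Fin n), Fintype.card_fin] at hmod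
  have hz1 : z ≠ 1 := by
    intro h1; rw [h1, orderOf_one] at hzord; omega
  obtain ⟨x₁, hx₁⟩ : ∃ x, z x ≠ x := by
    by_contra hall
    push Not at hall
    exact hz1 (Equiv.ext hall)
  have hlt : Nat.card {x // z x = x} < n := by
    have := Finite.card_subtype_lt (p := fun x => z x = x) hx₁
    rwa [Nat.card_eq_fintype_card (α := Fin n), Fintype.card_fin] at this
  have hsuppc := card_fix_add_support z
  obtain ⟨f, hf⟩ : ∃ f, f = Nat.card {x // z x = x} := ⟨_, rfl⟩
  rw [← hf] at hEle hmod hlt hsuppc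
  have hfn : f + 3 = n := by
    by_contra hne
    have h6 : f + 6 ≤ n := by omega
    have := hE ((n + 2 * f) / 3) (by omega)
    omega
  have hsupp : z.support.card = 3 := by omega
  have h3c : z.IsThreeCycle := card_support_eq_three_iff.mp hsupp
  refine ⟨T, z, h3c, ?_, hTcard, ?_⟩
  · intro t ht x hx
    have hmoved : z (t x) ≠ t x := by
      intro h
      apply hx
      have h1 : z (t x) = t (z x) := by
        have := congrArg (fun σ : Equiv.Perm (Fin n) => σ x) (hcomm t ht)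
        exact this.symm
      rw [h1] at h
      exact t.injective h
    obtain ⟨i, hi⟩ := h3c.isCycle.exists_pow_eq hx hmoved
    obtain ⟨j, hj⟩ := hTp ⟨t, ht⟩
    have hj' : t ^ 2 ^ j = 1 := by
      have := congrArg Subtype.val hj
      simpa using this
    have hzi3 : (z ^ i) ^ 3 = 1 := by rw [← pow_mul, mul_comm, pow_mul, hz3, one_pow]
    have hci : t * z ^ i = z ^ i * t :=
      (Commute.pow_right (show Commute t z from hcomm t ht) i).eq
    have := NilpExt.fix_of_coprime (z ^ i) t hzi3 j hj' hci x hi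
    rw [← hi]; exact this
  · have hle : T ⊔ Subgroup.zpowers z ≤ N := by
      apply sup_le
      · rw [hTdef]; exact Subgroup.map_subtype_le _
      · rw [Subgroup.zpowers_le, hzdef]; exact z'.2
    have hd1 : 2 ^ E ∣ Nat.card (T ⊔ Subgroup.zpowers z : Subgroup _) := by
      rw [← hTcard]; exact Subgroup.card_dvd_of_le le_sup_left
    have hd2 : 3 ∣ Nat.card (T ⊔ Subgroup.zpowers z : Subgroup _) := by
      have := Subgroup.card_dvd_of_le
        (le_sup_right : Subgroup.zpowers z ≤ T ⊔ Subgroup.zpowers z)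
      rwa [Nat.card_zpowers, hzord] at this
    have hd3 : 3 * 2 ^ E ∣ Nat.card (T ⊔ Subgroup.zpowers z : Subgroup _) :=
      Nat.Coprime.mul_dvd_of_dvd_of_dvd (Nat.Coprime.pow_right E (by norm_num)) hd2 hd1
    exact (Subgroup.eq_of_le_of_card_ge hle
      (by rw [hcard]; exact Nat.le_of_dvd Nat.card_pos hd3)).symm

/-- Permutations fixing every point moved by `z`. -/
def fixer {Ω : Type*} (z : Equiv.Perm Ω) : Subgroup (Equiv.Perm Ω) where
  carrier := {σ | ∀ x, z x ≠ x → σ x = x}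
  mul_mem' := by
    intro a b ha hb x hx
    show a (b x) = x
    rw [hb x hx, ha x hx]
  one_mem' := fun x _ => rfl
  inv_mem' := by
    intro a ha x hx
    show a⁻¹ x = x
    rw [Equiv.Perm.inv_eq_iff_eq]
    exact (ha x hx).symm

theorem fixer_inv {Ω : Type*} (z : Equiv.Perm Ω) :
    ∀ g ∈ fixer z, ∀ x, z (g x) = g x ↔ z x = x := by
  intro g hg x
  constructor
  · intro h
    by_contra hx
    have h1 : g x = x := hg x hx
    rw [h1] at h
    exact hx h
  · intro h
    by_contra hgx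
    have h1 : g (g x) = g x := hg (g x) hgx
    have h2 : g x = x := g.injective h1
    rw [h2] at hgx
    exact hgx h

theorem fixer_comm {Ω : Type*} (z g : Equiv.Perm Ω) (hg : g ∈ fixer z) : g * z = z * g := by
  ext x
  show g (z x) = z (g x)
  by_cases hx : z x = x
  · rw [hx, (fixer_inv z g hg x).mpr hx]
  · have h1 : z (z x) ≠ z x := fun h => hx (z.injective h)
    have h2 : g (z x) = z x := hg (z x) h1
    have h3 : g x = x := hg x hx
    rw [h2, h3]

theorem fixer_restr_inj {Ω : Type*} (z : Equiv.Perm Ω) :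
    Function.Injective (NilpAlt.restrP (fixer z) (fun x => z x = x) (fixer_inv z)) := by
  intro g g' h
  apply Subtype.ext
  ext x
  by_cases hx : z x = x
  · have := congrArg (fun σ : Equiv.Perm {x // z x = x} =>
      ((σ ⟨x, hx⟩ : {x // z x = x}) : Ω)) h
    simpa [NilpAlt.restrP_apply] using this
  · have h1 : (g : Equiv.Perm Ω) x = x := g.2 x hx
    have h2 : (g' : Equiv.Perm Ω) x = x := g'.2 x hx
    rw [h1, h2]

theorem fixer_val_le {n : ℕ} (z : Equiv.Perm (Fin n)) (h3 : z.IsThreeCycle) :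
    (Nat.card (fixer z)).factorization 2 ≤ NilpNum.e (n - 3) := by
  have hd := Subgroup.card_dvd_of_injective _ (fixer_restr_inj z)
  rw [Nat.card_perm] at hd
  have hc := card_fix_add_support z
  rw [h3.card_support] at hc
  have hc' : Nat.card {x // z x = x} = n - 3 := by omega
  rw [hc'] at hd
  have h1 := (Nat.factorization_le_iff_dvd (Nat.card_pos.ne')
    (Nat.factorial_ne_zero _)).mpr hd 2
  exact le_trans h1 (le_of_eq (Nat.factorization_def _ Nat.prime_two))

theorem fixer_alt_val_le {n : ℕ} (z : Equiv.Perm (Fin n)) (h3 : z.IsThreeCycle) (h5 : 5 ≤ n) :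
    (Nat.card ↥(fixer z ⊓ alternatingGroup (Fin n))).factorization 2 + 1
      ≤ NilpNum.e (n - 3) := by
  have hc := card_fix_add_support z
  rw [h3.card_support] at hc
  have hc' : Nat.card {x // z x = x} = n - 3 := by omega
  have _nt : Nontrivial {x // z x = x} := by
    rw [← Finite.one_lt_card_iff_nontrivial, hc']; omega
  have hinc : Function.Injective (Subgroup.inclusion
      (inf_le_left : fixer z ⊓ alternatingGroup (Fin n) ≤ fixer z)) :=
    Subgroup.inclusion_injective _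
  have hinj : Function.Injective ((NilpAlt.restrP (fixer z) (fun x => z x = x)
      (fixer_inv z)).comp (Subgroup.inclusion
      (inf_le_left : fixer z ⊓ alternatingGroup (Fin n) ≤ fixer z))) :=
    (fixer_restr_inj z).comp hinc
  have hrange : ((NilpAlt.restrP (fixer z) (fun x => z x = x)
      (fixer_inv z)).comp (Subgroup.inclusion
      (inf_le_left : fixer z ⊓ alternatingGroup (Fin n) ≤ fixer z))).range
      ≤ alternatingGroup {x // z x = x} := by
    rintro _ ⟨g, rfl⟩
    rw [Equiv.Perm.mem_alternatingGroup]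
    have hgf : (g : Equiv.Perm (Fin n)) ∈ fixer z := g.2.1
    have hga : Equiv.Perm.sign (g : Equiv.Perm (Fin n)) = 1 :=
      Equiv.Perm.mem_alternatingGroup.mp g.2.2
    have hs := NilpAlt.sign_split (fun x => z x = x) (g : Equiv.Perm (Fin n))
      (fixer_inv z _ hgf) (fun x => not_congr (fixer_inv z _ hgf x))
    have h1 : Equiv.Perm.subtypePerm (p := fun x => ¬ z x = x) (g : Equiv.Perm (Fin n))
        (fun x => not_congr (fixer_inv z _ hgf x)) = 1 := by
      ext x
      exact congrArg Fin.val (hgf x.1 x.2)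
    rw [h1, map_one, mul_one, hga] at hs
    exact hs.symm
  have hcard : Nat.card ↥(fixer z ⊓ alternatingGroup (Fin n))
      ∣ Nat.card (alternatingGroup {x // z x = x}) := by
    rw [Nat.card_congr (MonoidHom.ofInjective hinj).toEquiv]
    exact Subgroup.card_dvd_of_le hrange
  have h4 := two_mul_nat_card_alternatingGroup (α := {x // z x = x})
  rw [Nat.card_perm, hc'] at h4
  have hA0 : Nat.card (alternatingGroup {x // z x = x}) ≠ 0 := Nat.card_pos.ne'
  have h5' : ((n - 3).factorial).factorization 2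
      = 1 + (Nat.card (alternatingGroup {x // z x = x})).factorization 2 := by
    rw [← h4, Nat.factorization_mul two_ne_zero hA0]
    simp [Nat.prime_two.factorization_self]
  have h6 := (Nat.factorization_le_iff_dvd (Nat.card_pos.ne') hA0).mpr hcard 2
  have h7 : NilpNum.e (n - 3) = ((n - 3).factorial).factorization 2 :=
    (Nat.factorization_def _ Nat.prime_two).symm
  omega

open scoped Pointwise in
/-- Sylow conjugacy for subgroups of `K` of Sylow order. -/
theorem sylow_conj' {G : Type*} [Group G] [Finite G] (K : Subgroup G) (q : ℕ) [Fact q.Prime]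
    (S₁ S₂ : Subgroup G) (h₁K : S₁ ≤ K) (h₂K : S₂ ≤ K)
    (h₁c : Nat.card S₁ = q ^ (Nat.card K).factorization q)
    (h₂c : Nat.card S₂ = q ^ (Nat.card K).factorization q) :
    ∃ x ∈ K, S₁.map (MulAut.conj x).toMonoidHom = S₂ := by
  have e₁ : Nat.card (S₁.subgroupOf K) = q ^ (Nat.card K).factorization q := by
    rw [Nat.card_congr (Subgroup.subgroupOfEquivOfLe h₁K).toEquiv]; exact h₁c
  have e₂ : Nat.card (S₂.subgroupOf K) = q ^ (Nat.card K).factorization q := by
    rw [Nat.card_congr (Subgroup.subgroupOfEquivOfLe h₂K).toEquiv]; exact h₂c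
  obtain ⟨k, hk⟩ := MulAction.exists_smul_eq K (Sylow.ofCard (S₁.subgroupOf K) e₁)
    (Sylow.ofCard (S₂.subgroupOf K) e₂)
  refine ⟨k, k.2, ?_⟩
  apply Subgroup.eq_of_le_of_card_ge
  · rintro _ ⟨s, hs, rfl⟩
    have h1 : (⟨s, h₁K hs⟩ : K) ∈ (Sylow.ofCard (S₁.subgroupOf K) e₁ : Subgroup K) :=
      Subgroup.mem_subgroupOf.mpr hs
    have h2 := Subgroup.smul_mem_pointwise_smul (⟨s, h₁K hs⟩ : K) (MulAut.conj k)
      (Sylow.ofCard (S₁.subgroupOf K) e₁ : Subgroup K) h1
    have h3 : MulAut.conj k • (Sylow.ofCard (S₁.subgroupOf K) e₁ : Subgroup K) =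
        (Sylow.ofCard (S₂.subgroupOf K) e₂ : Subgroup K) := by
      rw [← Sylow.coe_subgroup_smul, hk]
    rw [h3] at h2
    have h4 : (MulAut.conj k • (⟨s, h₁K hs⟩ : K)) ∈ S₂.subgroupOf K := h2
    exact Subgroup.mem_subgroupOf.mp h4
  · rw [Subgroup.card_map_of_injective (MulAut.conj (k : G)).injective, h₁c, h₂c]

/-- Conjugacy of two canonical forms inside a subgroup `K` of the symmetric group. -/
theorem conj_general {n E : ℕ} (K : Subgroup (Equiv.Perm (Fin n)))
    (T₁ T₂ : Subgroup (Equiv.Perm (Fin n))) (z₁ z₂ : Equiv.Perm (Fin n))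
    (hfix₁ : ∀ t ∈ T₁, ∀ x, z₁ x ≠ x → t x = x) (hfix₂ : ∀ t ∈ T₂, ∀ x, z₂ x ≠ x → t x = x)
    (hc₁ : Nat.card T₁ = 2 ^ E) (hc₂ : Nat.card T₂ = 2 ^ E) (hT₁K : T₁ ≤ K) (hT₂K : T₂ ≤ K)
    (g₀ : Equiv.Perm (Fin n)) (hg₀K : g₀ ∈ K) (hg₀ : g₀ * z₁ * g₀⁻¹ = z₂)
    (hv : (Nat.card ↥(fixer z₂ ⊓ K)).factorization 2 ≤ E) :
    ∃ g ∈ K, T₂ ⊔ Subgroup.zpowers z₂
      = (T₁ ⊔ Subgroup.zpowers z₁).map (MulAut.conj g).toMonoidHom := by
  have _i2 : Fact (Nat.Prime 2) := ⟨Nat.prime_two⟩
  have hc₁' : Nat.card (T₁.map (MulAut.conj g₀).toMonoidHom) = 2 ^ E := by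
    rw [Subgroup.card_map_of_injective (MulAut.conj g₀).injective, hc₁]
  have hle₁ : T₁.map (MulAut.conj g₀).toMonoidHom ≤ fixer z₂ ⊓ K := by
    rintro _ ⟨t, ht, rfl⟩
    refine Subgroup.mem_inf.mpr ⟨?_, ?_⟩
    · intro x hx
      show g₀ (t (g₀⁻¹ x)) = x
      have h1 : z₁ (g₀⁻¹ x) ≠ g₀⁻¹ x := by
        intro h
        apply hx
        rw [← hg₀]
        show g₀ (z₁ (g₀⁻¹ x)) = x
        rw [h]
        simp
      rw [hfix₁ t ht _ h1]
      simp
    · exact K.mul_mem (K.mul_mem hg₀K (hT₁K ht)) (K.inv_mem hg₀K)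
  have hle₂ : T₂ ≤ fixer z₂ ⊓ K := le_inf (fun t ht => hfix₂ t ht) hT₂K
  have hval : (Nat.card ↥(fixer z₂ ⊓ K)).factorization 2 = E := by
    apply le_antisymm hv
    have hd : 2 ^ E ∣ Nat.card ↥(fixer z₂ ⊓ K) := by
      rw [← hc₂]; exact Subgroup.card_dvd_of_le hle₂
    exact (Nat.prime_two.pow_dvd_iff_le_factorization Nat.card_pos.ne').mp hd
  obtain ⟨h, hh, hconj⟩ := sylow_conj' (fixer z₂ ⊓ K) 2 _ T₂ hle₁ hle₂
    (by rw [hval]; exact hc₁') (by rw [hval]; exact hc₂)
  have hhf : h ∈ fixer z₂ := (Subgroup.mem_inf.mp hh).1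
  have hhK : h ∈ K := (Subgroup.mem_inf.mp hh).2
  have hhz : h * z₂ * h⁻¹ = z₂ := by
    rw [fixer_comm z₂ h hhf]; group
  refine ⟨h * g₀, K.mul_mem hhK hg₀K, ?_⟩
  have e1 : (MulAut.conj (h * g₀)).toMonoidHom
      = (MulAut.conj h).toMonoidHom.comp (MulAut.conj g₀).toMonoidHom := by
    ext x
    simp [MulAut.conj_apply, mul_assoc]
  have e2 : (MulAut.conj g₀).toMonoidHom z₁ = z₂ := hg₀
  have e3 : (MulAut.conj h).toMonoidHom z₂ = z₂ := hhz
  rw [e1, ← Subgroup.map_map, Subgroup.map_sup, Subgroup.map_sup, MonoidHom.map_zpowers,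
    MonoidHom.map_zpowers, e2, e3, hconj]

end Cfsg.Agent.Lib.Helper38.NilpConj
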