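import Mathlib
import Cfsg.Agent.Lib.Helper38.NilpConj

set_option autoImplicit false

namespace Cfsg.Agent.Lib.Helper38.NilpExist

open Cfsg.Agent.Lib.Helper38

/-- The embedding `Perm (Fin m) × Perm (Fin 3) → Perm (Fin n)` for `m + 3 = n`. -/
noncomputable def iota (m n : ℕ) (h : m + 3 = n) :
    Equiv.Perm (Fin m) × Equiv.Perm (Fin 3) →* Equiv.Perm (Fin n) :=
  ((finSumFinEquiv.trans (finCongr h)).permCongrHom.toMonoidHom).comp
    (Equiv.Perm.sumCongrHom (Fin m) (Fin 3))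

theorem iota_injective (m n : ℕ) (h : m + 3 = n) : Function.Injective (iota m n h) := by
  intro x y hxy
  apply Equiv.Perm.sumCongrHom_injective
  exact (finSumFinEquiv.trans (finCongr h)).permCongrHom.injective hxy

theorem sign_iota (m n : ℕ) (h : m + 3 = n) (a : Equiv.Perm (Fin m)) (b : Equiv.Perm (Fin 3)) :
    Equiv.Perm.sign (iota m n h (a, b)) = Equiv.Perm.sign a * Equiv.Perm.sign b := by
  have h1 : iota m n h (a, b)
      = (finSumFinEquiv.trans (finCongr h)).permCongr (Equiv.sumCongr a b) := rfl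
  rw [h1, Equiv.Perm.sign_permCongr, Equiv.Perm.sign_sumCongr]

theorem card_alt3 : Nat.card (alternatingGroup (Fin 3)) = 3 := by
  rw [nat_card_alternatingGroup]
  simp [Nat.factorial]

theorem card_mz3 : Nat.card (Multiplicative (ZMod 3)) = 3 := by
  rw [Nat.card_eq_fintype_card]
  simp [ZMod.card]

theorem exists_sym (n : ℕ) (hn : 3 ≤ n) (P : Sylow 2 (Equiv.Perm (Fin (n - 3)))) :
    ∃ M : Subgroup (Equiv.Perm (Fin n)), Group.IsNilpotent M ∧ Nat.card M = 3 * Nat.card P ∧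
      Nonempty (M ≃* (↥(P : Subgroup (Equiv.Perm (Fin (n - 3)))) × Multiplicative (ZMod 3))) := by
  have _i2 : Fact (Nat.Prime 2) := ⟨Nat.prime_two⟩
  have _i3 : Fact (Nat.Prime 3) := ⟨Nat.prime_three⟩
  have h : n - 3 + 3 = n := by omega
  have eC : ↥(alternatingGroup (Fin 3)) ≃* Multiplicative (ZMod 3) :=
    mulEquivOfPrimeCardEq (p := 3) card_alt3 card_mz3
  have e1 : ↥(((P : Subgroup (Equiv.Perm (Fin (n - 3)))).prod (alternatingGroup (Fin 3))).map
      (iota (n - 3) n h)) ≃* ↥((P : Subgroup (Equiv.Perm (Fin (n - 3)))).prod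
      (alternatingGroup (Fin 3))) :=
    (Subgroup.equivMapOfInjective _ _ (iota_injective _ _ h)).symm
  have e2 : ↥((P : Subgroup (Equiv.Perm (Fin (n - 3)))).prod (alternatingGroup (Fin 3)))
      ≃* ↥(P : Subgroup (Equiv.Perm (Fin (n - 3)))) × ↥(alternatingGroup (Fin 3)) :=
    Subgroup.prodEquiv _ _
  have e3 : ↥(P : Subgroup (Equiv.Perm (Fin (n - 3)))) × ↥(alternatingGroup (Fin 3))
      ≃* ↥(P : Subgroup (Equiv.Perm (Fin (n - 3)))) × Multiplicative (ZMod 3) :=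
    MulEquiv.prodCongr (MulEquiv.refl _) eC
  refine ⟨_, ?_, ?_, ⟨(e1.trans e2).trans e3⟩⟩
  · have hP : Group.IsNilpotent ↥(P : Subgroup (Equiv.Perm (Fin (n - 3)))) :=
      P.isPGroup'.isNilpotent
    have hprod : Group.IsNilpotent
        (↥(P : Subgroup (Equiv.Perm (Fin (n - 3)))) × Multiplicative (ZMod 3)) := inferInstance
    exact Group.nilpotent_of_mulEquiv ((e1.trans e2).trans e3).symm
  · rw [Nat.card_congr ((e1.trans e2).trans e3).toEquiv, Nat.card_prod, card_mz3, mul_comm]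

theorem exists_alt (n : ℕ) (hn : 3 ≤ n) (P : Sylow 2 (alternatingGroup (Fin (n - 3)))) :
    ∃ M : Subgroup (alternatingGroup (Fin n)), Group.IsNilpotent M ∧
      Nat.card M = 3 * Nat.card P ∧
      Nonempty (M ≃* (↥(P : Subgroup (alternatingGroup (Fin (n - 3))))
        × Multiplicative (ZMod 3))) := by
  have _i2 : Fact (Nat.Prime 2) := ⟨Nat.prime_two⟩
  have _i3 : Fact (Nat.Prime 3) := ⟨Nat.prime_three⟩
  have h : n - 3 + 3 = n := by omega
  have eC : ↥(alternatingGroup (Fin 3)) ≃* Multiplicative (ZMod 3) :=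
    mulEquivOfPrimeCardEq (p := 3) card_alt3 card_mz3
  obtain ⟨P', hP'⟩ : ∃ P' : Subgroup (Equiv.Perm (Fin (n - 3))),
      P' = (P : Subgroup (alternatingGroup (Fin (n - 3)))).map
        (alternatingGroup (Fin (n - 3))).subtype := ⟨_, rfl⟩
  have eP : ↥P' ≃* ↥(P : Subgroup (alternatingGroup (Fin (n - 3)))) := by
    rw [hP']
    exact (Subgroup.equivMapOfInjective _ _ (Subgroup.subtype_injective _)).symm
  have hM' : (P'.prod (alternatingGroup (Fin 3))).map (iota (n - 3) n h)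
      ≤ alternatingGroup (Fin n) := by
    rintro _ ⟨⟨a, b⟩, hab, rfl⟩
    have ha : a ∈ P' := hab.1
    have hb : b ∈ alternatingGroup (Fin 3) := hab.2
    rw [hP'] at ha
    obtain ⟨a', _, rfl⟩ := ha
    rw [Equiv.Perm.mem_alternatingGroup, sign_iota]
    have h1 : Equiv.Perm.sign (a' : Equiv.Perm (Fin (n - 3))) = 1 :=
      Equiv.Perm.mem_alternatingGroup.mp a'.2
    have h2 : Equiv.Perm.sign b = 1 := Equiv.Perm.mem_alternatingGroup.mp hb
    show Equiv.Perm.sign (a' : Equiv.Perm (Fin (n - 3))) * Equiv.Perm.sign b = 1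
    rw [h1, h2, one_mul]
  have e0 : ↥(((P'.prod (alternatingGroup (Fin 3))).map (iota (n - 3) n h)).subgroupOf
      (alternatingGroup (Fin n))) ≃* ↥((P'.prod (alternatingGroup (Fin 3))).map
      (iota (n - 3) n h)) := Subgroup.subgroupOfEquivOfLe hM'
  have e1 : ↥((P'.prod (alternatingGroup (Fin 3))).map (iota (n - 3) n h))
      ≃* ↥(P'.prod (alternatingGroup (Fin 3))) :=
    (Subgroup.equivMapOfInjective _ _ (iota_injective _ _ h)).symm
  have e2 : ↥(P'.prod (alternatingGroup (Fin 3))) ≃* ↥P' × ↥(alternatingGroup (Fin 3)) :=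
    Subgroup.prodEquiv _ _
  have e3 : ↥P' × ↥(alternatingGroup (Fin 3))
      ≃* ↥(P : Subgroup (alternatingGroup (Fin (n - 3)))) × Multiplicative (ZMod 3) :=
    MulEquiv.prodCongr eP eC
  refine ⟨_, ?_, ?_, ⟨((e0.trans e1).trans e2).trans e3⟩⟩
  · have hP : Group.IsNilpotent ↥(P : Subgroup (alternatingGroup (Fin (n - 3)))) :=
      P.isPGroup'.isNilpotent
    have hprod : Group.IsNilpotent
        (↥(P : Subgroup (alternatingGroup (Fin (n - 3)))) × Multiplicative (ZMod 3)) :=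
      inferInstance
    exact Group.nilpotent_of_mulEquiv (((e0.trans e1).trans e2).trans e3).symm
  · rw [Nat.card_congr (((e0.trans e1).trans e2).trans e3).toEquiv, Nat.card_prod, card_mz3,
      mul_comm]

/-- Conjugacy of extremal nilpotent subgroups of `Sym(n)`, `n ≡ 3 mod 4`. -/
theorem conj_sym (n : ℕ) (hn : n % 4 = 3) (N₁ N₂ : Subgroup (Equiv.Perm (Fin n)))
    (h₁ : Group.IsNilpotent N₁) (h₂ : Group.IsNilpotent N₂)
    (hc₁ : Nat.card N₁ = 3 * 2 ^ NilpNum.e (n - 3))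
    (hc₂ : Nat.card N₂ = 3 * 2 ^ NilpNum.e (n - 3)) :
    ∃ g : Equiv.Perm (Fin n), N₂ = N₁.map (MulAut.conj g).toMonoidHom := by
  have hE : ∀ r, r + 4 ≤ n → NilpNum.e r < NilpNum.e (n - 3) := by
    intro r hr
    have h7 : 7 ≤ n := by omega
    have h1 := NilpConj.e_gap hn h7
    have h2 := NilpExt.e_mono (show r ≤ n - 4 by omega)
    omega
  obtain ⟨T₁, z₁, h3₁, hf₁, hT₁, rfl⟩ := NilpConj.canonical_form n _ N₁ h₁ hc₁ hE
  obtain ⟨T₂, z₂, h3₂, hf₂, hT₂, rfl⟩ := NilpConj.canonical_form n _ N₂ h₂ hc₂ hE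
  obtain ⟨g₀, hg₀⟩ := isConj_iff.mp
    (Equiv.Perm.isConj_iff_cycleType_eq.mpr (h3₁.trans h3₂.symm))
  obtain ⟨g, -, hg⟩ := NilpConj.conj_general ⊤ T₁ T₂ z₁ z₂ hf₁ hf₂ hT₁ hT₂ le_top le_top g₀
    (Subgroup.mem_top _) hg₀ (by rw [inf_top_eq]; exact NilpConj.fixer_val_le z₂ h3₂)
  exact ⟨g, hg⟩

/-- Conjugacy of extremal nilpotent subgroups of `Alt(n)`, `n ≡ 3 mod 4`, `n ≥ 7`. -/
theorem conj_alt (n : ℕ) (hn : n % 4 = 3) (h7 : 7 ≤ n) (c : ℕ)
    (hc : 2 * c = 2 ^ NilpNum.e (n - 3))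
    (N₁ N₂ : Subgroup (alternatingGroup (Fin n)))
    (h₁ : Group.IsNilpotent N₁) (h₂ : Group.IsNilpotent N₂)
    (hc₁ : Nat.card N₁ = 3 * c) (hc₂ : Nat.card N₂ = 3 * c) :
    ∃ g : alternatingGroup (Fin n), N₂ = N₁.map (MulAut.conj g).toMonoidHom := by
  have hgap := NilpConj.e_gap hn h7
  obtain ⟨E, hEdef⟩ : ∃ E, NilpNum.e (n - 3) = E + 1 := ⟨NilpNum.e (n - 3) - 1, by omega⟩
  have hcE : c = 2 ^ E := by
    rw [hEdef, pow_succ'] at hc
    omega
  rw [hcE] at hc₁ hc₂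
  have hE : ∀ r, r + 4 ≤ n → NilpNum.e r < E := by
    intro r hr
    have h2 := NilpExt.e_mono (show r ≤ n - 4 by omega)
    omega
  have hinj : Function.Injective (alternatingGroup (Fin n)).subtype :=
    Subgroup.subtype_injective _
  have hnil₁ : Group.IsNilpotent (N₁.map (alternatingGroup (Fin n)).subtype) :=
    Group.nilpotent_of_surjective ((alternatingGroup (Fin n)).subtype.subgroupMap N₁)
      (MonoidHom.subgroupMap_surjective _ _)
  have hnil₂ : Group.IsNilpotent (N₂.map (alternatingGroup (Fin n)).subtype) :=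
    Group.nilpotent_of_surjective ((alternatingGroup (Fin n)).subtype.subgroupMap N₂)
      (MonoidHom.subgroupMap_surjective _ _)
  have hc₁' : Nat.card (N₁.map (alternatingGroup (Fin n)).subtype) = 3 * 2 ^ E := by
    rw [Subgroup.card_map_of_injective hinj, hc₁]
  have hc₂' : Nat.card (N₂.map (alternatingGroup (Fin n)).subtype) = 3 * 2 ^ E := by
    rw [Subgroup.card_map_of_injective hinj, hc₂]
  obtain ⟨T₁, z₁, h3₁, hf₁, hT₁, hN₁⟩ := NilpConj.canonical_form n E _ hnil₁ hc₁' hE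
  obtain ⟨T₂, z₂, h3₂, hf₂, hT₂, hN₂⟩ := NilpConj.canonical_form n E _ hnil₂ hc₂' hE
  have hT₁A : T₁ ≤ alternatingGroup (Fin n) := by
    have h1 : T₁ ≤ N₁.map (alternatingGroup (Fin n)).subtype := by rw [hN₁]; exact le_sup_left
    exact le_trans h1 (Subgroup.map_subtype_le _)
  have hT₂A : T₂ ≤ alternatingGroup (Fin n) := by
    have h1 : T₂ ≤ N₂.map (alternatingGroup (Fin n)).subtype := by rw [hN₂]; exact le_sup_left
    exact le_trans h1 (Subgroup.map_subtype_le _)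
  have hconj := alternatingGroup.isThreeCycle_isConj (α := Fin n)
    (by rw [Nat.card_eq_fintype_card, Fintype.card_fin]; omega)
    (σ := ⟨z₁, h3₁.mem_alternatingGroup⟩) (τ := ⟨z₂, h3₂.mem_alternatingGroup⟩) h3₁ h3₂
  obtain ⟨g₀, hg₀⟩ := isConj_iff.mp hconj
  have hg₀' : (g₀ : Equiv.Perm (Fin n)) * z₁ * (g₀ : Equiv.Perm (Fin n))⁻¹ = z₂ := by
    have := congrArg Subtype.val hg₀
    simpa using this
  have hv := NilpConj.fixer_alt_val_le z₂ h3₂ (by omega)
  obtain ⟨g, hgA, hg⟩ := NilpConj.conj_general (alternatingGroup (Fin n)) T₁ T₂ z₁ z₂ hf₁ hf₂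
    hT₁ hT₂ hT₁A hT₂A (g₀ : Equiv.Perm (Fin n)) g₀.2 hg₀' (by omega)
  refine ⟨⟨g, hgA⟩, ?_⟩
  apply Subgroup.map_injective hinj
  have hcomp : (alternatingGroup (Fin n)).subtype.comp
      (MulAut.conj (⟨g, hgA⟩ : alternatingGroup (Fin n))).toMonoidHom
      = (MulAut.conj g).toMonoidHom.comp (alternatingGroup (Fin n)).subtype := by
    ext x
    rfl
  rw [Subgroup.map_map, hcomp, ← Subgroup.map_map, hN₁, hN₂]
  exact hg

end Cfsg.Agent.Lib.Helper38.NilpExist
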