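import Mathlib
import Cfsg.Agent.Lib.Helper38.Sp4Stmt
import Cfsg.Agent.Lib.Helper24.SpCRITP
import Cfsg.Agent.Lib.Helper24.SpMAP
import Cfsg.Agent.Lib.Helper89.SpSC
import Cfsg.Agent.Lib.Helper22.SpRAD
import Cfsg.Agent.Lib.Helper89.SpAUT
import Cfsg.Agent.Lib.Helper23.PslF1
import Cfsg.Agent.Lib.Helper23.PslF2

/-!
# S5320: assembly of the pieces of `Cfsg.Agent.Lib.Helper38.Sp4Stmt`
-/

set_option autoImplicit false

namespace Cfsg.Agent.Lib.Helper38.Sp4Asm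

open Cfsg.Agent.Lib.Helper38.Sp4Stmt

universe u

/-- the simplicity criterion of helper52 (all its parts are landed) -/
theorem crit : Cfsg.Agent.Lib.Helper52.SpStmt.Crit.{u} :=
  Cfsg.Agent.Lib.Helper24.SpCRITP.main Cfsg.Agent.Lib.Helper89.SpSC.main
    Cfsg.Agent.Lib.Helper22.SpRAD.main Cfsg.Agent.Lib.Helper89.SpAUT.main
    Cfsg.Agent.Lib.Helper23.PslF1.main Cfsg.Agent.Lib.Helper23.PslF2.main

theorem assembly
    (hPSI : PSI.{u}) (hGKER : GKER.{u}) (hGTAU : GTAU.{u}) (hGCENT : GCENT.{u})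
    (hGFUS : GFUS.{u}) (hLEPS : LEPS.{u}) (hQTWO : QTWO.{u}) (hQCEN : QCEN.{u})
    (hQBIG : QBIG.{u}) (hQFOC : QFOC.{u}) (hNQ1 : NQ1.{u}) (hC4 : C4.{u}) (hQ8A : Q8A.{u})
    (hQ8W : Q8W.{u}) (hQ8N : Q8N.{u}) (hQ8T : Q8T.{u}) (hX0D : X0DCore.{u})
    (hSYL1 : SYL1Core.{u, u}) (hCD1 : CD1Core.{u, u}) (hSYL2 : SYL2Core.{u, u})
    (hCD2 : CD2Core.{u, u})
    {F : Type u} [Field F] [Fintype F] (hodd : Fintype.card F % 2 = 1)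
    (S : Sylow 2 (Cfsg.PSp 2 F)) :
    (Cfsg.groupFusionSystem (S : Subgroup (Cfsg.PSp 2 F))).IsSimple 2 := by
  classical
  have h2 : (2 : F) ≠ 0 := Cfsg.Agent.Lib.Helper42.SL2Odd.two_ne_zero_of_odd (by omega)
  obtain ⟨x, y, hxy⟩ := Cfsg.Agent.H85.PSL2Inv.exists_sq_add_sq hodd (-1 : F)
  obtain ⟨⟨Ψ, hΨ⟩, ⟨t, ht⟩⟩ := hPSI F
  obtain ⟨hk1, hk2⟩ := hGKER F Ψ hΨ h2
  obtain ⟨ht1, ht2, ht3⟩ := hGTAU F Ψ t hΨ ht h2
  obtain ⟨he1, he2, he3, he4⟩ := hLEPS F h2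
  have hD : Data (pr.comp Ψ) (pr t) (-1 : Matrix.SpecialLinearGroup (Fin 2) F) :=
    { eps_sq := he1, eps_ne := he2, eps_comm := he3, eps_unique := he4,
      ker := hk1, ker_eps := hk2, tau_sq := ht1, tau_conj := ht2, tau_not := ht3,
      cent := hGCENT F Ψ t hΨ ht h2, fus := hGFUS F Ψ t hΨ ht h2 }
  obtain ⟨hb1, hb2⟩ := hQBIG F x y hxy h2
  have hQ : QData (-1 : Matrix.SpecialLinearGroup (Fin 2) F) (Qst x y hxy) :=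
    { eps_mem := hb1, two := hQTWO F x y hxy, cen := hQCEN F x y hxy h2, big := hb2,
      foc := hQFOC F x y hxy hodd }
  have key : ∀ (ℛ : Set (Subgroup (Cfsg.PSp 2 F))),
      Cfsg.Agent.Lib.Helper52.SpStmt.CritData 2 (S0 (pr.comp Ψ) (pr t) (Qst x y hxy)) ℛ →
      (∃ S1 : Sylow 2 (Cfsg.PSp 2 F),
        (S1 : Subgroup (Cfsg.PSp 2 F)) = S0 (pr.comp Ψ) (pr t) (Qst x y hxy)) →
      (Cfsg.groupFusionSystem (S : Subgroup (Cfsg.PSp 2 F))).IsSimple 2 := by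
    rintro ℛ hcd ⟨S1, hS1⟩
    obtain ⟨g, hg⟩ := MulAction.exists_smul_eq (Cfsg.PSp 2 F) S1 S
    have h1 : (S : Subgroup (Cfsg.PSp 2 F)) =
        (S0 (pr.comp Ψ) (pr t) (Qst x y hxy)).map (MulAut.conj g).toMonoidHom := by
      rw [← hg, ← hS1]
      rfl
    have h2' := Cfsg.Agent.Lib.Helper24.SpMAP.main hcd g
    rw [← h1] at h2'
    exact crit 2 S _ h2'
  by_cases hsq : IsSquare (2 : F)
  · have hN := hNQ1 F x y hxy h2 hsq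
    exact key _ (hCD1 _ _ _ _ _ _ hD hQ hN) (hSYL1 _ _ _ _ _ _ hD hQ hN)
  · have hc4 := hC4 F h2 hsq
    obtain ⟨ha1, ha2⟩ := hQ8A F x y hxy h2 hc4
    obtain ⟨hw1, hw2, hw3⟩ := hQ8W F x y hxy h2 hc4
    have hQ8 : Q8Data (-1 : Matrix.SpecialLinearGroup (Fin 2) F) (Qst x y hxy)
        (ww x y hxy h2) :=
      { conj := ha1, sq := ha2, w_norm := hw1, w_cube := hw2, w_ne := hw3,
        norm := hQ8N F x y hxy h2 hc4, triv := hQ8T F x y hxy h2 hc4 }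
    obtain ⟨x0, hx0⟩ := hX0D F Ψ t hΨ ht h2 x y hxy hc4
    exact key _ (hCD2 _ _ _ _ _ _ _ _ hD hQ hQ8 hx0) (hSYL2 _ _ _ _ _ _ _ hD hQ hQ8)

end Cfsg.Agent.Lib.Helper38.Sp4Asm
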