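import Mathlib
import Cfsg.Agent.Lib.Helper38.Sp4Stmt

/-!
# S5320, piece GCENT: the centralizer in `PSp₄` of the image of `diag(-1, 1, -1, 1)`
-/

set_option autoImplicit false
set_option linter.unusedSimpArgs false

namespace Cfsg.Agent.Lib.Helper38.Sp4GCENT

open Cfsg.Agent.Lib.Helper38.Sp4Stmt Matrix

universe u

variable {F : Type u} [Field F]

/-- the diagonal matrix `diag(-1, 1, -1, 1)` -/
def Zm (F : Type u) [Field F] : Matrix (Fin 2 ⊕ Fin 2) (Fin 2 ⊕ Fin 2) F :=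
  Matrix.diagonal (Sum.elim ![-1, 1] ![-1, 1])

theorem psiMat_neg_one_one :
    PsiMat (((-1 : Matrix.SpecialLinearGroup (Fin 2) F) : Matrix (Fin 2) (Fin 2) F))
      (((1 : Matrix.SpecialLinearGroup (Fin 2) F) : Matrix (Fin 2) (Fin 2) F)) = Zm F := by
  ext (i | i) (j | j) <;> fin_cases i <;> fin_cases j <;>
    simp [PsiMat, Zm, Matrix.diagonal, Matrix.fromBlocks]

theorem T0Mat_mul_self : T0Mat F * T0Mat F = 1 := by
  ext (i | i) (j | j) <;> fin_cases i <;> fin_cases j <;>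
    simp [T0Mat, Matrix.mul_apply, Fintype.sum_sum_type, Matrix.one_apply]

theorem T0Mat_mul_Zm : T0Mat F * Zm F = -(Zm F * T0Mat F) := by
  ext (i | i) (j | j) <;> fin_cases i <;> fin_cases j <;>
    simp [T0Mat, Zm, Matrix.mul_apply, Fintype.sum_sum_type, Matrix.diagonal]

theorem eq_zero_of_a (h2 : (2 : F) ≠ 0) {m : F} (h : m * 1 = -1 * m) : m = 0 := by
  have : (2 : F) * m = 0 := by linear_combination h
  exact (mul_eq_zero.mp this).resolve_left h2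

theorem eq_zero_of_b (h2 : (2 : F) ≠ 0) {m : F} (h : m * -1 = 1 * m) : m = 0 := by
  have : (2 : F) * m = 0 := by linear_combination -h
  exact (mul_eq_zero.mp this).resolve_left h2

/-- a symplectic matrix commuting with `diag(-1, 1, -1, 1)` is in the image of `Ψ` -/
theorem comm_case (Ψ : Matrix.SpecialLinearGroup (Fin 2) F × Matrix.SpecialLinearGroup (Fin 2) F →*
    Matrix.symplecticGroup (Fin 2) F) (hΨ : IsPsi Ψ) (h2 : (2 : F) ≠ 0)
    (g : Matrix.symplecticGroup (Fin 2) F)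
    (hc : (g : Matrix (Fin 2 ⊕ Fin 2) (Fin 2 ⊕ Fin 2) F) * Zm F =
      Zm F * (g : Matrix (Fin 2 ⊕ Fin 2) (Fin 2 ⊕ Fin 2) F)) :
    ∃ a b : Matrix.SpecialLinearGroup (Fin 2) F, g = Ψ (a, b) := by
  obtain ⟨M, hMsp⟩ := g
  simp only at hc
  have hz : ∀ i j, M i j * (Sum.elim ![-1, 1] ![-1, 1] : Fin 2 ⊕ Fin 2 → F) j =
      (Sum.elim ![-1, 1] ![-1, 1] : Fin 2 ⊕ Fin 2 → F) i * M i j := by
    intro i j
    have := congrFun (congrFun hc i) j
    rwa [Zm, Matrix.mul_diagonal, Matrix.diagonal_mul] at this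
  have e1 : M (Sum.inl 0) (Sum.inl 1) = 0 := eq_zero_of_a h2 (by simpa using hz (Sum.inl 0) (Sum.inl 1))
  have e2 : M (Sum.inl 1) (Sum.inl 0) = 0 := eq_zero_of_b h2 (by simpa using hz (Sum.inl 1) (Sum.inl 0))
  have e3 : M (Sum.inl 0) (Sum.inr 1) = 0 := eq_zero_of_a h2 (by simpa using hz (Sum.inl 0) (Sum.inr 1))
  have e4 : M (Sum.inl 1) (Sum.inr 0) = 0 := eq_zero_of_b h2 (by simpa using hz (Sum.inl 1) (Sum.inr 0))
  have e5 : M (Sum.inr 0) (Sum.inl 1) = 0 := eq_zero_of_a h2 (by simpa using hz (Sum.inr 0) (Sum.inl 1))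
  have e6 : M (Sum.inr 1) (Sum.inl 0) = 0 := eq_zero_of_b h2 (by simpa using hz (Sum.inr 1) (Sum.inl 0))
  have e7 : M (Sum.inr 0) (Sum.inr 1) = 0 := eq_zero_of_a h2 (by simpa using hz (Sum.inr 0) (Sum.inr 1))
  have e8 : M (Sum.inr 1) (Sum.inr 0) = 0 := eq_zero_of_b h2 (by simpa using hz (Sum.inr 1) (Sum.inr 0))
  set a' : Matrix (Fin 2) (Fin 2) F :=
    !![M (Sum.inl 0) (Sum.inl 0), M (Sum.inl 0) (Sum.inr 0);
       M (Sum.inr 0) (Sum.inl 0), M (Sum.inr 0) (Sum.inr 0)] with ha'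
  set b' : Matrix (Fin 2) (Fin 2) F :=
    !![M (Sum.inl 1) (Sum.inl 1), M (Sum.inl 1) (Sum.inr 1);
       M (Sum.inr 1) (Sum.inl 1), M (Sum.inr 1) (Sum.inr 1)] with hb'
  have hMP : M = PsiMat a' b' := by
    ext (i | i) (j | j) <;> fin_cases i <;> fin_cases j <;>
      simp [PsiMat, Matrix.fromBlocks, Matrix.diagonal, ha', hb', e1, e2, e3, e4, e5, e6, e7, e8]
  have hJ : M * Matrix.J (Fin 2) F * Mᵀ = Matrix.J (Fin 2) F :=
    SymplecticGroup.mem_iff.mp hMsp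
  have d1 := congrFun (congrFun hJ (Sum.inl 0)) (Sum.inr 0)
  have d2 := congrFun (congrFun hJ (Sum.inl 1)) (Sum.inr 1)
  simp [Matrix.J, Matrix.mul_apply, Fintype.sum_sum_type, Matrix.fromBlocks,
    Matrix.transpose_apply, e1, e2, e3, e4, e5, e6, e7, e8] at d1 d2
  have hda : a'.det = 1 := by
    rw [ha', Matrix.det_fin_two_of]
    linear_combination -d1
  have hdb : b'.det = 1 := by
    rw [hb', Matrix.det_fin_two_of]
    linear_combination -d2
  refine ⟨⟨a', hda⟩, ⟨b', hdb⟩, Subtype.ext ?_⟩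
  exact hMP.trans (hΨ ⟨a', hda⟩ ⟨b', hdb⟩).symm

/-- **[GCENT]** the centralizer in `PSp₄` of the image of `diag(-1, 1, -1, 1)` -/
theorem main : GCENT.{u} := by
  intro F _ Ψ t hΨ ht h2 g hg
  obtain ⟨g', rfl⟩ := Cfsg.Agent.Lib.Helper43.SpBasic.pr_surjective g
  have H : pr (g' * Ψ (-1, 1)) = pr (Ψ (-1, 1) * g') := by
    rw [map_mul, map_mul]
    exact hg
  obtain ⟨a, ha, hmat⟩ := Cfsg.Agent.Lib.Helper43.SpBasic.exists_scalar_of_pr_eq (by norm_num) H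
  have hZ : ((Ψ (-1, 1) : Matrix.symplecticGroup (Fin 2) F) :
      Matrix (Fin 2 ⊕ Fin 2) (Fin 2 ⊕ Fin 2) F) = Zm F := by
    rw [hΨ]
    exact psiMat_neg_one_one
  rw [Submonoid.coe_mul, Submonoid.coe_mul, hZ] at hmat
  have ht' : (t : Matrix (Fin 2 ⊕ Fin 2) (Fin 2 ⊕ Fin 2) F) = T0Mat F := ht
  have ha' : a = 1 ∨ a = -1 := by
    have : (a - 1) * (a + 1) = 0 := by linear_combination ha
    rcases mul_eq_zero.mp this with h | h
    · left; linear_combination h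
    · right; linear_combination h
  rcases ha' with rfl | rfl
  · rw [one_smul] at hmat
    obtain ⟨a, b, hab⟩ := comm_case Ψ hΨ h2 g' hmat
    exact ⟨a, b, Or.inl (by rw [hab])⟩
  · have hc : ((g' * t : Matrix.symplecticGroup (Fin 2) F) :
        Matrix (Fin 2 ⊕ Fin 2) (Fin 2 ⊕ Fin 2) F) * Zm F =
        Zm F * ((g' * t : Matrix.symplecticGroup (Fin 2) F) :
          Matrix (Fin 2 ⊕ Fin 2) (Fin 2 ⊕ Fin 2) F) := by
      rw [Submonoid.coe_mul, ht', Matrix.mul_assoc, T0Mat_mul_Zm, Matrix.mul_neg,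
        ← Matrix.mul_assoc, hmat, Matrix.smul_mul, neg_smul, one_smul, neg_neg, Matrix.mul_assoc]
    obtain ⟨a, b, hab⟩ := comm_case Ψ hΨ h2 (g' * t) hc
    refine ⟨a, b, Or.inr ?_⟩
    have htt : t * t = 1 := Subtype.ext (by
      rw [Submonoid.coe_mul, ht', T0Mat_mul_self]
      rfl)
    have e : g' = Ψ (a, b) * t := by rw [← hab, mul_assoc, htt, mul_one]
    rw [e, map_mul]

end Cfsg.Agent.Lib.Helper38.Sp4GCENT
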