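import Mathlib

set_option autoImplicit false

namespace Cfsg.Agent.Lib.Helper38.SylowSym

open Equiv
open scoped Pointwise

section General

variable {G : Type*} [Group G] {H : Type*} [Group H]

/-- `K` is generated by its elements of order dividing `p`. -/
def GenPow (p : ℕ) (K : Subgroup G) : Prop :=
  K = Subgroup.closure {g : G | g ∈ K ∧ g ^ p = 1}

/-- `p`-th powers lie in the derived subgroup. -/
def PC (p : ℕ) (H : Type*) [Group H] : Prop := ∀ x : H, x ^ p ∈ commutator H

theorem genPow_map {p : ℕ} {K : Subgroup G} (f : G →* H) (hK : GenPow p K) :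
    GenPow p (K.map f) := by
  unfold GenPow at hK ⊢
  apply le_antisymm
  · conv_lhs => rw [hK]
    rw [MonoidHom.map_closure]
    apply Subgroup.closure_mono
    rintro _ ⟨g, ⟨hg, hgp⟩, rfl⟩
    exact ⟨Subgroup.mem_map_of_mem f hg, by rw [← map_pow, hgp, map_one]⟩
  · rw [Subgroup.closure_le]
    intro h hh
    exact hh.1

theorem genPow_bot (p : ℕ) : GenPow p (⊥ : Subgroup G) := by
  unfold GenPow
  apply le_antisymm
  · exact bot_le
  · rw [Subgroup.closure_le]
    intro h hh
    exact hh.1

theorem pc_of_genPow {p : ℕ} {K : Subgroup G} (hK : GenPow p K) : PC p K := by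
  intro x
  rw [← Abelianization.ker_of, MonoidHom.mem_ker, map_pow]
  have hx : (x : G) ∈ Subgroup.closure {g : G | g ∈ K ∧ g ^ p = 1} := by
    rw [← hK]
    exact x.2
  have hle : Subgroup.closure {g : G | g ∈ K ∧ g ^ p = 1} ≤ K := by
    rw [Subgroup.closure_le]
    intro h hh
    exact hh.1
  have key : ∀ (y : G) (hy : y ∈ Subgroup.closure {g : G | g ∈ K ∧ g ^ p = 1}),
      (Abelianization.of (⟨y, hle hy⟩ : K)) ^ p = 1 := by
    intro y hy
    induction hy using Subgroup.closure_induction with
    | mem y hy =>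
      rw [← map_pow]
      have : (⟨y, hle (Subgroup.subset_closure hy)⟩ : K) ^ p = 1 := Subtype.ext (by simpa using hy.2)
      rw [this, map_one]
    | one =>
      have : (⟨1, hle (Subgroup.one_mem _)⟩ : K) = 1 := rfl
      rw [this, map_one, one_pow]
    | mul y z hy hz ihy ihz =>
      have : (⟨y * z, hle (Subgroup.mul_mem _ hy hz)⟩ : K) = ⟨y, hle hy⟩ * ⟨z, hle hz⟩ := rfl
      rw [this, map_mul, mul_pow, ihy, ihz, one_mul]
    | inv y hy ihy =>
      have : (⟨y⁻¹, hle (Subgroup.inv_mem _ hy)⟩ : K) = (⟨y, hle hy⟩ : K)⁻¹ := rfl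
      rw [this, map_inv, inv_pow, ihy, inv_one]
  exact key x hx

theorem pc_of_mulEquiv {p : ℕ} (e : G ≃* H) (h : PC p G) : PC p H := by
  intro x
  have h1 := h (e.symm x)
  have h2 : e ((e.symm x) ^ p) ∈ (commutator G).map e.toMonoidHom := Subgroup.mem_map_of_mem _ h1
  rw [map_pow, MulEquiv.apply_symm_apply] at h2
  have h3 : (commutator G).map e.toMonoidHom = commutator H := by
    rw [commutator_def, commutator_def, Subgroup.map_commutator,
      Subgroup.map_top_of_surjective _ e.surjective]
  rw [h3] at h2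
  exact h2

/-- If one subgroup of Sylow order satisfies `PC`, all Sylow subgroups do. -/
theorem pc_sylow [Finite G] {p : ℕ} [Fact p.Prime] (P₀ : Subgroup G)
    (hcard : Nat.card P₀ = p ^ (Nat.card G).factorization p) (h : PC p P₀) (P : Sylow p G) :
    PC p (P : Subgroup G) := by
  obtain ⟨g, hg⟩ := MulAction.exists_smul_eq G (Sylow.ofCard P₀ hcard) P
  have h1 : (P : Subgroup G) = MulAut.conj g • P₀ := by
    rw [← hg, Sylow.coe_subgroup_smul]
    rfl
  rw [h1]
  exact pc_of_mulEquiv (Subgroup.equivSMul (MulAut.conj g) P₀) h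

end General

section Good

/-- A subgroup of `Perm α` of Sylow `p`-order, generated by elements of order dividing `p`,
whose even part is also so generated when `p = 2`. -/
def Good (p : ℕ) (α : Type*) [Fintype α] [DecidableEq α] : Prop :=
  ∃ P : Subgroup (Perm α), Nat.card P = p ^ ((Fintype.card α).factorial.factorization p) ∧
    GenPow p P ∧ (p = 2 → GenPow p (P ⊓ alternatingGroup α))

variable {p : ℕ} {α : Type*} [Fintype α] [DecidableEq α] {γ : Type*} [Fintype γ] [DecidableEq γ]

theorem good_of_hom (f : Perm α →* Perm γ) (hf : Function.Injective f)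
    (hsign : ∀ σ, Perm.sign (f σ) = Perm.sign σ)
    (hcard : (Fintype.card γ).factorial.factorization p
      = (Fintype.card α).factorial.factorization p)
    (h : Good p α) : Good p γ := by
  obtain ⟨P, hP, hgen, halt⟩ := h
  refine ⟨P.map f, ?_, genPow_map f hgen, ?_⟩
  · rw [Subgroup.card_map_of_injective hf, hP, hcard]
  · intro h2
    have e : P.map f ⊓ alternatingGroup γ = (P ⊓ alternatingGroup α).map f := by
      ext τ
      simp only [Subgroup.mem_inf, Subgroup.mem_map, Perm.mem_alternatingGroup]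
      constructor
      · rintro ⟨⟨σ, hσ, rfl⟩, hs⟩
        exact ⟨σ, ⟨hσ, by rw [← hsign]; exact hs⟩, rfl⟩
      · rintro ⟨σ, ⟨hσ, hs⟩, rfl⟩
        exact ⟨⟨σ, hσ, rfl⟩, by rw [hsign]; exact hs⟩
    rw [e]
    exact genPow_map f (halt h2)

theorem good_of_card_lt [Fact p.Prime] (h : Fintype.card α < p) : Good p α := by
  refine ⟨⊥, ?_, genPow_bot p, fun _ => ?_⟩
  · rw [Subgroup.card_bot]
    have : (Fintype.card α).factorial.factorization p = 0 := by
      apply Nat.factorization_eq_zero_of_not_dvd
      intro hd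
      have := (Nat.Prime.dvd_factorial Fact.out).mp hd
      omega
    rw [this, pow_zero]
  · rw [bot_inf_eq]
    exact genPow_bot p

end Good

section Wreath

variable {p : ℕ} [Fact p.Prime] {β : Type*} [Fintype β] [DecidableEq β]

/-- Base element: translate each fibre. -/
def bs (c : β → ZMod p) : Perm (β × ZMod p) := prodCongrRight (fun j => Equiv.addRight (c j))

/-- Top element: permute the fibres. -/
def tp (h : Perm β) : Perm (β × ZMod p) := prodCongrLeft (fun _ => h)

theorem bs_apply (c : β → ZMod p) (x : β × ZMod p) : bs c x = (x.1, x.2 + c x.1) := rfl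

theorem tp_apply (h : Perm β) (x : β × ZMod p) : tp (p := p) h x = (h x.1, x.2) := rfl

theorem bs_add (c c' : β → ZMod p) : bs (c + c') = bs c * bs c' := by
  ext x
  · rfl
  · simp only [Perm.mul_apply, bs_apply, Pi.add_apply]
    ring

theorem bs_zero : bs (0 : β → ZMod p) = 1 := by
  ext x
  · rfl
  · simp [bs_apply]

theorem bs_neg (c : β → ZMod p) : bs (-c) = (bs c)⁻¹ := by
  apply eq_inv_of_mul_eq_one_left
  rw [← bs_add, neg_add_cancel, bs_zero]

theorem bs_pow (c : β → ZMod p) (n : ℕ) : bs c ^ n = bs (n • c) := by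
  induction n with
  | zero => rw [pow_zero, zero_smul, bs_zero]
  | succ n ih => rw [pow_succ, ih, ← bs_add, succ_nsmul]

theorem bs_pow_p (c : β → ZMod p) : bs c ^ p = 1 := by
  rw [bs_pow]
  have : p • c = 0 := by
    funext j
    simp
  rw [this, bs_zero]

theorem tp_mul (h h' : Perm β) : tp (p := p) (h * h') = tp h * tp h' := by
  ext x <;> rfl

/-- `tp` as a homomorphism. -/
def tpHom : Perm β →* Perm (β × ZMod p) := MonoidHom.mk' tp tp_mul

theorem tpHom_apply (h : Perm β) : tpHom (p := p) h = tp h := rfl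

theorem tp_one : tp (p := p) (1 : Perm β) = 1 := map_one (tpHom (p := p) (β := β))

theorem tp_inv (h : Perm β) : tp (p := p) h⁻¹ = (tp h)⁻¹ := map_inv (tpHom (p := p) (β := β)) h

theorem tp_bs (h : Perm β) (c : β → ZMod p) : tp h * bs c * (tp h)⁻¹ = bs (c ∘ h.symm) := by
  rw [← tp_inv]
  ext x
  · simp [Perm.mul_apply, bs_apply, tp_apply]
  · simp [Perm.mul_apply, bs_apply, tp_apply]

theorem sign_tp (h : Perm β) : Perm.sign (tp (p := p) h) = Perm.sign h ^ p := by
  unfold tp
  rw [Perm.sign_prodCongrLeft, Finset.prod_const, Finset.card_univ, ZMod.card]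

/-- The wreath product `C_p ≀ P` acting on `β × ZMod p`. -/
def W (P : Subgroup (Perm β)) : Subgroup (Perm (β × ZMod p)) where
  carrier := {g | ∃ c : β → ZMod p, ∃ h ∈ P, g = bs c * tp h}
  mul_mem' := by
    rintro _ _ ⟨c, h, hh, rfl⟩ ⟨c', h', hh', rfl⟩
    refine ⟨c + c' ∘ h.symm, h * h', P.mul_mem hh hh', ?_⟩
    rw [bs_add, ← tp_bs, tp_mul]
    group
  one_mem' := ⟨0, 1, P.one_mem, by rw [bs_zero, tp_one, one_mul]⟩
  inv_mem' := by
    rintro _ ⟨c, h, hh, rfl⟩
    refine ⟨(-c) ∘ h, h⁻¹, P.inv_mem hh, ?_⟩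
    have h1 := tp_bs (p := p) h⁻¹ (-c)
    have h2 : (-c) ∘ (h⁻¹ : Perm β).symm = (-c) ∘ h := rfl
    rw [h2] at h1
    rw [← h1, bs_neg, tp_inv]
    group

theorem mem_W (P : Subgroup (Perm β)) (g : Perm (β × ZMod p)) :
    g ∈ W P ↔ ∃ c : β → ZMod p, ∃ h ∈ P, g = bs c * tp h := Iff.rfl

theorem bs_mem_W (P : Subgroup (Perm β)) (c : β → ZMod p) : bs c ∈ W P :=
  ⟨c, 1, P.one_mem, by rw [tp_one, mul_one]⟩

theorem tp_mem_W (P : Subgroup (Perm β)) {h : Perm β} (hh : h ∈ P) : tp (p := p) h ∈ W P :=
  ⟨0, h, hh, by rw [bs_zero, one_mul]⟩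

theorem card_W (P : Subgroup (Perm β)) :
    Nat.card (W (p := p) P) = p ^ Fintype.card β * Nat.card P := by
  have hbij : Function.Bijective (fun x : (β → ZMod p) × P =>
      (⟨bs x.1 * tp (x.2 : Perm β), ⟨x.1, x.2, x.2.2, rfl⟩⟩ : W (p := p) P)) := by
    constructor
    · rintro ⟨c, h⟩ ⟨c', h'⟩ hcc
      have h0 : bs c * tp (h : Perm β) = bs c' * tp (p := p) (h' : Perm β) :=
        congrArg Subtype.val hcc
      have h1 : ∀ j : β, ((h : Perm β) j, c ((h : Perm β) j))
          = ((h' : Perm β) j, c' ((h' : Perm β) j)) := by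
        intro j
        have := congrArg (fun g : Perm (β × ZMod p) => g (j, 0)) h0
        simpa [Perm.mul_apply, bs_apply, tp_apply] using this
      have hh : (h : Perm β) = h' := by
        ext j
        exact (Prod.ext_iff.mp (h1 j)).1
      have hc : c = c' := by
        funext k
        have h2 := (Prod.ext_iff.mp (h1 ((h : Perm β).symm k))).2
        rw [← hh] at h2
        simpa using h2
      exact Prod.ext hc (Subtype.ext hh)
    · rintro ⟨g, c, h, hh, rfl⟩
      exact ⟨(c, ⟨h, hh⟩), rfl⟩
  rw [← Nat.card_congr (Equiv.ofBijective _ hbij), Nat.card_prod, Nat.card_fun, Nat.card_zmod,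
    Nat.card_eq_fintype_card]

theorem genPow_W {P : Subgroup (Perm β)} (hP : GenPow p P) : GenPow p (W (p := p) P) := by
  unfold GenPow
  apply le_antisymm
  · rintro _ ⟨c, h, hh, rfl⟩
    apply Subgroup.mul_mem
    · exact Subgroup.subset_closure ⟨bs_mem_W P c, bs_pow_p c⟩
    · have h1 : tpHom (p := p) h ∈ (Subgroup.closure {g : Perm β | g ∈ P ∧ g ^ p = 1}).map
          (tpHom (p := p)) := by
        apply Subgroup.mem_map_of_mem
        rw [← hP]
        exact hh
      rw [MonoidHom.map_closure] at h1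
      refine (Subgroup.closure_mono ?_) h1
      rintro _ ⟨g, ⟨hg, hgp⟩, rfl⟩
      exact ⟨tp_mem_W P hg, by rw [← map_pow, hgp, map_one]⟩
  · rw [Subgroup.closure_le]
    intro g hg
    exact hg.1

theorem genPow_W_alt {P : Subgroup (Perm β)} (hp2 : p = 2) (hP : GenPow p P) :
    GenPow p (W (p := p) P ⊓ alternatingGroup (β × ZMod p)) := by
  have hsq : ∀ u : ℤˣ, u ^ p = 1 := by
    intro u
    rw [hp2]
    rcases Int.units_eq_one_or u with h | h <;> rw [h] <;> simp
  unfold GenPow
  apply le_antisymm
  · rintro g ⟨⟨c, h, hh, rfl⟩, hsign⟩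
    have htp : Perm.sign (tp (p := p) h) = 1 := by rw [sign_tp, hsq]
    have hbs : Perm.sign (bs c) = 1 := by
      have h1 : Perm.sign (bs c * tp (p := p) h) = 1 := Perm.mem_alternatingGroup.mp hsign
      rw [map_mul, htp, mul_one] at h1
      exact h1
    apply Subgroup.mul_mem
    · exact Subgroup.subset_closure
        ⟨⟨bs_mem_W P c, Perm.mem_alternatingGroup.mpr hbs⟩, bs_pow_p c⟩
    · have h1 : tpHom (p := p) h ∈ (Subgroup.closure {g : Perm β | g ∈ P ∧ g ^ p = 1}).map
          (tpHom (p := p)) := by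
        apply Subgroup.mem_map_of_mem
        rw [← hP]
        exact hh
      rw [MonoidHom.map_closure] at h1
      refine (Subgroup.closure_mono ?_) h1
      rintro _ ⟨g, ⟨hg, hgp⟩, rfl⟩
      refine ⟨⟨tp_mem_W P hg, ?_⟩, by rw [← map_pow, hgp, map_one]⟩
      exact Perm.mem_alternatingGroup.mpr (by rw [tpHom_apply, sign_tp, hsq])
  · rw [Subgroup.closure_le]
    intro g hg
    exact hg.1

theorem good_wreath (h : Good p β) : Good p (β × ZMod p) := by
  obtain ⟨P, hP, hgen, -⟩ := h
  have hp : p.Prime := Fact.out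
  refine ⟨W P, ?_, genPow_W hgen, fun hp2 => genPow_W_alt hp2 hgen⟩
  rw [card_W, hP, ← pow_add]
  congr 1
  rw [Fintype.card_prod, ZMod.card, Nat.factorization_def _ hp, Nat.factorization_def _ hp,
    mul_comm (Fintype.card β) p, padicValNat_factorial_mul, add_comm]

theorem good_fin : ∀ n : ℕ, Good p (Fin n) := by
  intro n
  induction n using Nat.strong_induction_on with
  | _ n ih =>
    have hp : p.Prime := Fact.out
    by_cases hn : n < p
    · apply good_of_card_lt
      rw [Fintype.card_fin]
      exact hn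
    · push Not at hn
      have hm : n / p < n := Nat.div_lt_self (by have := hp.pos; omega) hp.one_lt
      have h1 := good_wreath (ih (n / p) hm)
      have hr : n % p < p := Nat.mod_lt n hp.pos
      -- add `n % p` fixed points
      have h2 : Good p ((Fin (n / p) × ZMod p) ⊕ Fin (n % p)) := by
        refine good_of_hom ((Perm.sumCongrHom (Fin (n / p) × ZMod p) (Fin (n % p))).comp
          (MonoidHom.inl _ _)) ?_ ?_ ?_ h1
        · intro a b hab
          have h3 : ((MonoidHom.inl (Perm (Fin (n / p) × ZMod p)) (Perm (Fin (n % p)))) a)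
              = (MonoidHom.inl _ _) b := Perm.sumCongrHom_injective hab
          exact (Prod.ext_iff.mp h3).1
        · intro σ
          show Perm.sign (Perm.sumCongr σ 1) = Perm.sign σ
          rw [Perm.sign_sumCongr, map_one, mul_one]
        · rw [Fintype.card_sum, Fintype.card_prod, ZMod.card, Fintype.card_fin, Fintype.card_fin,
            Nat.factorization_def _ hp, Nat.factorization_def _ hp, mul_comm (n / p) p,
            padicValNat_factorial_mul_add _ hr]
      have hcard : Fintype.card ((Fin (n / p) × ZMod p) ⊕ Fin (n % p)) = n := by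
        rw [Fintype.card_sum, Fintype.card_prod, ZMod.card, Fintype.card_fin, Fintype.card_fin,
          mul_comm]
        exact Nat.div_add_mod n p
      refine good_of_hom (Equiv.permCongrHom (Fintype.equivFinOfCardEq hcard)).toMonoidHom
        (Equiv.permCongrHom (Fintype.equivFinOfCardEq hcard)).injective ?_ ?_ h2
      · intro σ
        exact Perm.sign_permCongr _ σ
      · rw [hcard, Fintype.card_fin]

end Wreath

section Final

variable {p : ℕ} [Fact p.Prime]

theorem pc_sylow_perm (n : ℕ) (P : Sylow p (Perm (Fin n))) :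
    PC p (P : Subgroup (Perm (Fin n))) := by
  obtain ⟨P₀, hP₀, hgen, -⟩ := good_fin (p := p) n
  refine pc_sylow P₀ ?_ (pc_of_genPow hgen) P
  rw [hP₀, Nat.card_perm, Nat.card_fin, Fintype.card_fin]

theorem card_inf_alt {n : ℕ} (hn : 2 ≤ n) (P₀ : Subgroup (Perm (Fin n)))
    (hP₀ : Nat.card P₀ = p ^ (n.factorial.factorization p)) :
    Nat.card (P₀ ⊓ alternatingGroup (Fin n) : Subgroup (Perm (Fin n)))
      = p ^ (Nat.card (alternatingGroup (Fin n))).factorization p := by
  have hp : p.Prime := Fact.out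
  have hnt : Nontrivial (Fin n) := Fin.nontrivial_iff_two_le.mpr hn
  have hA2 : 2 * Nat.card (alternatingGroup (Fin n)) = n.factorial := by
    rw [two_mul_nat_card_alternatingGroup, Nat.card_perm, Nat.card_fin]
  have hA0 : Nat.card (alternatingGroup (Fin n)) ≠ 0 := Nat.card_pos.ne'
  -- `Q₁` is a `p`-group
  have hpg : IsPGroup p P₀ := IsPGroup.of_card hP₀
  have hpg1 : IsPGroup p (P₀ ⊓ alternatingGroup (Fin n) : Subgroup (Perm (Fin n))) :=
    hpg.to_le inf_le_left
  obtain ⟨k, hk⟩ := IsPGroup.iff_card.mp hpg1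
  rw [hk]
  congr 1
  have hk_le : k ≤ (Nat.card (alternatingGroup (Fin n))).factorization p := by
    rw [← Nat.Prime.pow_dvd_iff_le_factorization hp hA0, ← hk]
    have h1 := Subgroup.card_dvd_of_le
      (inf_le_right : P₀ ⊓ alternatingGroup (Fin n) ≤ alternatingGroup (Fin n))
    exact h1
  -- index
  have hidx : Nat.card (P₀ ⊓ alternatingGroup (Fin n) : Subgroup (Perm (Fin n)))
      * (alternatingGroup (Fin n)).relIndex P₀ = Nat.card P₀ := by
    have h1 := Subgroup.card_mul_index ((alternatingGroup (Fin n)).subgroupOf P₀)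
    have h2 : Nat.card ((alternatingGroup (Fin n)).subgroupOf P₀)
        = Nat.card (P₀ ⊓ alternatingGroup (Fin n) : Subgroup (Perm (Fin n))) := by
      rw [← Subgroup.inf_subgroupOf_left (alternatingGroup (Fin n)) P₀]
      exact Nat.card_congr (Subgroup.subgroupOfEquivOfLe inf_le_left).toEquiv
    rw [h2] at h1
    exact h1
  have hr2 : (alternatingGroup (Fin n)).relIndex P₀ ∣ 2 := by
    have h1 := Subgroup.relIndex_dvd_index_of_normal (alternatingGroup (Fin n)) P₀
    rw [alternatingGroup.index_eq_two] at h1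
    exact h1
  rw [hk, hP₀] at hidx
  have hv : n.factorial.factorization p
      = (2 : ℕ).factorization p + (Nat.card (alternatingGroup (Fin n))).factorization p := by
    rw [← hA2, Nat.factorization_mul (by norm_num) hA0]
    rfl
  rw [hv] at hidx
  apply le_antisymm hk_le
  by_cases hp2 : p = 2
  · subst hp2
    rw [Nat.Prime.factorization_self Nat.prime_two] at hidx
    have hr_le : (alternatingGroup (Fin n)).relIndex P₀ ≤ 2 := Nat.le_of_dvd (by norm_num) hr2
    have h3 : 2 ^ (1 + (Nat.card (alternatingGroup (Fin n))).factorization 2) ≤ 2 ^ (k + 1) := by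
      rw [← hidx, pow_succ]
      exact Nat.mul_le_mul_left _ hr_le
    have h4 := (Nat.pow_le_pow_iff_right (by norm_num : 1 < 2)).mp h3
    omega
  · have h0 : (2 : ℕ).factorization p = 0 := by
      apply Nat.factorization_eq_zero_of_not_dvd
      intro hd
      exact hp2 ((Nat.prime_dvd_prime_iff_eq hp Nat.prime_two).mp hd)
    rw [h0, zero_add] at hidx
    by_contra hlt
    push Not at hlt
    have h5 : p ^ (k + 1) ∣ p ^ k * (alternatingGroup (Fin n)).relIndex P₀ := by
      rw [hidx]
      exact pow_dvd_pow p hlt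
    rw [pow_succ] at h5
    have h6 : p ∣ (alternatingGroup (Fin n)).relIndex P₀ :=
      (Nat.mul_dvd_mul_iff_left (pow_pos hp.pos k)).mp h5
    exact hp2 ((Nat.prime_dvd_prime_iff_eq hp Nat.prime_two).mp (h6.trans hr2))

theorem pc_sylow_alt (n : ℕ) (Q : Sylow p (alternatingGroup (Fin n))) :
    PC p (Q : Subgroup (alternatingGroup (Fin n))) := by
  have hp : p.Prime := Fact.out
  rcases Nat.lt_or_ge n 2 with hn | hn
  · intro x
    have hss : Subsingleton (Fin n) := by
      rw [Fin.subsingleton_iff_le_one]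
      omega
    have : x ^ p = 1 := Subtype.ext (Subtype.ext (Subsingleton.elim _ _))
    rw [this]
    exact one_mem _
  · obtain ⟨P₀, hP₀, hgen, halt⟩ := good_fin (p := p) n
    rw [Fintype.card_fin] at hP₀
    have hgen1 : GenPow p (P₀ ⊓ alternatingGroup (Fin n)) := by
      by_cases hp2 : p = 2
      · exact halt hp2
      · have hle : P₀ ≤ alternatingGroup (Fin n) := by
          have hgen' : P₀ = Subgroup.closure {g : Perm (Fin n) | g ∈ P₀ ∧ g ^ p = 1} := hgen
          rw [hgen', Subgroup.closure_le]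
          rintro g ⟨-, hgp⟩
          apply Perm.mem_alternatingGroup.mpr
          have h1 : Perm.sign g ^ p = 1 := by rw [← map_pow, hgp, map_one]
          rcases Int.units_eq_one_or (Perm.sign g) with h | h
          · exact h
          · exfalso
            rw [h, (hp.odd_of_ne_two hp2).neg_one_pow] at h1
            exact absurd h1 (by decide)
        rw [inf_eq_left.mpr hle]
        exact hgen
    have hcard := card_inf_alt hn P₀ hP₀
    have hpc1 : PC p (P₀ ⊓ alternatingGroup (Fin n) : Subgroup (Perm (Fin n))) :=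
      pc_of_genPow hgen1
    have hpc0 : PC p ((P₀ ⊓ alternatingGroup (Fin n)).subgroupOf (alternatingGroup (Fin n))) :=
      pc_of_mulEquiv (Subgroup.subgroupOfEquivOfLe inf_le_right).symm hpc1
    refine pc_sylow ((P₀ ⊓ alternatingGroup (Fin n)).subgroupOf (alternatingGroup (Fin n)))
      ?_ hpc0 Q
    rw [← hcard]
    exact Nat.card_congr (Subgroup.subgroupOfEquivOfLe inf_le_right).toEquiv

end Final

end Cfsg.Agent.Lib.Helper38.SylowSym
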