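import Mathlib
import Cfsg.Agent.S0081
import Cfsg.Agent.S0051
import Cfsg.Agent.S0101
import Cfsg.Agent.S0542
import Cfsg.Agent.Lib.Helper63.PFrattini
import Cfsg.Agent.Lib.Helper47.Frat
import Cfsg.Agent.Lib.Helper78.Fitting
import Cfsg.Agent.Lib.Helper21.NormComp
import Cfsg.Agent.Lib.Helper21.MinNormal
import Cfsg.Agent.Lib.Helper22.Layer
import Cfsg.Agent.Lib.Helper22.PComp
import Cfsg.Agent.Lib.Helper34.LBal2
import Cfsg.Agent.Lib.Helper50.Cores

set_option autoImplicit false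
open Cfsg

namespace Cfsg.Agent.Lib.Helper38.TwoGen

open Subgroup
open scoped commutatorElement

/-- A normal subgroup not inside the Frattini subgroup of a two-generated group has a cyclic
quotient: the group is generated by one element modulo it. -/
theorem exists_gen_mod {Q : Type*} [Group Q] [Finite Q] {p : ℕ} [Fact p.Prime]
    (hgen : (frattini Q).index = p ^ 2) (D : Subgroup Q) [D.Normal]
    (hD : ¬ D ≤ frattini Q) : ∃ w : Q, ∀ q : Q, ∃ k : ℤ, ∃ d ∈ D, q = w ^ k * d := by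
  have hp : p.Prime := Fact.out
  have hle : frattini Q ≤ D ⊔ frattini Q := le_sup_right
  have hdvd : (D ⊔ frattini Q).index ∣ p ^ 2 := by
    rw [← hgen]; exact Subgroup.index_dvd_of_le hle
  obtain ⟨i, hi, hidx⟩ := (Nat.dvd_prime_pow hp).mp hdvd
  have hi2 : i ≠ 2 := by
    rintro rfl
    apply hD
    have h1 := Subgroup.relIndex_mul_index hle
    rw [hidx, hgen] at h1
    have h2 : (frattini Q).relIndex (D ⊔ frattini Q) = 1 := by
      have hpos : 0 < p ^ 2 := pow_pos hp.pos 2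
      exact Nat.eq_of_mul_eq_mul_right hpos (by rw [h1, one_mul])
    exact le_sup_left.trans (Subgroup.relIndex_eq_one.mp h2)
  have hw : ∃ w : Q, ∀ q : Q, ∃ k : ℤ, w ^ (-k) * q ∈ D ⊔ frattini Q := by
    have hi1 : i = 0 ∨ i = 1 := by omega
    rcases hi1 with rfl | rfl
    · have htop : D ⊔ frattini Q = ⊤ := Subgroup.index_eq_one.mp (by simpa using hidx)
      exact ⟨1, fun q => ⟨0, by rw [htop]; trivial⟩⟩
    · have hcard : Nat.card (Q ⧸ (D ⊔ frattini Q)) = p := by
        rw [← Subgroup.index_eq_card, hidx, pow_one]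
      have hcyc : IsCyclic (Q ⧸ (D ⊔ frattini Q)) := isCyclic_of_prime_card hcard
      obtain ⟨g, hg⟩ := hcyc.exists_generator
      obtain ⟨w, rfl⟩ := QuotientGroup.mk_surjective g
      refine ⟨w, fun q => ?_⟩
      obtain ⟨k, hk⟩ := Subgroup.mem_zpowers_iff.mp (hg (q : Q ⧸ (D ⊔ frattini Q)))
      refine ⟨k, ?_⟩
      rw [← QuotientGroup.eq_one_iff, QuotientGroup.mk_mul, QuotientGroup.mk_zpow, ← hk,
        ← zpow_add]
      simp
  obtain ⟨w, hw⟩ := hw
  refine ⟨w, ?_⟩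
  have htop : (Subgroup.zpowers w ⊔ D) ⊔ frattini Q = ⊤ := by
    rw [eq_top_iff]
    intro q _
    obtain ⟨k, hk⟩ := hw q
    have hq : q = w ^ k * (w ^ (-k) * q) := by group
    rw [hq, sup_assoc]
    exact Subgroup.mul_mem_sup (Subgroup.zpow_mem_zpowers w k) hk
  have htop2 : Subgroup.zpowers w ⊔ D = ⊤ := frattini_nongenerating htop
  intro q
  have hq : q ∈ ((Subgroup.zpowers w ⊔ D : Subgroup Q) : Set Q) := by rw [htop2]; trivial
  rw [Subgroup.mul_normal] at hq
  obtain ⟨a, ha, d, hd, rfl⟩ := Set.mem_mul.mp hq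
  obtain ⟨k, rfl⟩ := Subgroup.mem_zpowers_iff.mp ha
  exact ⟨k, d, hd, rfl⟩

theorem comm_mem_of_gen {Q : Type*} [Group Q] (D : Subgroup Q) [D.Normal] (w : Q)
    (hw : ∀ q : Q, ∃ k : ℤ, ∃ d ∈ D, q = w ^ k * d) (a b : Q) : a * b * a⁻¹ * b⁻¹ ∈ D := by
  obtain ⟨k, d, hd, rfl⟩ := hw a
  obtain ⟨l, e, he, rfl⟩ := hw b
  rw [← QuotientGroup.eq_one_iff]
  have h1 : ((d : Q) : Q ⧸ D) = 1 := (QuotientGroup.eq_one_iff d).mpr hd
  have h2 : ((e : Q) : Q ⧸ D) = 1 := (QuotientGroup.eq_one_iff e).mpr he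
  simp only [QuotientGroup.mk_mul, QuotientGroup.mk_inv, QuotientGroup.mk_zpow, h1, h2, mul_one]
  rw [← zpow_add, add_comm, zpow_add]
  group

/-- The Frattini subgroup is functorial for homomorphisms into finite `p`-groups. -/
theorem frattini_map_le {A B : Type*} [Group A] [Group B] [Finite A] [Finite B] {p : ℕ}
    [Fact p.Prime] (hB : IsPGroup p B) (φ : A →* B) : (frattini A).map φ ≤ frattini B := by
  rw [Subgroup.map_le_iff_le_comap]
  apply Cfsg.Agent.Lib.Helper47.Frat.frattini_le_of_pow_comm (p := p)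
  · intro x
    rw [Subgroup.mem_comap, map_pow]
    exact Cfsg.Agent.Lib.Helper63.PFrattini.pow_mem_frattini hB _
  · rw [commutator_eq_closure, Subgroup.closure_le]
    rintro _ ⟨u, v, rfl⟩
    rw [SetLike.mem_coe, Subgroup.mem_comap, map_commutatorElement, commutatorElement_def]
    exact Cfsg.Agent.Lib.Helper63.PFrattini.comm_mem_frattini hB _ _

theorem commutator_eq_top_of_self {X : Type*} [Group X] (N : Subgroup X) (hperf : ⁅N, N⁆ = N) :
    _root_.commutator N = ⊤ := by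
  apply Subgroup.map_injective N.subtype_injective
  rw [commutator_def, Subgroup.map_commutator, ← MonoidHom.range_eq_map, Subgroup.range_subtype,
    hperf]

/-- Tate's theorem for a perfect normal subgroup: it is a `p'`-group. -/
theorem coprime_of_perfect_of_le_frattini {X : Type*} [Group X] [Finite X] {p : ℕ}
    [Fact p.Prime] (PX : Sylow p X) (N : Subgroup X) [N.Normal]
    (h : N ⊓ (PX : Subgroup X) ≤ (frattini PX).map (PX : Subgroup X).subtype)
    (hperf : ⁅N, N⁆ = N) : (Nat.card N).Coprime p := by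
  obtain ⟨P', C, hCn, hC⟩ := Cfsg.Agent.S0081.result PX N h
  have hidx : C.index = Nat.card (P' : Subgroup N) := hC.symm.index_eq_card
  have hQp : IsPGroup p (N ⧸ C) := by
    obtain ⟨k, hk⟩ := P'.isPGroup'.exists_card_eq
    apply IsPGroup.of_card (n := k)
    rw [← hk, ← hidx, Subgroup.index_eq_card]
  have hperfN : _root_.commutator N = ⊤ := commutator_eq_top_of_self N hperf
  have hperfQ : _root_.commutator (N ⧸ C) = ⊤ := by
    have h1 := Subgroup.map_commutator (⊤ : Subgroup N) ⊤ (QuotientGroup.mk' C)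
    rw [Subgroup.map_top_of_surjective _ (QuotientGroup.mk'_surjective C), ← commutator_def,
      ← commutator_def, hperfN, Subgroup.map_top_of_surjective _ (QuotientGroup.mk'_surjective C)]
      at h1
    exact h1.symm
  have htriv : Subsingleton (N ⧸ C) := by
    by_contra hns
    rw [not_subsingleton_iff_nontrivial] at hns
    have hnil : Group.IsNilpotent (N ⧸ C) := hQp.isNilpotent
    have hlt := Group.IsSolvable.commutator_lt_top_of_nontrivial (N ⧸ C)
    exact (ne_of_lt hlt) hperfQ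
  have hCtop : C = ⊤ := QuotientGroup.subgroup_eq_top_of_subsingleton C htriv
  have hP'bot : (P' : Subgroup N) = ⊥ := by
    rw [hCtop] at hC
    exact Subgroup.isComplement'_top_left.mp hC
  have hp : p.Prime := Fact.out
  rw [Nat.coprime_comm, Nat.Prime.coprime_iff_not_dvd hp]
  intro hdvd
  exact Sylow.ne_bot_of_dvd_card P' hdvd hP'bot

/-- In a cyclic `p`-group an element of order `p` lies in every nontrivial subgroup. -/
theorem zpowers_inf_eq_bot {G : Type*} [Group G] [Finite G] {p : ℕ} [Fact p.Prime] (w g : G)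
    (N : Subgroup G) (e : ℕ) (hw : w ^ p ^ e = 1)
    (hg : g ∈ Subgroup.zpowers w) (hgp : g ^ p = 1) (hgN : g ∉ N) :
    Subgroup.zpowers w ⊓ N = ⊥ := by
  classical
  have hp : p.Prime := Fact.out
  rw [eq_bot_iff]
  rintro y ⟨hyC, hyN⟩
  rw [Subgroup.mem_bot]
  by_contra hy1
  have hye : y ^ p ^ e = 1 := by
    obtain ⟨j, rfl⟩ := Subgroup.mem_zpowers_iff.mp hyC
    rw [← zpow_natCast, ← zpow_mul, mul_comm, zpow_mul, zpow_natCast, hw, one_zpow]
  obtain ⟨a, ha, hya⟩ := (Nat.dvd_prime_pow hp).mp (orderOf_dvd_of_pow_eq_one hye)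
  have ha0 : a ≠ 0 := by
    rintro rfl
    rw [pow_zero, orderOf_eq_one_iff] at hya
    exact hy1 hya
  obtain ⟨b, rfl⟩ := Nat.exists_eq_succ_of_ne_zero ha0
  have hz1 : y ^ p ^ b ≠ 1 := by
    apply pow_ne_one_of_lt_orderOf (pow_pos hp.pos b).ne'
    rw [hya]
    exact Nat.pow_lt_pow_right hp.one_lt (Nat.lt_succ_self b)
  have hzp : (y ^ p ^ b) ^ p = 1 := by
    rw [← pow_mul, ← pow_succ, ← hya, pow_orderOf_eq_one]
  have hzN : y ^ p ^ b ∈ N := N.pow_mem hyN _
  have hzC : y ^ p ^ b ∈ Subgroup.zpowers w := Subgroup.pow_mem _ hyC _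
  have : Fintype (Subgroup.zpowers w) := Fintype.ofFinite _
  have hS := IsCyclic.card_pow_eq_one_le (α := Subgroup.zpowers w) hp.pos
  have hord : orderOf (⟨y ^ p ^ b, hzC⟩ : Subgroup.zpowers w) = p :=
    orderOf_eq_prime (Subtype.ext (by simpa using hzp)) (fun h => hz1 (by simpa using congrArg Subtype.val h))
  have hinj : Set.InjOn (fun i : ℕ => (⟨y ^ p ^ b, hzC⟩ : Subgroup.zpowers w) ^ i)
      (Finset.range p : Set ℕ) := by
    have := pow_injOn_Iio_orderOf (x := (⟨y ^ p ^ b, hzC⟩ : Subgroup.zpowers w))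
    rw [hord] at this
    intro i hi j hj hij
    exact this (by simpa using hi) (by simpa using hj) hij
  have hTcard : ((Finset.range p).image
      (fun i : ℕ => (⟨y ^ p ^ b, hzC⟩ : Subgroup.zpowers w) ^ i)).card = p := by
    rw [Finset.card_image_of_injOn hinj, Finset.card_range]
  have hTS : (Finset.range p).image (fun i : ℕ => (⟨y ^ p ^ b, hzC⟩ : Subgroup.zpowers w) ^ i)
      ⊆ Finset.univ.filter (fun a : Subgroup.zpowers w => a ^ p = 1) := by
    intro x hx
    obtain ⟨i, -, rfl⟩ := Finset.mem_image.mp hx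
    rw [Finset.mem_filter]
    refine ⟨Finset.mem_univ _, ?_⟩
    rw [← pow_mul, mul_comm, pow_mul]
    have : (⟨y ^ p ^ b, hzC⟩ : Subgroup.zpowers w) ^ p = 1 := Subtype.ext (by simpa using hzp)
    rw [this, one_pow]
  have heq := Finset.eq_of_subset_of_card_le hTS (by rw [hTcard]; exact hS)
  have hgS : (⟨g, hg⟩ : Subgroup.zpowers w) ∈
      Finset.univ.filter (fun a : Subgroup.zpowers w => a ^ p = 1) := by
    rw [Finset.mem_filter]
    exact ⟨Finset.mem_univ _, Subtype.ext (by simpa using hgp)⟩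
  rw [← heq] at hgS
  obtain ⟨i, -, hi⟩ := Finset.mem_image.mp hgS
  apply hgN
  have hi' : (y ^ p ^ b) ^ i = g := by simpa using congrArg Subtype.val hi
  rw [← hi']
  exact N.pow_mem hzN i

section ambient

variable {G : Type*} [Group G] [Finite G] {p : ℕ} [Fact p.Prime]

/-- Tate's theorem for a perfect subgroup normalized by the Sylow subgroup. -/
theorem coprime_of_perfect_sub (P : Sylow p G) (M : Subgroup G)
    (hPM : (P : Subgroup G) ≤ normalizer (M : Set G))
    (h : M ⊓ (P : Subgroup G) ≤ (frattini P).map (P : Subgroup G).subtype)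
    (hperf : ⁅M, M⁆ = M) : (Nat.card M).Coprime p := by
  have hMT : M ≤ M ⊔ (P : Subgroup G) := le_sup_left
  have hPT : (P : Subgroup G) ≤ M ⊔ (P : Subgroup G) := le_sup_right
  have hTn : M ⊔ (P : Subgroup G) ≤ normalizer (M : Set G) := sup_le le_normalizer hPM
  have hNn : (M.subgroupOf (M ⊔ (P : Subgroup G))).Normal :=
    (Subgroup.normal_subgroupOf_iff_le_normalizer hMT).2 hTn
  have hperf' : ⁅M.subgroupOf (M ⊔ (P : Subgroup G)), M.subgroupOf (M ⊔ (P : Subgroup G))⁆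
      = M.subgroupOf (M ⊔ (P : Subgroup G)) := by
    apply Subgroup.map_injective (M ⊔ (P : Subgroup G)).subtype_injective
    rw [Subgroup.map_commutator, Subgroup.subgroupOf_map_subtype, inf_of_le_left hMT, hperf]
  have hfr : M.subgroupOf (M ⊔ (P : Subgroup G)) ⊓ ((P.subtype hPT : Sylow p _) : Subgroup _)
      ≤ (frattini (P.subtype hPT : Sylow p _)).map
        ((P.subtype hPT : Sylow p _) : Subgroup _).subtype := by
    rintro z ⟨hzM, hzP⟩
    have hzM' : (z : G) ∈ M := Subgroup.mem_subgroupOf.mp hzM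
    have hzP' : (z : G) ∈ (P : Subgroup G) := by
      have h1 : z ∈ ((P.subtype hPT : Sylow p _) : Subgroup _) := hzP
      rw [Sylow.coe_subtype] at h1
      exact Subgroup.mem_subgroupOf.mp h1
    obtain ⟨y, hyF, hyz⟩ := h ⟨hzM', hzP'⟩
    have hψ := frattini_map_le (p := p) (P.subtype hPT : Sylow p _).isPGroup'
      ((Subgroup.inclusion hPT).codRestrict ((P.subtype hPT : Sylow p _) : Subgroup _)
        (fun y => by
          rw [Sylow.coe_subtype, Subgroup.mem_subgroupOf]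
          exact y.2))
    refine ⟨_, hψ (Subgroup.mem_map_of_mem _ hyF), ?_⟩
    apply Subtype.ext
    exact hyz
  have hcop := coprime_of_perfect_of_le_frattini (P.subtype hPT) (M.subgroupOf _) hfr hperf'
  rwa [Nat.card_congr (Subgroup.subgroupOfEquivOfLe hMT).toEquiv] at hcop

/-- Tate's theorem: a nontrivial normal subgroup does not meet `P` inside `Φ(P)`. -/
theorem not_le_frattini (P : Sylow p G) (hcore : Cfsg.pPrimeCore p G = ⊥)
    (hfrat : ((frattini P).map (P : Subgroup G).subtype).normalCore = ⊥)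
    (K : Subgroup G) [hKn : K.Normal] (hK : K ≠ ⊥) :
    ¬ K ⊓ (P : Subgroup G) ≤ (frattini P).map (P : Subgroup G).subtype := by
  intro h
  obtain ⟨P', C, hCn, hC⟩ := Cfsg.Agent.S0081.result P K h
  have hp : p.Prime := Fact.out
  have hcoreK : Cfsg.pPrimeCore p K = ⊥ := by
    rw [Cfsg.Agent.Lib.Helper22.PComp.pPrimeCore_eq_subgroupOf p hKn.isSubnormal, hcore,
      Subgroup.bot_subgroupOf]
  have hCcop : (Nat.card C).Coprime p := by
    rw [← hC.index_eq_card, Nat.coprime_comm, Nat.Prime.coprime_iff_not_dvd hp]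
    exact P'.not_dvd_index
  have hCbot : C = ⊥ := by
    have := Cfsg.Agent.Lib.Helper50.Cores.le_pPrimeCore p C hCn hCcop
    rwa [hcoreK, le_bot_iff] at this
  have hP'top : (P' : Subgroup K) = ⊤ := by
    rw [hCbot] at hC
    exact Subgroup.isComplement'_bot_left.mp hC
  have hKp : IsPGroup p K := by
    intro x
    have hx : x ∈ (P' : Subgroup K) := by rw [hP'top]; trivial
    obtain ⟨k, hk⟩ := P'.isPGroup' ⟨x, hx⟩
    exact ⟨k, by simpa using congrArg Subtype.val hk⟩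
  have hKP : K ≤ (P : Subgroup G) :=
    Cfsg.Agent.Lib.Helper78.Fitting.normal_pGroup_le_sylow hKn hKp P
  have hKΦ : K ≤ (frattini P).map (P : Subgroup G).subtype := (le_inf le_rfl hKP).trans h
  have := Subgroup.normal_le_normalCore.mpr hKΦ
  rw [hfrat, le_bot_iff] at this
  exact hK this

/-- A subgroup normalized by `P` and not meeting `P` inside `Φ(P)`: `P` is generated by one
element modulo it. -/
theorem exists_gen_sub (P : Sylow p G) (hgen : (frattini (P : Subgroup G)).index = p ^ 2)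
    (M : Subgroup G) (hPM : (P : Subgroup G) ≤ normalizer (M : Set G))
    (hM : ¬ M ⊓ (P : Subgroup G) ≤ (frattini P).map (P : Subgroup G).subtype) :
    ∃ w ∈ (P : Subgroup G), ∀ q ∈ (P : Subgroup G), ∃ k : ℤ, ∃ d ∈ M, q = w ^ k * d := by
  have hDn : (M.subgroupOf (P : Subgroup G)).Normal := by
    constructor
    intro d hd q
    rw [Subgroup.mem_subgroupOf] at hd ⊢
    have hq := hPM q.2
    rw [Subgroup.mem_normalizer_iff] at hq
    simpa using (hq d).mp hd
  have hD : ¬ M.subgroupOf (P : Subgroup G) ≤ frattini (P : Subgroup G) := by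
    intro hle
    apply hM
    rintro x ⟨hxM, hxP⟩
    exact ⟨⟨x, hxP⟩, hle (Subgroup.mem_subgroupOf.mpr hxM), rfl⟩
  obtain ⟨w, hw⟩ := exists_gen_mod hgen (M.subgroupOf (P : Subgroup G)) hD
  refine ⟨w.1, w.2, fun q hq => ?_⟩
  obtain ⟨k, d, hd, he⟩ := hw ⟨q, hq⟩
  refine ⟨k, d.1, Subgroup.mem_subgroupOf.mp hd, ?_⟩
  have := congrArg Subtype.val he
  simpa using this

omit [Finite G] in
theorem comm_mem_of_gen_sub (P M : Subgroup G) (hPM : P ≤ normalizer (M : Set G)) (w : G)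
    (hw : ∀ q ∈ P, ∃ k : ℤ, ∃ d ∈ M, q = w ^ k * d) (a b : G) (ha : a ∈ P) (hb : b ∈ P) :
    a * b * a⁻¹ * b⁻¹ ∈ M := by
  obtain ⟨k, d, hd, rfl⟩ := hw a ha
  obtain ⟨l, e, he, rfl⟩ := hw b hb
  -- `w ^ k` and `w ^ l` normalize `M`
  have hwk : w ^ k ∈ normalizer (M : Set G) := by
    have h1 := hPM ha
    have h2 : w ^ k = w ^ k * d * d⁻¹ := by group
    rw [h2]
    exact Subgroup.mul_mem _ h1 (Subgroup.inv_mem _ (le_normalizer hd))
  have hwl : w ^ l ∈ normalizer (M : Set G) := by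
    have h1 := hPM hb
    have h2 : w ^ l = w ^ l * e * e⁻¹ := by group
    rw [h2]
    exact Subgroup.mul_mem _ h1 (Subgroup.inv_mem _ (le_normalizer he))
  have hk1 := (Subgroup.mem_normalizer_iff.mp hwk)
  have hl1 := (Subgroup.mem_normalizer_iff.mp hwl)
  have hcomm : w ^ k * w ^ l = w ^ l * w ^ k := by
    rw [← zpow_add, add_comm, zpow_add]
  -- the commutator equals a product of conjugates of elements of `M`
  have e1 : w ^ k * d * (w ^ l * e) * (w ^ k * d)⁻¹ * (w ^ l * e)⁻¹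
      = (w ^ k * (d * (w ^ l * (e * d⁻¹) * (w ^ l)⁻¹)) * (w ^ k)⁻¹) * (w ^ l * e⁻¹ * (w ^ l)⁻¹) := by
    have h3 : w ^ k * w ^ l * (w ^ k)⁻¹ = w ^ l := by rw [hcomm]; group
    calc w ^ k * d * (w ^ l * e) * (w ^ k * d)⁻¹ * (w ^ l * e)⁻¹
        = w ^ k * d * w ^ l * e * d⁻¹ * (w ^ k)⁻¹ * e⁻¹ * (w ^ l)⁻¹ := by group
      _ = w ^ k * d * w ^ l * e * d⁻¹ * (w ^ l)⁻¹ * (w ^ k * w ^ l * (w ^ k)⁻¹) * (w ^ k)⁻¹ * e⁻¹
            * (w ^ l)⁻¹ := by group
      _ = w ^ k * d * w ^ l * e * d⁻¹ * (w ^ l)⁻¹ * w ^ l * (w ^ k)⁻¹ * e⁻¹ * (w ^ l)⁻¹ := by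
          rw [h3]
      _ = _ := by
          have h4 : (w ^ k)⁻¹ * w ^ l = w ^ l * (w ^ k)⁻¹ := by
            rw [← zpow_neg, ← zpow_add, add_comm, zpow_add]
          calc w ^ k * d * w ^ l * e * d⁻¹ * (w ^ l)⁻¹ * w ^ l * (w ^ k)⁻¹ * e⁻¹ * (w ^ l)⁻¹
              = w ^ k * d * (w ^ l * (e * d⁻¹) * (w ^ l)⁻¹) * w ^ l * (w ^ k)⁻¹ * e⁻¹ * (w ^ l)⁻¹ := by
                group
            _ = w ^ k * d * (w ^ l * (e * d⁻¹) * (w ^ l)⁻¹) * (w ^ k)⁻¹ * (w ^ k * w ^ l * (w ^ k)⁻¹)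
                  * e⁻¹ * (w ^ l)⁻¹ := by group
            _ = w ^ k * d * (w ^ l * (e * d⁻¹) * (w ^ l)⁻¹) * (w ^ k)⁻¹ * w ^ l * e⁻¹ * (w ^ l)⁻¹ := by
                rw [h3]
            _ = _ := by group
  rw [e1]
  apply M.mul_mem
  · apply (hk1 _).mp
    exact M.mul_mem hd ((hl1 _).mp (M.mul_mem he (M.inv_mem hd)))
  · exact (hl1 _).mp (M.inv_mem he)

end ambient

end Cfsg.Agent.Lib.Helper38.TwoGen
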